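import Cfsg.Agent.Depth.DDefs
import Cfsg.Agent.Depth.S.GH1

/-!
# Depth (S5768): the factor `ff` and the sieve modulus with few primes (helper48)
-/

set_option autoImplicit false

namespace Cfsg.Agent.Depth.D

open Finset
open Cfsg.Agent.Depth.S

theorem one_le_frac {p : ℕ} (hp : 2 ≤ p) : (1 : ℝ) ≤ (p : ℝ) / (p - 1) := by
  have h : (2 : ℝ) ≤ p := by exact_mod_cast hp
  rw [le_div_iff₀ (by linarith)]
  linarith

theorem frac_anti {p q : ℕ} (hp : 2 ≤ p) (h : p ≤ q) : (q : ℝ) / (q - 1) ≤ (p : ℝ) / (p - 1) := by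
  have h1 : (2 : ℝ) ≤ p := by exact_mod_cast hp
  have h2 : (p : ℝ) ≤ q := by exact_mod_cast h
  rw [div_le_div_iff₀ (by linarith) (by linarith)]
  linarith

theorem one_le_prod_frac {T : Finset ℕ} (hT : ∀ p ∈ T, 2 ≤ p) : (1 : ℝ) ≤ ∏ p ∈ T, (p : ℝ) / (p - 1) :=
  Finset.one_le_prod fun p hp => one_le_frac (hT p hp)

theorem prod_frac_mono {S T : Finset ℕ} (h : S ⊆ T) (hT : ∀ p ∈ T, 2 ≤ p) :
    ∏ p ∈ S, (p : ℝ) / (p - 1) ≤ ∏ p ∈ T, (p : ℝ) / (p - 1) := by
  rw [← prod_sdiff h]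
  have h1 := one_le_prod_frac (T := T \ S) fun p hp => hT p (mem_sdiff.1 hp).1
  have h2 := one_le_prod_frac (T := S) fun p hp => hT p (h hp)
  nlinarith

theorem two_le_of_mem {q p : ℕ} (hp : p ∈ q.primeFactors.filter (fun p => 5 < p)) : 2 ≤ p := by
  have := (mem_filter.1 hp).2
  omega

theorem one_le_ff (q : ℕ) : 1 ≤ ff q := one_le_prod_frac fun _ => two_le_of_mem

theorem ff_pos (q : ℕ) : 0 < ff q := one_pos.trans_le (one_le_ff q)

theorem ff_zero : ff 0 = 1 := by simp [ff]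

theorem ff_one : ff 1 = 1 := by simp [ff]

theorem ff_dvd {a b : ℕ} (h : a ∣ b) (hb : 0 < b) : ff a ≤ ff b :=
  prod_frac_mono (filter_subset_filter _ (Nat.primeFactors_mono h hb.ne')) fun _ => two_le_of_mem

theorem ff_mul_le (a b : ℕ) : ff (a * b) ≤ ff a * ff b := by
  have ha1 := one_le_ff a
  have hb1 := one_le_ff b
  rcases Nat.eq_zero_or_pos (a * b) with h | h
  · rw [h, ff_zero]
    nlinarith
  have ha : a ≠ 0 := fun e => by simp [e] at h
  have hb : b ≠ 0 := fun e => by simp [e] at h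
  unfold ff
  rw [Nat.primeFactors_mul ha hb, filter_union, ← prod_union_inter]
  have h1 := one_le_prod_frac (T := a.primeFactors.filter (fun p => 5 < p) ∩ b.primeFactors.filter (fun p => 5 < p))
    fun p hp => two_le_of_mem (mem_inter.1 hp).1
  have h2 := one_le_prod_frac (T := a.primeFactors.filter (fun p => 5 < p) ∪ b.primeFactors.filter (fun p => 5 < p))
    fun p hp => (mem_union.1 hp).elim two_le_of_mem two_le_of_mem
  nlinarith

theorem ff_mul_coprime {a b : ℕ} (h : a.Coprime b) : ff (a * b) = ff a * ff b := by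
  unfold ff
  rw [h.primeFactors_mul, filter_union, prod_union (disjoint_filter_filter h.disjoint_primeFactors)]

theorem ff_congr {a b : ℕ} (h : ∀ p, p.Prime → 5 < p → (p ∣ a ↔ p ∣ b)) (ha : 0 < a) (hb : 0 < b) : ff a = ff b := by
  unfold ff
  refine prod_congr ?_ fun _ _ => rfl
  ext p
  simp only [mem_filter, Nat.mem_primeFactors]
  exact ⟨fun h1 => ⟨⟨h1.1.1, (h p h1.1.1 h1.2).1 h1.1.2.1, hb.ne'⟩, h1.2⟩,
    fun h1 => ⟨⟨h1.1.1, (h p h1.1.1 h1.2).2 h1.1.2.1, ha.ne'⟩, h1.2⟩⟩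

theorem ff_prime {p : ℕ} (hp : p.Prime) (h : 5 < p) : ff p = p / (p - 1) := by
  unfold ff
  rw [hp.primeFactors, filter_true_of_mem (by simpa using h), prod_singleton]

theorem five_lt {p d : ℕ} (hp : p.Prime) (hd : p ∣ d) (h : d.Coprime 30) : 5 < p := by
  by_contra h5
  have h2 := hp.two_le
  have h4 : p ≠ 4 := fun e => by subst e; norm_num at hp
  have h3 : p ∣ 30 := by
    have : p ≤ 5 := by omega
    interval_cases p <;> omega
  exact hp.one_lt.ne' (Nat.eq_one_of_dvd_coprimes h hd h3)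

/-- `f(d) = d / φ(d)` for `d` coprime to `30` -/
theorem ff_eq_div {d : ℕ} (hd : 0 < d) (h : d.Coprime 30) : ff d = d / d.totient := by
  have h0 : (0 : ℝ) < d := by exact_mod_cast hd
  unfold ff
  rw [filter_true_of_mem fun p hp => five_lt (Nat.prime_of_mem_primeFactors hp) (Nat.dvd_of_mem_primeFactors hp) h,
    div_eq_mul_one_div (d : ℝ), GH.inv_tot hd]
  field_simp

/-- `1 / φ(d) = f(d) / d` for `d` coprime to `30` -/
theorem inv_tot_eq {d : ℕ} (hd : 0 < d) (h : d.Coprime 30) : (1 : ℝ) / d.totient = ff d / d := by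
  have h0 : (0 : ℝ) < d := by exact_mod_cast hd
  rw [ff_eq_div hd h]
  field_simp

/-- the primes from `7` to `47` -/
def pl (i : ℕ) : ℕ := [7, 11, 13, 17, 19, 23, 29, 31, 37, 41, 43, 47].getD i 47

theorem pl_cases (i : ℕ) : i < 11 ∨ (pl i = 47 ∧ pl (i + 1) = 47) := by
  rcases Nat.lt_or_ge i 11 with h | h
  · exact Or.inl h
  · obtain ⟨k, rfl⟩ := Nat.exists_eq_add_of_le' h
    cases k with
    | zero => exact Or.inr ⟨rfl, rfl⟩
    | succ k => exact Or.inr ⟨rfl, rfl⟩

theorem pl_ge (i : ℕ) : 7 ≤ pl i := by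
  rcases pl_cases i with h | h
  · interval_cases i <;> decide
  · omega

theorem pl_next {i a : ℕ} (ha : a.Prime) (h : pl i < a) : pl (i + 1) ≤ a := by
  rcases pl_cases i with hi | hi
  · have key : ∀ i < 11, ∀ a < 47, pl i < a → a < pl (i + 1) → ¬ a.Prime := by decide +kernel
    have h47 : ∀ i < 11, pl (i + 1) ≤ 47 := by decide +kernel
    by_contra h1
    exact key i hi a (by have := h47 i hi; omega) h (by omega) ha
  · omega

/-- a set of primes compared with the first primes of the list -/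
theorem prod_cmp (o : ℕ) (T : Finset ℕ) : (∀ p ∈ T, p.Prime ∧ pl o ≤ p) →
    (∀ a, a.Prime → pl o ≤ a → (∀ p ∈ T, p < a) → pl (o + T.card) ≤ a) ∧
    ∏ i ∈ range T.card, pl (o + i) ≤ ∏ p ∈ T, p ∧
    ∏ p ∈ T, (p : ℝ) / (p - 1) ≤ ∏ i ∈ range T.card, (pl (o + i) : ℝ) / (pl (o + i) - 1) := by
  induction T using Finset.induction_on_max with
  | empty => intro _; exact ⟨fun a _ h _ => h, by simp, by simp⟩
  | insert b T hb ih =>
    intro h
    obtain ⟨h1, h2, h3⟩ := ih fun p hp => h p (mem_insert_of_mem hp)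
    have hbT : b ∉ T := fun e => lt_irrefl _ (hb b e)
    obtain ⟨hb1, hb2⟩ := h b (mem_insert_self _ _)
    have h4 := h1 b hb1 hb2 hb
    rw [card_insert_of_notMem hbT, prod_insert hbT, prod_insert hbT, prod_range_succ, prod_range_succ]
    refine ⟨fun a ha _ h5 => pl_next ha (h4.trans_lt (h5 b (mem_insert_self _ _))), ?_, ?_⟩
    · rw [mul_comm b]
      exact Nat.mul_le_mul h2 h4
    · rw [mul_comm]
      have h6 := one_le_frac hb1.two_le
      have h7 := one_le_prod_frac (T := T) fun p hp => (h p (mem_insert_of_mem hp)).1.two_le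
      exact mul_le_mul h3 (frac_anti (by have := pl_ge (o + T.card); omega) h4) (by linarith) (by linarith)

theorem plq_mono (o : ℕ) {m n : ℕ} (h : m ≤ n) :
    ∏ i ∈ range m, (pl (o + i) : ℝ) / (pl (o + i) - 1) ≤ ∏ i ∈ range n, (pl (o + i) : ℝ) / (pl (o + i) - 1) := by
  have h1 : ∀ i, (1 : ℝ) ≤ (pl (o + i) : ℝ) / (pl (o + i) - 1) := fun i =>
    one_le_frac (by have := pl_ge (o + i); omega)
  induction h with
  | refl => exact le_rfl
  | step _ ih =>
    rw [prod_range_succ]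
    exact ih.trans (le_mul_of_one_le_right (prod_nonneg fun i _ => zero_le_one.trans (h1 i)) (h1 _))

/-- **the general bound for `ff`** -/
theorem ff_le (j : ℕ) {q : ℕ} (h : q < ∏ i ∈ range (j + 1), pl i) :
    ff q ≤ ∏ i ∈ range j, (pl i : ℝ) / (pl i - 1) := by
  have e : ∀ i, 0 + i = i := Nat.zero_add
  rcases Nat.eq_zero_or_pos q with rfl | hq
  · have := plq_mono 0 (Nat.zero_le j)
    simpa [ff_zero] using this
  obtain ⟨-, h2, h3⟩ := prod_cmp 0 (q.primeFactors.filter (fun p => 5 < p)) fun p hp => by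
    have hp1 := Nat.prime_of_mem_primeFactors (mem_filter.1 hp).1
    have hp2 := (mem_filter.1 hp).2
    have hp3 : p ≠ 6 := fun e => by subst e; norm_num at hp1
    exact ⟨hp1, show 7 ≤ p by omega⟩
  have h4 : ∏ p ∈ q.primeFactors.filter (fun p => 5 < p), p ≤ q :=
    Nat.le_of_dvd hq ((prod_dvd_prod_of_subset _ _ _ (filter_subset _ _)).trans (Nat.prod_primeFactors_dvd q))
  have h5 : (q.primeFactors.filter (fun p => 5 < p)).card ≤ j := by
    by_contra h6
    have h7 := prod_le_prod_of_subset_of_one_le' (f := pl) (range_mono (Nat.succ_le_of_lt (not_le.1 h6)))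
      fun i _ _ => by have := pl_ge i; omega
    simp only [e] at h2
    exact absurd h (not_lt.2 (h7.trans (h2.trans h4)))
  have h6 := h3.trans (plq_mono 0 h5)
  simp only [e] at h6
  exact h6

theorem ff_lt_7 {q : ℕ} (h : q < 7) : ff q = 1 :=
  le_antisymm (by simpa using ff_le 0 (q := q) h) (one_le_ff q)

theorem ff_lt_77 {q : ℕ} (h : q < 77) : ff q ≤ 7 / 6 :=
  (ff_le 1 h).trans (by norm_num [prod_range_succ, pl])

theorem ff_lt_1001 {q : ℕ} (h : q < 1001) : ff q ≤ 77 / 60 :=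
  (ff_le 2 h).trans (by norm_num [prod_range_succ, pl])

theorem ff_lt_17017 {q : ℕ} (h : q < 17017) : ff q ≤ 1001 / 720 :=
  (ff_le 3 h).trans (by norm_num [prod_range_succ, pl])

theorem ff_lt_323323 {q : ℕ} (h : q < 323323) : ff q ≤ 17017 / 11520 :=
  (ff_le 4 h).trans (by norm_num [prod_range_succ, pl])

theorem ff_lt_7436429 {q : ℕ} (h : q < 7436429) : ff q ≤ 323323 / 207360 :=
  (ff_le 5 h).trans (by norm_num [prod_range_succ, pl])

theorem ff_lt_215656441 {q : ℕ} (h : q < 215656441) : ff q ≤ 7436429 / 4561920 :=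
  (ff_le 6 h).trans (by norm_num [prod_range_succ, pl])

theorem ff_lt_6685349671 {q : ℕ} (h : q < 6685349671) : ff q ≤ 215656441 / 127733760 :=
  (ff_le 7 h).trans (by norm_num [prod_range_succ, pl])

theorem ff_lt_247357937827 {q : ℕ} (h : q < 247357937827) : ff q ≤ 6685349671 / 3832012800 :=
  (ff_le 8 h).trans (by norm_num [prod_range_succ, pl])

theorem ff_lt_10141675450907 {q : ℕ} (h : q < 10141675450907) : ff q ≤ 247357937827 / 137952460800 :=
  (ff_le 9 h).trans (by norm_num [prod_range_succ, pl])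

theorem ff_lt_436092044389001 {q : ℕ} (h : q < 436092044389001) : ff q ≤ 10141675450907 / 5518098432000 :=
  (ff_le 10 h).trans (by norm_num [prod_range_succ, pl])

theorem ff_lt_20496326086283047 {q : ℕ} (h : q < 20496326086283047) : ff q ≤ 436092044389001 / 231760134144000 :=
  (ff_le 11 h).trans (by norm_num [prod_range_succ, pl])

/-- at most five primes `≥ 29` -/
theorem Gs_five {T : Finset ℕ} (hT : ∀ p ∈ T, p.Prime ∧ 29 ≤ p) (h : T.card ≤ 5) (R : ℝ) :
    Gs 60 R / 1.155 ≤ Gs (60 * ∏ p ∈ T, p) R := by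
  have h1 := GH.Gs_le_prod 60 T (fun p hp => (hT p hp).1) R
  have h2 := (prod_cmp 6 T hT).2.2.trans (plq_mono 6 h)
  have h3 : ∏ i ∈ range 5, (pl (6 + i) : ℝ) / (pl (6 + i) - 1) ≤ 1.155 := by norm_num [prod_range_succ, pl]
  rw [div_le_iff₀ (by norm_num)]
  exact h1.trans (mul_le_mul_of_nonneg_left (h2.trans h3) (GH.Gs_nonneg _ _))

theorem boxTrick : BoxTrick := by
  intro q x hq hx hqx
  set S := q.primeFactors.filter (fun p => 29 ≤ p) with hS
  have hS1 : ∀ p ∈ S, p.Prime ∧ 29 ≤ p := fun p hp =>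
    ⟨Nat.prime_of_mem_primeFactors (mem_filter.1 hp).1, (mem_filter.1 hp).2⟩
  rcases le_or_gt 5 S.card with h5 | h5
  · obtain ⟨T, hT, hc⟩ := exists_subset_card_eq h5
    have hT1 : ∀ p ∈ T, p.Prime ∧ 29 ≤ p := fun p hp => hS1 p (hT hp)
    have h1 := (prod_cmp 6 T hT1).2.1
    rw [hc, show ∏ i ∈ range 5, pl (6 + i) = 58642669 by decide +kernel] at h1
    have h2 : (58642669 : ℝ) ≤ (∏ p ∈ T, p : ℕ) := by exact_mod_cast h1
    refine ⟨60 * ∏ p ∈ T, p, ∏ p ∈ T, p, dvd_mul_right _ _, by omega, by nlinarith, fun m' r _ h3 h4 => ?_,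
      Gs_five hT1 hc.le⟩
    have h6 : ∏ p ∈ T, p ∣ q :=
      (prod_dvd_prod_of_subset _ _ _ (hT.trans (filter_subset _ _))).trans (Nat.prod_primeFactors_dvd q)
    exact (Nat.Coprime.coprime_mul_left_right h3).symm.dvd_of_dvd_mul_right (h6.trans h4)
  · have hg : 0 < q.gcd 7436429 := Nat.gcd_pos_of_pos_left _ hq
    have hg1 : q.gcd 7436429 ≤ 7436429 := Nat.gcd_le_right _ (by norm_num)
    obtain ⟨t, ht⟩ := Nat.gcd_dvd_left q 7436429
    have ht0 : 0 < t := Nat.pos_of_mul_pos_left (ht ▸ hq)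
    refine ⟨60 * ∏ p ∈ S, p, t, dvd_mul_right _ _, ht0, ?_, fun m' r h2 h3 h4 => ?_, Gs_five hS1 h5.le⟩
    · have h1 : (q : ℝ) ≤ 7436429 * t := by exact_mod_cast ht.le.trans (Nat.mul_le_mul_right t hg1)
      have h2 := mul_le_mul_of_nonneg_right h1 (zero_le_one.trans hx)
      linarith
    · have h6 : q.gcd r ∣ 7436429 := by
        have h7 : Squarefree (q.gcd r) := h2.squarefree_of_dvd (Nat.gcd_dvd_right _ _)
        rw [← Nat.prod_primeFactors_of_squarefree h7,
          show 7436429 = ∏ p ∈ ({7, 11, 13, 17, 19, 23} : Finset ℕ), p by decide +kernel]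
        refine prod_dvd_prod_of_subset _ _ _ fun p hp => ?_
        have hp1 := Nat.prime_of_mem_primeFactors hp
        have hp2 := Nat.dvd_of_mem_primeFactors hp
        have hp3 : ¬ p ∣ 60 * ∏ p ∈ S, p := fun e =>
          hp1.one_lt.ne' (Nat.eq_one_of_dvd_coprimes h3 (hp2.trans (Nat.gcd_dvd_right _ _)) e)
        have hp4 : p < 29 := by
          by_contra e
          exact hp3 (Dvd.dvd.mul_left (dvd_prod_of_mem _ (mem_filter.2
            ⟨Nat.mem_primeFactors.2 ⟨hp1, hp2.trans (Nat.gcd_dvd_left _ _), hq.ne'⟩, not_lt.1 e⟩)) _)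
        have key : ∀ p < 29, p.Prime → ¬ p ∣ 60 → p ∈ ({7, 11, 13, 17, 19, 23} : Finset ℕ) := by decide +kernel
        exact key p hp4 hp1 fun e => hp3 (Dvd.dvd.mul_right e _)
      have h8 : q.gcd r ∣ q.gcd 7436429 := Nat.dvd_gcd (Nat.gcd_dvd_left _ _) h6
      have h9 : q ∣ m' * q.gcd r := by
        rw [← Nat.gcd_mul_left]
        exact Nat.dvd_gcd (dvd_mul_left _ _) h4
      have h10 : q.gcd 7436429 * t ∣ q.gcd 7436429 * m' := by
        rw [← ht, mul_comm]
        exact h9.trans (Nat.mul_dvd_mul_left _ h8)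
      exact Nat.dvd_of_mul_dvd_mul_left hg h10

end Cfsg.Agent.Depth.D
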