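import Cfsg.Agent.Depth.D.Win
import Cfsg.Agent.Depth.S.Basic

/-!
# Depth (S5768): the Fourier expansion of the model (helper78)

`om_bound`, `lin_bound` : one prime; `rh_one`, `rh_two` : the coefficients; `boxRho`, `boxSplit`.
-/

set_option autoImplicit false

namespace Cfsg.Agent.Depth.D

open Finset Cfsg.Agent.Depth.S
open scoped Classical

theorem ex_congr {q : ℕ} (hq : 0 < q) {x y : ℤ} (h : (q : ℤ) ∣ x - y) : ex ((x : ℝ) / q) = ex ((y : ℝ) / q) := by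
  obtain ⟨k, hk⟩ := h
  have h0 : (q : ℝ) ≠ 0 := by exact_mod_cast hq.ne'
  have h1 : (x : ℝ) = y + q * k := by exact_mod_cast (by linarith : x = y + q * k)
  rw [← ex_add_int (y / q) k, h1]
  congr 1
  field_simp

/-- finite Fourier inversion -/
theorem fourier {q : ℕ} (hq : 0 < q) (g : ℕ → ℂ) (hg : ∀ i, g (i % q) = g i) (i : ℕ) :
    g i = ∑ a ∈ range q, (∑ k ∈ range q, g k * ex (-((k : ℝ) * a / q))) / q * ex ((i : ℝ) * a / q) := by
  have h0 : (q : ℂ) ≠ 0 := by exact_mod_cast hq.ne'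
  have h1 : ∀ a ∈ range q, (∑ k ∈ range q, g k * ex (-((k : ℝ) * a / q))) / q * ex ((i : ℝ) * a / q) =
      ∑ k ∈ range q, g k / q * ex ((((i : ℤ) - k : ℤ) : ℝ) / q * a) := by
    intro a _
    rw [sum_div, sum_mul]
    refine sum_congr rfl fun k _ => ?_
    rw [mul_div_right_comm, mul_assoc, ← ex_add]
    congr 2
    push_cast
    ring
  rw [sum_congr rfl h1, sum_comm, sum_eq_single_of_mem (i % q) (mem_range.2 (Nat.mod_lt _ hq))]
  · rw [← mul_sum, ortho hq, if_pos, hg, div_mul_cancel₀ _ h0]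
    exact (Nat.modEq_iff_dvd.1 (Nat.mod_modEq i q))
  · intro k hk hne
    rw [← mul_sum, ortho hq, if_neg, mul_zero]
    intro h
    apply hne
    have h2 : k % q = i % q := Nat.modEq_iff_dvd.2 h
    rw [← h2, Nat.mod_eq_of_lt (mem_range.1 hk)]

/-- the classes of `W i + c` -/
theorem reindex {M : Type*} [AddCommMonoid M] {p W : ℕ} (hp : 0 < p) (hW : p.Coprime W) (c : ℕ) (F : ℕ → M) :
    ∑ i ∈ range p, F ((W * i + c) % p) = ∑ r ∈ range p, F r := by
  have h1 : Set.InjOn (fun i => (W * i + c) % p) (range p : Finset ℕ) := by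
    intro i hi k hk h
    have h2 : W * i ≡ W * k [MOD p] := Nat.ModEq.add_right_cancel' c h
    exact Nat.ModEq.eq_of_lt_of_lt (Nat.ModEq.cancel_left_of_coprime hW h2) (mem_range.1 hi) (mem_range.1 hk)
  have h2 : (range p).image (fun i => (W * i + c) % p) = range p := by
    refine eq_of_subset_of_card_le (fun r hr => ?_) (card_image_of_injOn h1).ge
    obtain ⟨i, -, rfl⟩ := mem_image.1 hr
    exact mem_range.2 (Nat.mod_lt _ hp)
  rw [← sum_image h1, h2]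

/-- the Chinese remainder theorem for a product of periodic functions -/
theorem sum_crt {p p' : ℕ} (hp : 0 < p) (hp' : 0 < p') (h : p.Coprime p') (F G : ℕ → ℂ) (hF : ∀ i, F (i % p) = F i)
    (hG : ∀ i, G (i % p') = G i) :
    ∑ i ∈ range (p * p'), F i * G i = (∑ i ∈ range p, F i) * ∑ i ∈ range p', G i := by
  rw [sum_mul_sum, ← sum_product']
  refine sum_bij (fun i _ => (i % p, i % p')) (fun i _ => ?_) (fun i hi k hk e => ?_) (fun x hx => ?_) fun i _ => ?_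
  · exact mem_product.2 ⟨mem_range.2 (Nat.mod_lt _ hp), mem_range.2 (Nat.mod_lt _ hp')⟩
  · exact Nat.ModEq.eq_of_lt_of_lt ((Nat.modEq_and_modEq_iff_modEq_mul h).1 ⟨congrArg Prod.fst e, congrArg Prod.snd e⟩)
      (mem_range.1 hi) (mem_range.1 hk)
  · obtain ⟨h1, h2⟩ := mem_product.1 hx
    refine ⟨Nat.chineseRemainder h x.1 x.2, mem_range.2 (Nat.chineseRemainder_lt_mul h _ _ hp.ne' hp'.ne'), ?_⟩
    refine Prod.ext ?_ ?_
    · exact Eq.trans (Nat.chineseRemainder h x.1 x.2).2.1 (Nat.mod_eq_of_lt (mem_range.1 h1))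
    · exact Eq.trans (Nat.chineseRemainder h x.1 x.2).2.2 (Nat.mod_eq_of_lt (mem_range.1 h2))
  · rw [hF, hG]

/-! ### one prime -/

theorem cQ_nonneg (p : ℕ) (hp : 3 ≤ p) : (0 : ℝ) ≤ cQ p := by
  have h : (3 : ℚ) ≤ p := by exact_mod_cast hp
  have h1 : (0 : ℚ) ≤ cQ p := by
    unfold cQ
    split_ifs
    · norm_num
    · norm_num
    · exact div_nonneg (by norm_num) (by linarith)
  exact_mod_cast h1

theorem cQ_le {p : ℕ} (hp : 7 ≤ p) : (cQ p : ℝ) ≤ 0.4 := by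
  have h : (7 : ℚ) ≤ p := by exact_mod_cast hp
  have h1 : cQ p ≤ 2 / 5 := by
    unfold cQ
    split_ifs
    · norm_num
    · norm_num
    · exact div_le_div_of_nonneg_left (by norm_num) (by norm_num) (by linarith)
  have h2 : ((cQ p : ℚ) : ℝ) ≤ ((2 / 5 : ℚ) : ℝ) := by exact_mod_cast h1
  norm_num at h2 ⊢
  exact h2

theorem omQ_nonneg (p r : ℕ) (hp : 3 ≤ p) : 0 ≤ omQ p r := by
  have h : (3 : ℚ) ≤ p := by exact_mod_cast hp
  unfold omQ
  split_ifs
  · positivity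
  · positivity
  · exact le_rfl
  · exact div_nonneg (by linarith) (by linarith)

theorem omQ_zero (p : ℕ) : omQ p 0 = 0 := by
  unfold omQ
  split_ifs <;> simp_all

theorem omQ_one (p : ℕ) : omQ p 1 = 0 := by
  unfold omQ
  split_ifs <;> simp_all

theorem sum_om {M : Type*} [AddCommMonoid M] {p : ℕ} (F : ℕ → M) :
    ∑ r ∈ range (p + 2), F r = F 0 + F 1 + ∑ r ∈ range p, F (r + 2) := by
  rw [sum_range_succ', sum_range_succ', add_assoc, add_comm, add_comm (F 0)]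

theorem omQ_gen {p : ℕ} (h7 : p ≠ 7) (h11 : p ≠ 11) (r : ℕ) : omQ p (r + 2) = p / (p - 2) := by
  unfold omQ
  rw [if_neg h7, if_neg h11, if_neg (by omega)]

/-- the mean of the density is `1` -/
theorem om_mean {p : ℕ} (hp : 3 ≤ p) : ∑ r ∈ range p, omQ p r = p := by
  by_cases h7 : p = 7
  · subst h7
    simp only [sum_range_succ, omQ]
    norm_num
  by_cases h11 : p = 11
  · subst h11
    simp only [sum_range_succ, omQ]
    norm_num
  obtain ⟨n, rfl⟩ : ∃ n, p = n + 2 := ⟨p - 2, by omega⟩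
  have h : (n : ℚ) ≠ 0 := by exact_mod_cast (show n ≠ 0 by omega)
  rw [sum_om, omQ_zero, omQ_one, sum_congr rfl fun r _ => omQ_gen h7 h11 r, sum_const, card_range, nsmul_eq_mul]
  push_cast
  rw [add_sub_cancel_right]
  field_simp
  ring

theorem norm_of_real {f : ℂ} (h : (starRingEnd ℂ) f = f) : ∃ x : ℝ, f = x ∧ ‖f‖ = |x| := by
  obtain ⟨x, rfl⟩ := Complex.conj_eq_iff_real.1 h
  exact ⟨x, rfl, by rw [Complex.norm_real, Real.norm_eq_abs]⟩

theorem seven {z : ℂ} (h1 : (starRingEnd ℂ) z = z ^ 6) (h2 : z ^ 7 = 1)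
    (hz : 1 + z + z ^ 2 + z ^ 3 + z ^ 4 + z ^ 5 + z ^ 6 = 0) :
    ‖8 + 5 * (z + z ^ 6) + 9 * (z ^ 2 + z ^ 5)‖ ≤ 10.4436 := by
  have k : ∀ a b : ℕ, z ^ (a + 7 * b) = z ^ a := fun a b => by rw [pow_add, pow_mul, h2, one_pow, mul_one]
  obtain ⟨x, hx, hn⟩ := norm_of_real (f := 8 + 5 * (z + z ^ 6) + 9 * (z ^ 2 + z ^ 5)) (by
    simp only [map_add, map_mul, map_pow, h1, map_ofNat, ← pow_mul]
    linear_combination 5 * k 1 5 + 9 * k 5 1 + 9 * k 2 4)
  have h3 : (x : ℂ) ^ 3 - 10 * x ^ 2 - 109 * x + 1091 = 0 := by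
    rw [← hx]
    linear_combination (91 - 476 * z + 42 * z ^ 2 + 1728 * z ^ 3 + 424 * z ^ 4 - 1287 * z ^ 5 + 1082 * z ^ 6 +
      2130 * z ^ 7 - 54 * z ^ 8 - 486 * z ^ 9 + 540 * z ^ 10 + 550 * z ^ 11 + 125 * z ^ 12) * hz
  have h4 : x ^ 3 - 10 * x ^ 2 - 109 * x + 1091 = 0 := by exact_mod_cast h3
  rw [hn, abs_le]
  constructor
  · by_contra h
    have ht : 0 < -10.4436 - x := by linarith
    linarith [pow_pos ht 2, pow_pos ht 3]
  · by_contra h
    have ht : 0 < x - 10.4436 := by linarith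
    linarith [pow_pos ht 2, pow_pos ht 3]

theorem eleven {z : ℂ} (h1 : (starRingEnd ℂ) z = z ^ 10) (h2 : z ^ 11 = 1)
    (hz : 1 + z + z ^ 2 + z ^ 3 + z ^ 4 + z ^ 5 + z ^ 6 + z ^ 7 + z ^ 8 + z ^ 9 + z ^ 10 = 0) :
    ‖7 + 5 * (z + z ^ 10) + 7 * (z ^ 2 + z ^ 9) + 5 * (z ^ 3 + z ^ 8) + 8 * (z ^ 4 + z ^ 7)‖ ≤ 9.8895 := by
  have k : ∀ a b : ℕ, z ^ (a + 11 * b) = z ^ a := fun a b => by rw [pow_add, pow_mul, h2, one_pow, mul_one]
  obtain ⟨x, hx, hn⟩ := norm_of_real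
    (f := 7 + 5 * (z + z ^ 10) + 7 * (z ^ 2 + z ^ 9) + 5 * (z ^ 3 + z ^ 8) + 8 * (z ^ 4 + z ^ 7)) (by
    simp only [map_add, map_mul, map_pow, h1, map_ofNat, ← pow_mul]
    linear_combination 5 * k 1 9 + 7 * k 9 1 + 7 * k 2 8 + 5 * k 8 2 + 5 * k 3 7 + 8 * k 7 3 + 8 * k 4 6)
  have h3 : (x : ℂ) ^ 5 - 10 * x ^ 4 - 169 * x ^ 3 + 1702 * x ^ 2 + 6966 * x - 70817 = 0 := by
    rw [← hx]
    linear_combination (-3827 + 25007 * z - 25453 * z ^ 2 - 64412 * z ^ 3 + 5380 * z ^ 4 - 4110 * z ^ 5 + 231344 * z ^ 6 +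
      486664 * z ^ 7 + 433645 * z ^ 8 + 600570 * z ^ 9 + 615998 * z ^ 10 + 658761 * z ^ 11 + 1191135 * z ^ 12 +
      1572988 * z ^ 13 + 1905797 * z ^ 14 + 2166506 * z ^ 15 + 2120087 * z ^ 16 + 2032123 * z ^ 17 + 2096025 * z ^ 18 +
      2392030 * z ^ 19 + 2606885 * z ^ 20 + 2810510 * z ^ 21 + 2807440 * z ^ 22 + 2329418 * z ^ 23 + 2021494 * z ^ 24 +
      1806413 * z ^ 25 + 1624665 * z ^ 26 + 1723210 * z ^ 27 + 1614920 * z ^ 28 + 1308990 * z ^ 29 + 1025670 * z ^ 30 +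
      689120 * z ^ 31 + 486135 * z ^ 32 + 424490 * z ^ 33 + 360868 * z ^ 34 + 298532 * z ^ 35 + 216775 * z ^ 36 +
      121375 * z ^ 37 + 55000 * z ^ 38 + 18750 * z ^ 39 + 3125 * z ^ 40) * hz
  have h4 : x ^ 5 - 10 * x ^ 4 - 169 * x ^ 3 + 1702 * x ^ 2 + 6966 * x - 70817 = 0 := by exact_mod_cast h3
  rw [hn, abs_le]
  constructor
  · by_contra h
    have ht : 0 < -9.8895 - x := by linarith
    linarith [pow_pos ht 2, pow_pos ht 3, pow_pos ht 4, pow_pos ht 5]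
  · by_contra h
    have ht : 0 < x - 9.8895 := by linarith
    linarith [pow_pos ht 2, pow_pos ht 3, pow_pos ht 4, pow_pos ht 5]

/-- **the Fourier coefficients of the local density** -/
theorem om_bound {p : ℕ} (hp : 3 ≤ p) {m : ℤ} (hm : ¬ (p : ℤ) ∣ m) :
    ‖(∑ r ∈ range p, (omQ p r : ℂ) * ex ((m : ℝ) * r / p)) / p‖ ≤ cQ p := by
  have hp0 : 0 < p := by omega
  have hpR : (p : ℝ) ≠ 0 := by exact_mod_cast hp0.ne'
  obtain ⟨z, hz⟩ : ∃ z, z = ex ((m : ℝ) / p) := ⟨_, rfl⟩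
  have e1 : ∀ r : ℕ, ex ((m : ℝ) * r / p) = z ^ r := fun r => by rw [hz, ← ex_mul_nat, mul_div_right_comm]
  have e2 : z ^ p = 1 := by rw [← e1, mul_div_cancel_right₀ _ hpR, ex_int]
  have e3 : ∑ r ∈ range p, z ^ r = 0 := by
    have h := ortho hp0 m
    rw [if_neg hm] at h
    rw [← h]
    exact sum_congr rfl fun r _ => by rw [hz, ex_mul_nat]
  have e4 : ‖z‖ = 1 := by rw [hz, norm_ex]
  have e5 : (starRingEnd ℂ) z = z ^ (p - 1) := by
    have h1 : z * (starRingEnd ℂ) z = 1 := by rw [hz, conj_ex, ex_mul_neg]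
    have h2 : z ^ (p - 1) * z = 1 := by rw [← pow_succ, Nat.sub_add_cancel hp0, e2]
    linear_combination (z ^ (p - 1)) * h1 - (starRingEnd ℂ) z * h2
  simp only [e1]
  by_cases h7 : p = 7
  · subst h7
    simp only [sum_range_succ, range_zero, sum_empty] at e3
    have h1 := seven e5 e2 (by linear_combination e3)
    have h2 : (∑ r ∈ range 7, (omQ 7 r : ℂ) * z ^ r) / (7 : ℕ) =
        z ^ 4 * (8 + 5 * (z + z ^ 6) + 9 * (z ^ 2 + z ^ 5)) / 36 := by
      simp only [sum_range_succ, omQ]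
      norm_num
      linear_combination (-(5 * z ^ 3 + 9 * z ^ 2) / 36) * e2
    rw [h2, norm_div, norm_mul, norm_pow, e4]
    norm_num [cQ]
    linarith
  by_cases h11 : p = 11
  · subst h11
    simp only [sum_range_succ, range_zero, sum_empty] at e3
    have h1 := eleven e5 e2 (by linear_combination e3)
    have h2 : (∑ r ∈ range 11, (omQ 11 r : ℂ) * z ^ r) / (11 : ℕ) =
        z ^ 6 * (7 + 5 * (z + z ^ 10) + 7 * (z ^ 2 + z ^ 9) + 5 * (z ^ 3 + z ^ 8) + 8 * (z ^ 4 + z ^ 7)) / 57 := by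
      simp only [sum_range_succ, omQ]
      norm_num
      linear_combination (-(5 * z ^ 5 + 7 * z ^ 4 + 5 * z ^ 3 + 8 * z ^ 2) / 57) * e2
    rw [h2, norm_div, norm_mul, norm_pow, e4]
    norm_num [cQ]
    linarith
  obtain ⟨n, rfl⟩ : ∃ n, p = n + 2 := ⟨p - 2, by omega⟩
  have hn : (0 : ℝ) < n := by exact_mod_cast (show 0 < n by omega)
  have hn' : (n : ℂ) ≠ 0 := by exact_mod_cast (show n ≠ 0 by omega)
  have hn2 : (n : ℂ) + 2 ≠ 0 := by exact_mod_cast (show n + 2 ≠ 0 by omega)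
  rw [sum_om] at e3
  have h2 : (∑ r ∈ range (n + 2), (omQ (n + 2) r : ℂ) * z ^ r) / (n + 2 : ℕ) = -(1 + z) / n := by
    rw [sum_om, omQ_zero, omQ_one, sum_congr rfl fun r _ => by rw [omQ_gen h7 h11 r], ← mul_sum,
      show ∑ r ∈ range n, z ^ (r + 2) = -(1 + z) by linear_combination e3]
    push_cast
    rw [add_sub_cancel_right]
    field_simp
    ring
  have h3 : ((cQ (n + 2) : ℚ) : ℝ) = 2 / n := by
    unfold cQ
    rw [if_neg h7, if_neg h11]
    push_cast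
    rw [add_sub_cancel_right]
  rw [h2, h3, norm_div, norm_neg, Complex.norm_natCast]
  refine div_le_div_of_nonneg_right ((norm_add_le _ _).trans ?_) hn.le
  rw [norm_one, e4]
  norm_num

/-- the same along `W i + c` -/
theorem lin_bound {p W : ℕ} (hp : 3 ≤ p) (hW : p.Coprime W) (c : ℕ) {m : ℤ} (hm : ¬ (p : ℤ) ∣ m) :
    ‖(∑ i ∈ range p, (omQ p ((W * i + c) % p) : ℂ) * ex ((m : ℝ) * i / p)) / p‖ ≤ cQ p := by
  have hp0 : 0 < p := by omega
  obtain ⟨u, w, huw⟩ := Nat.isCoprime_iff_coprime.2 hW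
  have h1 : ¬ (p : ℤ) ∣ m * w := fun h => hm (by
    have h2 : m = p * (m * u) + m * w * W := by linear_combination -m * huw
    rw [h2]
    exact dvd_add (Dvd.intro _ rfl) (h.mul_right _))
  have h2 : ∀ i ∈ range p, (omQ p ((W * i + c) % p) : ℂ) * ex ((m : ℝ) * i / p) = ex (((-(m * w * c) : ℤ) : ℝ) / p) *
      ((omQ p ((W * i + c) % p) : ℂ) * ex (((m * w : ℤ) : ℝ) * ((W * i + c) % p : ℕ) / p)) := by
    intro i _
    rw [mul_left_comm, ← ex_add, ← add_div]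
    congr 1
    have h3 := ex_congr hp0 (x := m * i) (y := -(m * w * c) + m * w * ((W * i + c) % p : ℕ))
      ⟨m * i * u + m * w * ((W * i + c) / p : ℕ), by
        have h4 : (((W * i + c) % p : ℕ) : ℤ) + p * ((W * i + c) / p : ℕ) = W * i + c := by
          exact_mod_cast Nat.mod_add_div (W * i + c) p
        linear_combination (-m * w) * h4 - m * i * huw⟩
    push_cast at h3 ⊢
    exact h3
  rw [sum_congr rfl h2, ← mul_sum, mul_div_assoc, norm_mul, norm_ex, one_mul,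
    reindex hp0 hW c fun r => (omQ p r : ℂ) * ex (((m * w : ℤ) : ℝ) * r / p)]
  exact om_bound hp h1

theorem lin_mean {p W : ℕ} (hp : 3 ≤ p) (hW : p.Coprime W) (c : ℕ) :
    ∑ i ∈ range p, (omQ p ((W * i + c) % p) : ℂ) = p := by
  rw [reindex (by omega) hW c fun r => (omQ p r : ℂ)]
  exact_mod_cast om_mean hp

/-- the coefficient of one prime -/
noncomputable def co (p c : ℕ) (m : ℤ) : ℂ :=
  (∑ i ∈ range p, ((omQ p ((60 * i + c) % p) - 1 : ℚ) : ℂ) * ex ((m : ℝ) * i / p)) / p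

theorem co_eq {p : ℕ} (c : ℕ) {m : ℤ} (hp : 0 < p) (hm : ¬ (p : ℤ) ∣ m) :
    co p c m = (∑ i ∈ range p, (omQ p ((60 * i + c) % p) : ℂ) * ex ((m : ℝ) * i / p)) / p := by
  have h := ortho hp m
  rw [if_neg hm] at h
  unfold co
  congr 1
  push_cast
  simp only [sub_mul, sum_sub_distrib, one_mul, mul_div_right_comm]
  rw [h, sub_zero]

theorem co_zero {p : ℕ} (c : ℕ) {m : ℤ} (hp : 3 ≤ p) (h60 : p.Coprime 60) (hm : (p : ℤ) ∣ m) : co p c m = 0 := by
  have h1 : ∀ i ∈ range p, ((omQ p ((60 * i + c) % p) - 1 : ℚ) : ℂ) * ex ((m : ℝ) * i / p) =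
      (omQ p ((60 * i + c) % p) : ℂ) - 1 := by
    intro i _
    have h2 := ex_congr (q := p) (by omega) (x := m * i) (y := 0) (by rw [sub_zero]; exact hm.mul_right _)
    push_cast at h2 ⊢
    rw [h2, zero_div, ex_zero, mul_one]
  unfold co
  rw [sum_congr rfl h1, sum_sub_distrib, lin_mean hp h60]
  simp

theorem co_bound {p : ℕ} (c : ℕ) (m : ℤ) (hp : 3 ≤ p) (h60 : p.Coprime 60) : ‖co p c m‖ ≤ cQ p := by
  by_cases hm : (p : ℤ) ∣ m
  · rw [co_zero c hp h60 hm, norm_zero]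
    exact cQ_nonneg p hp
  · rw [co_eq c (by omega) hm]
    exact lin_bound hp h60 c hm

theorem rh_nil (c a : ℕ) : rh c [] a = 1 := by
  simp [rh, ex_zero]

theorem rh_one (c p a : ℕ) : rh c [p] a = co p c (-a) := by
  unfold rh co
  simp only [List.prod_cons, List.prod_nil, mul_one, List.map_cons, List.map_nil]
  congr 1
  refine sum_congr rfl fun i _ => ?_
  congr 2
  push_cast
  ring

theorem rh_two (c a : ℕ) {p p' : ℕ} (hp : 0 < p) (hp' : 0 < p') {u v : ℤ} (h : u * p + v * p' = 1) :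
    rh c [p, p'] a = co p c (-(a * v)) * co p' c (-(a * u)) := by
  have hc : p.Coprime p' := Nat.isCoprime_iff_coprime.1 ⟨u, v, h⟩
  have per : ∀ {q : ℕ}, 0 < q → ∀ (m : ℤ) (i : ℕ),
      ((omQ q ((60 * (i % q) + c) % q) - 1 : ℚ) : ℂ) * ex ((m : ℝ) * (i % q : ℕ) / q) =
        ((omQ q ((60 * i + c) % q) - 1 : ℚ) : ℂ) * ex ((m : ℝ) * i / q) := by
    intro q hq m i
    have h1 : (60 * (i % q) + c) % q = (60 * i + c) % q := ((Nat.mod_modEq i q).mul_left 60).add_right c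
    have h2 := ex_congr hq (x := m * (i % q : ℕ)) (y := m * i) (by
      rw [← mul_sub]
      exact (Nat.modEq_iff_dvd.1 (Nat.mod_modEq i q).symm).mul_left _)
    rw [Int.cast_mul, Int.cast_mul, Int.cast_natCast, Int.cast_natCast] at h2
    rw [h1, h2]
  unfold rh co
  rw [div_mul_div_comm, ← sum_crt hp hp' hc _ _ (per hp _) (per hp' _)]
  simp only [List.prod_cons, List.prod_nil, mul_one, List.map_cons, List.map_nil]
  congr 1
  · refine sum_congr rfl fun i _ => ?_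
    rw [Rat.cast_mul, mul_mul_mul_comm, ← ex_add]
    congr 2
    have h1 : (u : ℝ) * p + v * p' = 1 := by exact_mod_cast h
    have h2 : (p : ℝ) ≠ 0 := by exact_mod_cast hp.ne'
    have h3 : (p' : ℝ) ≠ 0 := by exact_mod_cast hp'.ne'
    push_cast
    field_simp
    linear_combination (i * a : ℝ) * h1
  · push_cast
    rfl

/-! ### the moduli -/

theorem QP_nodup : ([] :: QP).Nodup := by decide +kernel

theorem QP_spec : ∀ ps ∈ QP, ps.length ≤ 2 ∧ ps.Nodup ∧ ps.prod ≤ 391 ∧ ∀ p ∈ ps, p.Prime ∧ 7 ≤ p ∧ p ≤ 223 := by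
  simp only [QP, List.forall_mem_cons]
  norm_num

theorem sum_QF {M : Type*} [AddCommMonoid M] (F : List ℕ → M) : ∑ ps ∈ QF, F ps = F [] + (QP.map F).sum := by
  rw [QF, List.sum_toFinset _ QP_nodup, List.map_cons, List.sum_cons]

theorem QF_spec {ps : List ℕ} (h : ps ∈ QF) :
    ps.length ≤ 2 ∧ ps.Nodup ∧ ps.prod ≤ 391 ∧ ∀ p ∈ ps, p.Prime ∧ 7 ≤ p ∧ p ≤ 223 := by
  rcases List.mem_cons.1 (List.mem_toFinset.1 h) with rfl | h1
  · simp
  · exact QP_spec ps h1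

theorem QF_cases {ps : List ℕ} (h : ps ∈ QF) : ps = [] ∨ (∃ p, ps = [p] ∧ p.Prime ∧ 7 ≤ p) ∨
    ∃ p p', ps = [p, p'] ∧ p.Prime ∧ p'.Prime ∧ 7 ≤ p ∧ 7 ≤ p' ∧ p ≠ p' := by
  obtain ⟨h1, h2, -, h3⟩ := QF_spec h
  rcases ps with _ | ⟨p, _ | ⟨p', _ | ⟨r, t⟩⟩⟩
  · exact Or.inl rfl
  · exact Or.inr (Or.inl ⟨p, rfl, (h3 p (by simp)).1, (h3 p (by simp)).2.1⟩)
  · exact Or.inr (Or.inr ⟨p, p', rfl, (h3 p (by simp)).1, (h3 p' (by simp)).1, (h3 p (by simp)).2.1,
      (h3 p' (by simp)).2.1, by simpa using h2⟩)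
  · simp at h1

theorem QF_pos {ps : List ℕ} (h : ps ∈ QF) : 0 < ps.prod :=
  List.prod_pos fun p hp => ((QF_spec h).2.2.2 p hp).1.pos

theorem coprime_sixty {p : ℕ} (hp : p.Prime) (h7 : 7 ≤ p) : p.Coprime 60 := by
  rw [Nat.Prime.coprime_iff_not_dvd hp]
  intro h
  have h1 := Nat.le_of_dvd (by norm_num) h
  interval_cases p <;> first | omega | exact absurd hp (by norm_num)

theorem cL_nonneg {ps : List ℕ} (h : ps ∈ QF) : 0 ≤ cL ps := by
  rcases QF_cases h with rfl | ⟨p, rfl, -, h7⟩ | ⟨p, p', rfl, -, -, h7, h7', -⟩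
  · simp [cL]
  · simpa [cL] using cQ_nonneg p (by omega)
  · simpa [cL] using mul_nonneg (cQ_nonneg p (by omega)) (cQ_nonneg p' (by omega))

theorem boxRho : BoxRho := by
  intro c1
  refine ⟨fun i => ?_, fun ps hps a _ => ?_⟩
  · have h1 : ∀ ps ∈ QF, ∑ a ∈ range ps.prod, rh c1 ps a * ex ((i : ℝ) * a / ps.prod) =
        (((ps.map fun p => omQ p ((60 * i + c1) % p) - 1).prod : ℚ) : ℂ) := by
      intro ps hps
      refine (fourier (QF_pos hps) (fun i => (((ps.map fun p => omQ p ((60 * i + c1) % p) - 1).prod : ℚ) : ℂ))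
        (fun k => ?_) i).symm
      congr 2
      refine List.map_congr_left fun p hp => ?_
      rw [show (60 * (k % ps.prod) + c1) % p = (60 * k + c1) % p from
        ((((Nat.mod_modEq k ps.prod).of_dvd (List.dvd_prod hp)).mul_left 60).add_right c1)]
    rw [sum_congr rfl h1, ← Rat.cast_sum, sum_QF, Complex.ofReal_ratCast]
    rfl
  · rcases QF_cases hps with rfl | ⟨p, rfl, hp, h7⟩ | ⟨p, p', rfl, hp, hp', h7, h7', hne⟩
    · rw [rh_nil]
      exact ⟨by simp [cL], fun h => absurd (by simp) h⟩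
    · rw [rh_one]
      refine ⟨by simpa [cL] using co_bound c1 (-a) (by omega) (coprime_sixty hp h7), fun h => ?_⟩
      refine co_zero c1 (by omega) (coprime_sixty hp h7) (dvd_neg.2 (Int.natCast_dvd_natCast.2 ?_))
      rw [List.prod_singleton, Nat.coprime_comm, hp.coprime_iff_not_dvd, not_not] at h
      exact h
    · obtain ⟨u, v, huv⟩ := Nat.isCoprime_iff_coprime.2 ((Nat.coprime_primes hp hp').2 hne)
      rw [rh_two c1 a hp.pos hp'.pos huv]
      refine ⟨?_, fun h => ?_⟩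
      · rw [norm_mul]
        simpa [cL] using mul_le_mul (co_bound c1 _ (by omega) (coprime_sixty hp h7))
          (co_bound c1 _ (by omega) (coprime_sixty hp' h7')) (norm_nonneg _) (cQ_nonneg p (by omega))
      · rw [List.prod_pair, Nat.coprime_mul_iff_right, not_and_or, Nat.coprime_comm, hp.coprime_iff_not_dvd, not_not,
          Nat.coprime_comm, hp'.coprime_iff_not_dvd, not_not] at h
        rcases h with h | h
        · rw [co_zero c1 (by omega) (coprime_sixty hp h7) (dvd_neg.2 ((Int.natCast_dvd_natCast.2 h).mul_right _)), zero_mul]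
        · rw [co_zero c1 (by omega) (coprime_sixty hp' h7') (dvd_neg.2 ((Int.natCast_dvd_natCast.2 h).mul_right _)),
            mul_zero]

/-! ### splitting -/

theorem tau_add_int (s : ℕ) (u : ℝ) (n : ℤ) : tau s (u + n) = tau s u := by
  refine sum_congr rfl fun i _ => ?_
  rw [add_mul, ← ex_add_int (u * i) (n * i)]
  push_cast
  rfl

theorem Tw_nonneg (s : ℕ) : 0 ≤ Tw s := by
  unfold Tw
  positivity

/-- the transform of the model -/
theorem model_eq (c1 s : ℕ) (x : ℝ) :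
    ∑ i ∈ range (Ew s), ((tw s i * (rhoQ (60 * i + c1) : ℝ) / Tw s : ℝ) : ℂ) * ex (x * i) =
      ∑ ps ∈ QF, ∑ a ∈ range ps.prod, rh c1 ps a * tau s (x + a / ps.prod) := by
  have h1 : ∀ i ∈ range (Ew s), ((tw s i * (rhoQ (60 * i + c1) : ℝ) / Tw s : ℝ) : ℂ) * ex (x * i) =
      ∑ ps ∈ QF, ∑ a ∈ range ps.prod, rh c1 ps a * (((tw s i / Tw s : ℝ) : ℂ) * ex ((x + a / ps.prod) * i)) := by
    intro i _
    rw [mul_div_right_comm, Complex.ofReal_mul, (boxRho c1).1 i, mul_sum, sum_mul]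
    refine sum_congr rfl fun ps _ => ?_
    rw [mul_sum, sum_mul]
    refine sum_congr rfl fun a _ => ?_
    rw [show (x + a / ps.prod) * i = i * a / ps.prod + x * i by ring, ex_add]
    ring
  rw [sum_congr rfl h1, sum_comm]
  refine sum_congr rfl fun ps _ => ?_
  rw [sum_comm]
  exact sum_congr rfl fun a _ => by rw [tau, mul_sum]

/-- a matched term -/
theorem tau_mat {a' : ℤ} {q' q a j : ℕ} (hq' : 0 < q') (hq : 0 < q) (h : Mat a' q' q a j) (s : ℕ) (β : ℝ) :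
    tau s ((a' / q' + β) * (60 * j + 2) + a / q) = tau s (β * (60 * j + 2)) := by
  obtain ⟨k, hk⟩ := h
  have h1 : (a : ℝ) * q' + a' * (60 * j + 2) * q = q * q' * k := by exact_mod_cast hk
  have h2 : (q : ℝ) ≠ 0 := by exact_mod_cast hq.ne'
  have h3 : (q' : ℝ) ≠ 0 := by exact_mod_cast hq'.ne'
  rw [← tau_add_int s (β * (60 * j + 2)) k]
  congr 1
  field_simp
  linear_combination h1

theorem boxSplit : BoxSplit := by
  intro N c1 lam a' q' β hq'
  unfold phiH matH forS noiS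
  rw [← sum_sub_distrib, ← sum_add_distrib]
  refine (norm_sum_le _ _).trans (sum_le_sum fun s _ => ?_)
  rw [← sum_sub_distrib, ← sum_add_distrib]
  refine (norm_sum_le _ _).trans (sum_le_sum fun j _ => ?_)
  rw [← mul_sub, ← mul_add, norm_mul, Complex.norm_real, Real.norm_eq_abs, abs_of_nonneg (lw_nonneg j)]
  refine mul_le_mul_of_nonneg_left ?_ (lw_nonneg j)
  set θ : ℝ := a' / q' + β with hθ
  have h1 : ∑ i ∈ range (Ew s), ((lam s i / Tw s : ℝ) : ℂ) * ex (θ * ((i * (60 * j + 2) + c1 * j : ℕ) : ℝ)) =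
      ex (θ * (c1 * j)) * ((∑ i ∈ range (Ew s), ((tw s i * (rhoQ (60 * i + c1) : ℝ) / Tw s : ℝ) : ℂ) *
        ex (θ * (60 * j + 2) * i)) + (∑ i ∈ range (Ew s), ((lam s i - tw s i * (rhoQ (60 * i + c1) : ℝ) : ℝ) : ℂ) *
        ex (θ * (60 * j + 2) * i)) / (Tw s : ℝ)) := by
    rw [sum_div, ← sum_add_distrib, mul_sum]
    refine sum_congr rfl fun i _ => ?_
    rw [show θ * ((i * (60 * j + 2) + c1 * j : ℕ) : ℝ) = θ * (c1 * j) + θ * (60 * j + 2) * i by push_cast; ring, ex_add]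
    push_cast
    ring
  have h2 : ∀ ps ∈ QF, ∑ a ∈ range ps.prod, rh c1 ps a * tau s (θ * (60 * j + 2) + a / ps.prod) =
      tau s (β * (60 * j + 2)) * ∑ a ∈ (range ps.prod).filter (fun a => Val N q' ps.prod β ∧ Mat a' q' ps.prod a j),
        rh c1 ps a + ∑ a ∈ (range ps.prod).filter (fun a => ¬ (Val N q' ps.prod β ∧ Mat a' q' ps.prod a j)),
          rh c1 ps a * tau s (θ * (60 * j + 2) + a / ps.prod) := by
    intro ps hps
    rw [← sum_filter_add_sum_filter_not _ (fun a => Val N q' ps.prod β ∧ Mat a' q' ps.prod a j), mul_sum]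
    congr 1
    refine sum_congr rfl fun a ha => ?_
    rw [tau_mat hq' (QF_pos hps) (mem_filter.1 ha).2.2, mul_comm]
  rw [h1, model_eq, sum_congr rfl h2, sum_add_distrib, ← mul_sum, mul_assoc, ← mul_sub, norm_mul, norm_ex, one_mul,
    add_assoc, add_sub_cancel_left]
  refine (norm_add_le _ _).trans (add_le_add ?_ ?_)
  · refine (norm_sum_le _ _).trans (sum_le_sum fun ps hps => ?_)
    rw [mul_sum]
    refine (norm_sum_le _ _).trans (sum_le_sum fun a ha => ?_)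
    rw [norm_mul]
    exact mul_le_mul_of_nonneg_right ((boxRho c1).2 ps hps a (mem_range.1 (mem_filter.1 ha).1)).1 (norm_nonneg _)
  · rw [norm_div, Complex.norm_real, Real.norm_eq_abs, abs_of_nonneg (Tw_nonneg s)]

end Cfsg.Agent.Depth.D
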