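import Cfsg.Agent.Depth.D.ForB
import Cfsg.Agent.Depth.D.Rho

/-!
# Depth (S5768): the foreign terms (3), `boxFor` (helper89)
-/

set_option autoImplicit false

namespace Cfsg.Agent.Depth.D

open Finset Real Cfsg.Agent.Depth.S
open scoped Classical

namespace Fo

theorem sum_cL (e : ℕ) : ∑ ps ∈ QF, cL ps * (ps.prod : ℝ) ^ e =
    ((1 + (QP.map fun ps => (ps.map cQ).prod * (ps.prod : ℚ) ^ e).sum : ℚ) : ℝ) := by
  have h := sum_QF fun ps => (ps.map cQ).prod * (ps.prod : ℚ) ^ e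
  rw [List.map_nil, List.prod_nil, List.prod_nil, Nat.cast_one, one_pow, mul_one] at h
  rw [← h, Rat.cast_sum]
  exact sum_congr rfl fun ps _ => by rw [cL, Rat.cast_mul, Rat.cast_pow, Rat.cast_natCast]

theorem sum_cL_one : ∑ ps ∈ QF, cL ps * (ps.prod : ℝ) ≤ 202.6 := by
  have h := sum_cL 1
  simp only [pow_one] at h
  have h1 : 1 + (QP.map fun ps => (ps.map cQ).prod * (ps.prod : ℚ)).sum ≤ 1013 / 5 := by decide +kernel
  rw [h]
  refine (Rat.cast_le.2 h1).trans ?_
  norm_num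

theorem sum_cL_two : ∑ ps ∈ QF, cL ps * (ps.prod : ℝ) ^ 2 ≤ 36124 := by
  have h1 : 1 + (QP.map fun ps => (ps.map cQ).prod * (ps.prod : ℚ) ^ 2).sum ≤ 36124 := by decide +kernel
  rw [sum_cL]
  exact_mod_cast h1

end Fo

open Fo in
/-- **the foreign terms** -/
theorem boxFor : BoxFor := by
  intro N a' q' β lo R hN hq' hco hlo hTh hR hs
  have h1 : forS N a' q' β = ∑ ps ∈ QF, cL ps * ∑ s ∈ range 8, ∑ j ∈ JW N s, lw j *
      ∑ b ∈ (range ps.prod).filter (fun b => ¬ (Val N q' ps.prod β ∧ Mat a' q' ps.prod b j)),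
        ‖tau s ((a' / q' + β) * (60 * j + 2) + b / ps.prod)‖ := by
    simp only [forS, mul_sum (s := QF), mul_sum (s := range 8), mul_sum (s := JW _ _)]
    rw [sum_comm (s := QF)]
    refine sum_congr rfl fun s _ => ?_
    rw [sum_comm]
    exact sum_congr rfl fun _ _ => sum_congr rfl fun _ _ => mul_left_comm _ _ _
  have hcf : 0 ≤ cc N lo 10 R * ff (q2 q') := by
    have := log_two_BB_pos hN
    have := one_le_Gs 60 hR
    have := ff_pos (q2 q')
    rw [cc]
    positivity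
  rw [h1]
  refine (sum_le_sum fun ps h => mul_le_mul_of_nonneg_left (one hN hq' hco hlo hTh hR hs (QF_pos h) (QF_spec h).2.2.1
    (Nat.coprime_list_prod_left_iff.2 fun p hp => coprime_sixty ((QF_spec h).2.2.2 p hp).1 ((QF_spec h).2.2.2 p hp).2.1))
    (cL_nonneg h)).trans ?_
  simp only [mul_left_comm _ (Th N)]
  rw [← mul_sum, sum_filter]
  refine mul_le_mul_of_nonneg_left ?_ (Th_nonneg N)
  rw [sum_congr rfl fun ps _ => show _ = (1 / 2826240 ^ 2 + 1.79e-11 * (ge q' : ℝ) ^ 2) * (cL ps * (ps.prod : ℝ) ^ 2) +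
    cc N lo 10 R * ff (q2 q') * (0.54 * (ge q' / 0.66 + 2.64 / ge q') / 2826240 * (cL ps * ps.prod) +
      if ¬ Val N q' ps.prod β then cL ps * (23.8 * ps.prod.gcd q' / (dl N β * q2 q')) else 0) by split_ifs <;> ring]
  simp only [sum_add_distrib, ← mul_sum]
  refine add_le_add ((mul_le_mul_of_nonneg_left sum_cL_two (by positivity)).trans ?_)
    (mul_le_mul_of_nonneg_left (add_le_add_left ((mul_le_mul_of_nonneg_left sum_cL_one (by positivity)).trans_eq
      (by ring)) _) hcf)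
  have := sq_nonneg (ge q' : ℝ)
  norm_num
  linarith

end Cfsg.Agent.Depth.D
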