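import Cfsg.Agent.Depth.D.Tau
import Cfsg.Agent.Depth.S.LemS
import Cfsg.Agent.Depth.S.GH1

/-!
# Depth (S5768): the foreign terms (1), tools (helper89)

Lorentz majorant of `tau`, the polynomial `∑ r^i e(i z)`, the sieve bound `key`.
-/

set_option autoImplicit false

namespace Cfsg.Agent.Depth.D.Fo

open Finset Real Cfsg.Agent.Depth.S

theorem tau_lor (s : ℕ) (u : ℝ) {w : ℝ} (h0 : 0 ≤ w) (hw : w ≤ 2826240 * |sin (π * u)|) :
    ‖tau s u‖ ≤ 1.25 * (1 / (1 + 4 * w ^ 2)) := by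
  have h1 := norm_tau_le_one s u
  have h2 := norm_tau_mul_sin s u
  have h3 := norm_tau_mul_sin_sq s u
  have h4 := norm_nonneg (tau s u)
  have e : w ≤ Yw s * |sin (π * u)| := hw.trans (mul_le_mul_of_nonneg_right (Yw_ge s) (abs_nonneg _))
  have e2 : w ^ 2 ≤ (Yw s : ℝ) ^ 2 * sin (π * u) ^ 2 := by
    rw [← sq_abs (sin _), ← mul_pow]; exact pow_le_pow_left₀ h0 e 2
  have h5 : ‖tau s u‖ * (4 * w) ≤ 1 := le_trans (mul_le_mul_of_nonneg_left (by linarith) h4) h2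
  have h6 : ‖tau s u‖ * (4 * w ^ 2) ≤ 1 := le_trans (mul_le_mul_of_nonneg_left (by linarith) h4) h3
  rw [mul_one_div, le_div_iff₀ (by positivity)]
  rcases le_total w (1 / 4) with c | c
  · have := mul_le_mul h1 (show 1 + 4 * w ^ 2 ≤ 1.25 by nlinarith) (by positivity) zero_le_one
    linarith
  rcases le_total w 1 with c' | c'
  · have := mul_le_mul_of_nonneg_left (show 1 + 4 * w ^ 2 ≤ 5 * w by nlinarith) h4
    linarith
  · have := mul_le_mul_of_nonneg_left (show 1 + 4 * w ^ 2 ≤ 5 * w ^ 2 by nlinarith) h4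
    linarith

theorem tau_lor' (s : ℕ) (x : ℝ) {q : ℕ} (hq : 0 < q) (a : ℕ) :
    ‖tau s (x + a / q)‖ ≤ 1.25 * (1 / (1 + 4 * (2826240 / q) ^ 2 * sin (π * (q * x)) ^ 2)) := by
  have h0 : (0 : ℝ) < q := by exact_mod_cast hq
  have h1 := norm_Dk_mul_sin q (x + a / q)
  have h2 := mul_le_mul_of_nonneg_right (D.norm_Dk_le q (x + a / q)) (abs_nonneg (sin (π * (x + a / q))))
  rw [show (x + a / q) * q = q * x + (a : ℤ) by push_cast; field_simp, abs_sin_eq (q * x + _), nd_add_int,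
    ← abs_sin_eq] at h1
  rw [mul_assoc 4, ← sq_abs (sin (π * (q * x))), ← mul_pow]
  refine tau_lor s _ (by positivity) ?_
  rw [div_mul_eq_mul_div, div_le_iff₀ h0]
  nlinarith

theorem sum_a (s : ℕ) {q : ℕ} (hq : 0 < q) (x : ℝ) (P : ℕ → Prop) [DecidablePred P] {F : ℝ} (hF : 0 ≤ F)
    (h : ∀ a, P a → nd (x + a / q) < 1 / (2 * q) → ‖tau s (x + a / q)‖ ≤ F) :
    ∑ a ∈ (range q).filter P, ‖tau s (x + a / q)‖ ≤ q ^ 2 / 2826240 ^ 2 + F := by
  have h0 : (1 : ℝ) ≤ q := by exact_mod_cast hq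
  have sp : ∀ a ∈ range q, ∀ b ∈ range q, a ≠ b → 1 / (q : ℝ) ≤ nd ((x + a / q) - (x + b / q)) := fun a ha b hb e => by
    rw [show (x + a / q) - (x + b / q) = (((a : ℤ) - b : ℤ) : ℝ) / q by push_cast; ring]
    refine one_div_le_nd hq fun h => e ?_
    have h1 := Int.eq_zero_of_abs_lt_dvd h (by rw [mem_range] at ha hb; rw [abs_lt]; omega)
    omega
  have e : 1 / (q : ℝ) = 1 / (2 * q) + 1 / (2 * q) := by field_simp; norm_num
  have hd : (0 : ℝ) < 1 / (2 * q) := by positivity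
  rw [← sum_filter_add_sum_filter_not _ fun a : ℕ => 1 / (2 * (q : ℝ)) ≤ nd (x + a / q)]
  refine add_le_add ?_ ?_
  · have h1 := off_diag (((range q).filter P).filter fun a : ℕ => 1 / (2 * (q : ℝ)) ≤ nd (x + a / q))
      (fun a => x + a / q) hd (fun a ha b hb e' => by
        have := sp a (mem_filter.1 (mem_filter.1 ha).1).1 b (mem_filter.1 (mem_filter.1 hb).1).1 e'
        linarith) fun a ha => (mem_filter.1 ha).2
    refine (sum_le_sum (g := fun a : ℕ => 1 / (4 * 2826240 ^ 2) * (1 / sin (π * (x + a / q)) ^ 2)) fun a ha => ?_).trans ?_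
    · have h2 := norm_tau_mul_sin_sq s (x + a / q)
      have h3 := two_nd_le_sin (x + a / q)
      have h4 : 0 < sin (π * (x + a / q)) ^ 2 := by
        have := (mem_filter.1 ha).2
        rw [← sq_abs]; exact pow_pos (by linarith) 2
      rw [one_div_mul_one_div, le_div_iff₀ (by positivity)]
      refine le_trans (mul_le_mul_of_nonneg_left (mul_le_mul_of_nonneg_right ?_ h4.le) (norm_nonneg _)) h2
      have := pow_le_pow_left₀ (by norm_num) (Yw_ge s) 2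
      linarith
    · rw [← mul_sum]
      refine (mul_le_mul_of_nonneg_left h1 (by positivity)).trans ?_
      rw [show 1 / (3 * (1 / (2 * (q : ℝ))) ^ 2) + 1 / (1 / (2 * q)) = 4 * q ^ 2 / 3 + 2 * q by field_simp; ring]
      nlinarith
  · refine (sum_le_card_nsmul _ _ F fun a ha => h a (mem_filter.1 (mem_filter.1 ha).1).2
      (not_le.1 (mem_filter.1 ha).2)).trans ?_
    rw [nsmul_eq_mul]
    refine mul_le_of_le_one_left hF (Nat.cast_le_one.2 ?_)
    exact card_le_one.2 fun a ha b hb => by_contra fun e' => by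
      have h1 := sp a (mem_filter.1 (mem_filter.1 ha).1).1 b (mem_filter.1 (mem_filter.1 hb).1).1 e'
      have h2 := nd_sub_le (x + a / q) (x + b / q)
      have h3 := not_le.1 (mem_filter.1 ha).2
      have h4 := not_le.1 (mem_filter.1 hb).2
      linarith

theorem norm_sub_sq (r z : ℝ) : ‖(r : ℂ) * ex z - 1‖ ^ 2 = (1 - r) ^ 2 + 4 * r * sin (π * z) ^ 2 := by
  have h1 : ‖ex z - 1‖ ^ 2 = 4 * sin (π * z) ^ 2 := by rw [norm_ex_sub_one, mul_pow, sq_abs]; norm_num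
  have h2 : ‖ex z‖ ^ 2 = 1 := by rw [norm_ex, one_pow]
  simp only [Complex.sq_norm, Complex.normSq_apply, Complex.sub_re, Complex.sub_im, Complex.mul_re, Complex.mul_im,
    Complex.ofReal_re, Complex.ofReal_im, Complex.one_re, Complex.one_im] at h1 h2 ⊢
  linear_combination r * h1 + (r ^ 2 - r) * h2

/-- the Lorentz kernel is bounded by a polynomial -/
theorem lor {a ρ : ℝ} (ha : 1 ≤ a) {n : ℕ} (hρ : (1 - 1 / a) ^ n ≤ ρ) (hρ1 : ρ < 1) (z : ℝ) :
    1 / (1 + 4 * a ^ 2 * sin (π * z) ^ 2) ≤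
      ‖∑ i ∈ range n, (((1 - 1 / a) ^ i : ℝ) : ℂ) * ex (z * i)‖ ^ 2 / (a ^ 2 * (1 - ρ) ^ 2) := by
  have h0 : 0 ≤ 1 - 1 / a := sub_nonneg.2 ((div_le_one (by linarith)).2 ha)
  have h1 := congrArg norm (geom_sum_mul (((1 - 1 / a : ℝ) : ℂ) * ex z) n)
  have h2 := norm_sub_norm_le 1 ((((1 - 1 / a : ℝ) : ℂ) * ex z) ^ n)
  rw [norm_sub_rev, ← h1, norm_mul, norm_pow, norm_mul, norm_ex, norm_one, mul_one, Complex.norm_real,
    Real.norm_of_nonneg h0] at h2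
  have h3 := pow_le_pow_left₀ (sub_pos.2 hρ1).le (show 1 - ρ ≤ _ from le_trans (by linarith) h2) 2
  rw [mul_pow, norm_sub_sq] at h3
  have h4 := sub_pos.2 hρ1
  rw [sum_congr rfl fun i _ => by rw [ex_mul_nat, Complex.ofReal_pow, ← mul_pow], div_le_div_iff₀ (by positivity) (by positivity), one_mul]
  refine (mul_le_mul_of_nonneg_left h3 (sq_nonneg a)).trans ?_
  rw [mul_left_comm]
  refine mul_le_mul_of_nonneg_left ?_ (sq_nonneg _)
  have h5 : a * (1 / a) = 1 := mul_one_div_cancel (by linarith)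
  have h6 := mul_nonneg (show 0 ≤ a by linarith) (sq_nonneg (sin (π * z)))
  have h7 : a ^ 2 * ((1 - (1 - 1 / a)) ^ 2 + 4 * (1 - 1 / a) * sin (π * z) ^ 2) =
      1 + 4 * a ^ 2 * sin (π * z) ^ 2 - 4 * (a * sin (π * z) ^ 2) := by field_simp; ring
  linarith

theorem sum_sq_le {a : ℝ} (ha : 1 ≤ a) (n : ℕ) : ∑ i ∈ range n, ((1 - 1 / a) ^ i) ^ 2 ≤ a ^ 2 / (2 * a - 1) := by
  have h1 := mul_neg_geom_sum ((1 - 1 / a) ^ 2) n
  have h2 : 0 ≤ ((1 - 1 / a) ^ 2) ^ n := by positivity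
  rw [show 1 - (1 - 1 / a) ^ 2 = (2 * a - 1) / a ^ 2 by field_simp; ring] at h1
  simp only [← pow_mul, mul_comm _ 2] at h1 h2 ⊢
  rw [le_div_iff₀ (by linarith)]
  rw [div_mul_eq_mul_div, div_eq_iff (by positivity)] at h1
  nlinarith [sq_nonneg a]

theorem pow_le_exp {a t : ℝ} (ha : 1 ≤ a) {n : ℕ} (h : t * a ≤ n) : (1 - 1 / a) ^ n ≤ exp (-t) := by
  have h0 : 0 ≤ 1 - 1 / a := sub_nonneg.2 ((div_le_one (by linarith)).2 ha)
  refine (pow_le_pow_left₀ h0 (show 1 - 1 / a ≤ exp (-(1 / a)) by linarith [add_one_le_exp (-(1 / a))]) n).trans ?_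
  rw [← exp_nat_mul, exp_le_exp, mul_neg, neg_le_neg_iff, mul_one_div, le_div_iff₀ (by linarith)]
  exact h

theorem exp_three : exp (-3) ≤ 0.05 := by
  have h := pow_le_pow_left₀ (by norm_num) exp_one_gt_d9.le 3
  rw [← exp_nat_mul] at h
  rw [exp_neg, inv_le_comm₀ (exp_pos _) (by norm_num)]
  norm_num at h ⊢
  linarith

theorem exp_five : exp (-5) ≤ 0.0068 := by
  have h := pow_le_pow_left₀ (by norm_num) exp_one_gt_d9.le 5
  rw [← exp_nat_mul] at h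
  rw [exp_neg, inv_le_comm₀ (exp_pos _) (by norm_num)]
  norm_num at h ⊢
  linarith

theorem one_le_fac {p : ℕ} (hp : p.Prime) : (1 : ℝ) ≤ (p : ℝ) / (p - 1) := by
  rw [le_div_iff₀ (GH.pm_pos hp)]; linarith

theorem ff_le {a b : ℕ} (h : a ∣ b) (hb : 0 < b) : ff a ≤ ff b :=
  prod_le_prod_of_subset_of_one_le (filter_subset_filter _ (Nat.primeFactors_mono h hb.ne'))
    (fun _ hp => zero_le_one.trans (one_le_fac (Nat.prime_of_mem_primeFactors (mem_filter.1 hp).1)))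
    fun _ hp _ => one_le_fac (Nat.prime_of_mem_primeFactors (mem_filter.1 hp).1)

theorem ff_pos (a : ℕ) : 0 < ff a :=
  prod_pos fun _ hp => zero_lt_one.trans_le (one_le_fac (Nat.prime_of_mem_primeFactors (mem_filter.1 hp).1))

/-- **the sieve bound for the Lorentz kernel** -/
theorem key {N : ℕ} (hN : 10 ^ 23 ≤ N) {lo R : ℝ} (hlo : 0 < lo) (hTh : lo * BB N / 16 ≤ Th N) (hR : 1 ≤ R)
    (hRB : R ≤ BB N) {ϑ β : ℝ} {a3 : ℤ} {q3 Q m n : ℕ} (hq3 : 0 < q3) (hQ : q3 ∣ Q) (hQ0 : 0 < Q) (hm : 0 < m)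
    (hco : IsCoprime a3 (q3 : ℤ)) (hθ : 60 * ϑ = a3 / q3 + β) {T a ρ : ℝ} (hT : 0 < T)
    (h1 : q3 * R ^ 2 * (T * 60 / BB N + |β| * n) ≤ 1) (h2 : n ≤ m * q3 ∨ T * 60 / BB N ≤ |β| * q3 * m)
    (ha : 1 ≤ a) (hρ : (1 - 1 / a) ^ n ≤ ρ) (hρ1 : ρ < 1) :
    ∑ j ∈ JA N, lw j * (1 / (1 + 4 * a ^ 2 * sin (π * (ϑ * (60 * j + 2))) ^ 2)) ≤
      Th N * (cc N lo T R * ff Q * (m / ((2 * a - 1) * (1 - ρ) ^ 2))) := by
  obtain ⟨j0, Y, hY, hJ⟩ := JA_Ico N
  have hB := BB_ge hN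
  have hL := log_two_BB_pos hN
  have hG := one_le_Gs 60 hR
  have hG3 := one_le_Gs (60 * q3) hR
  have hf := ff_pos q3
  have hf' := ff_le hQ hQ0
  have h3 := lemS 60 1 (60 * q3) R (JA N) j0 Y a3 q3 q3 m n β (T * 60 / BB N)
    (fun i => (((1 - 1 / a) ^ i : ℝ) : ℂ) * ex (2 * ϑ * i)) (dvd_mul_right _ _) hR hq3 hq3 hm (by positivity) hco
    (fun j hj => ⟨(hJ j hj).1, (hJ j hj).2, sifted hj _ hRB⟩) h1
    (fun m' r _ h h' => (Nat.Coprime.symm (h.coprime_dvd_right (dvd_mul_left _ _))).dvd_of_dvd_mul_right h') h2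
  have h4 : ∑ i ∈ range n, ‖(((1 - 1 / a) ^ i : ℝ) : ℂ) * ex (2 * ϑ * i)‖ ^ 2 ≤ a ^ 2 / (2 * a - 1) := by
    simp only [norm_mul, norm_ex, mul_one, Complex.norm_real, Real.norm_eq_abs, sq_abs]
    exact sum_sq_le ha n
  have h5 : 1 / Gs (60 * q3) R ≤ ff Q / Gs 60 R := by
    have h := gh1 q3 R hq3
    rw [div_le_iff₀ hf] at h
    rw [div_le_div_iff₀ (by linarith) (by linarith)]
    nlinarith
  have h6 : (Y : ℝ) + 1.2 / (T * 60 / BB N) + 2 ≤ (1 + 1.2 / T + 0.000001) * (4 / 15) * (Th N / lo) := by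
    have h7 : BB N / 16 ≤ Th N / lo := by rw [le_div_iff₀ hlo]; linarith
    refine le_trans ?_ (mul_le_mul_of_nonneg_left h7 (by positivity))
    rw [show 1.2 / (T * 60 / BB N) = 1.2 / T * (4 / 15) * (BB N / 16) by field_simp; norm_num]
    linarith
  have hρ2 := sub_pos.2 hρ1
  have ha2 : 0 < 2 * a - 1 := by linarith
  have hT0 := Th_nonneg N
  calc _ ≤ ∑ j ∈ JA N, log (2 * BB N) / (a ^ 2 * (1 - ρ) ^ 2) *
        ‖∑ i ∈ range n, (((1 - 1 / a) ^ i : ℝ) : ℂ) * ex (2 * ϑ * i) * ex ((a3 / q3 + β) * i * j)‖ ^ 2 := by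
        refine sum_le_sum fun j hj => ?_
        refine (mul_le_mul (lw_le hj) (lor ha hρ hρ1 _) (by positivity) hL.le).trans (le_of_eq ?_)
        rw [div_mul_eq_mul_div, mul_div_assoc]
        congr 4
        refine sum_congr rfl fun i _ => ?_
        rw [mul_assoc _ (ex _), ← ex_add, ← hθ]
        congr 2
        ring
    _ ≤ log (2 * BB N) / (a ^ 2 * (1 - ρ) ^ 2) * ((1 + 1.2 / T + 0.000001) * (4 / 15) * (Th N / lo) * m *
        (ff Q / Gs 60 R) * (a ^ 2 / (2 * a - 1))) := by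
        rw [← mul_sum]
        refine mul_le_mul_of_nonneg_left (h3.trans ?_) (by positivity)
        rw [div_eq_mul_one_div _ (Gs _ _)]
        have := hf.le.trans hf'
        exact mul_le_mul (mul_le_mul (mul_le_mul_of_nonneg_right h6 (Nat.cast_nonneg _)) h5 (by positivity)
          (by positivity)) h4 (sum_nonneg fun _ _ => sq_nonneg _) (by positivity)
    _ = _ := by
        rw [cc]
        field_simp

end Cfsg.Agent.Depth.D.Fo
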