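import Cfsg.Agent.Depth.D.ForA

/-!
# Depth (S5768): the foreign terms (2), one modulus (helper89)
-/

set_option autoImplicit false

namespace Cfsg.Agent.Depth.D.Fo

open Finset Real Cfsg.Agent.Depth.S
open scoped Classical

theorem arith {q q' : ℕ} (hq' : 0 < q') (h60 : q.Coprime 60) :
    ∃ q3 c d : ℕ, 0 < q3 ∧ q2 q' = q.gcd q' * q3 ∧ qc q' = ge q' * q2 q' ∧ 0 < ge q' ∧ c.Coprime q3 ∧
      60 * q * q3 = c * q' ∧ 2 * q * (ge q' * q3) = d * q' := by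
  obtain ⟨e, he⟩ : q'.gcd 2 ∣ q'.gcd 60 := Nat.gcd_dvd_gcd_of_dvd_right _ (by decide)
  have g0 : 0 < q'.gcd 60 := Nat.gcd_pos_of_pos_left _ hq'
  have g1 : 0 < q'.gcd 2 := Nat.gcd_pos_of_pos_left _ hq'
  have h1 : q'.gcd 60 * q2 q' = q' := Nat.mul_div_cancel' (Nat.gcd_dvd_left _ _)
  have h2 : q'.gcd 2 * qc q' = q' := Nat.mul_div_cancel' (Nat.gcd_dvd_left _ _)
  have h3 : qc q' = e * q2 q' := Nat.eq_of_mul_eq_mul_left g1 (by rw [h2, ← mul_assoc, ← he, h1])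
  have h4 : 0 < q2 q' := Nat.pos_of_ne_zero fun h => by rw [h] at h1; omega
  have h5 : ge q' = e := by rw [ge, h3, Nat.mul_div_cancel _ h4]
  have h6 : 0 < e := Nat.pos_of_ne_zero fun h => by rw [h] at he; omega
  obtain ⟨q3, c, h7, h8, h9⟩ := Nat.exists_coprime q' (60 * q)
  rw [h60.symm.gcd_mul, Nat.gcd_comm q' q] at h8 h9
  have h10 : q2 q' = q.gcd q' * q3 := Nat.eq_of_mul_eq_mul_left g0 (by rw [h1]; linarith)
  obtain ⟨u, hu⟩ : q'.gcd 2 ∣ 2 := Nat.gcd_dvd_right _ _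
  obtain ⟨v, hv⟩ : q.gcd q' ∣ q := Nat.gcd_dvd_left _ _
  refine ⟨q3, c, u * v, Nat.pos_of_ne_zero fun h => by rw [h] at h10; omega, h10, h5 ▸ h3, h5 ▸ h6, h7.symm, ?_, ?_⟩
  · rw [h9]; conv_rhs => rw [h8]
    ring
  · rw [h5]
    calc 2 * q * (e * q3) = q'.gcd 2 * u * (q.gcd q' * v) * (e * q3) := by rw [← hu, ← hv]
      _ = u * v * (q'.gcd 2 * (e * (q.gcd q' * q3))) := by ring
      _ = _ := by rw [← h10, ← h3, h2]

/-- a near fraction which is not matched -/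
theorem gap {q q' D d a j : ℕ} {a' : ℤ} {β : ℝ} (hq : 0 < q) (hq' : 0 < q') (hD : 0 < D) (hd : 2 * q * D = d * q')
    (hβ : |β| * (60 * j + 2) * q * D ≤ 0.75) (hM : ¬ Mat a' q' q a j)
    (hn : nd ((a' / q' + β) * (60 * j + 2) + a / q) < 1 / (2 * q)) :
    0.66 / D ≤ |sin (π * (q * ((a' / q' + β) * (60 * j + 2))))| := by
  have q0 : (0 : ℝ) < q := by exact_mod_cast hq
  have q1 : (0 : ℝ) < q' := by exact_mod_cast hq'
  have D0 : (1 : ℝ) ≤ D := by exact_mod_cast hD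
  obtain ⟨n, e⟩ : ∃ n : ℤ, |(a' / q' + β) * (60 * j + 2) + a / q - n| < 1 / (2 * q) := ⟨_, hn⟩
  have hd' : (2 * q * D : ℤ) = d * q' := by exact_mod_cast hd
  have hd'' : (d : ℝ) = 2 * q * D / q' := by rw [eq_div_iff q1.ne']; exact_mod_cast hd.symm
  have h1 : a' * (30 * j + 1) * d + (a - q * n) * D ≠ 0 := fun h => hM ⟨n, by
    refine mul_left_cancel₀ (show (D : ℤ) ≠ 0 by omega) ?_
    push_cast
    linear_combination (q' : ℤ) * h + a' * (30 * j + 1) * hd'⟩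
  have h2 : (1 : ℝ) ≤ |((a' * (30 * j + 1) * d + (a - q * n) * D : ℤ) : ℝ)| := by exact_mod_cast Int.one_le_abs h1
  obtain ⟨w, hw⟩ : ∃ w : ℝ, w = q * ((a' / q' + β) * (60 * j + 2) + a / q - n) := ⟨_, rfl⟩
  have h3 : |w| < 1 / 2 := by
    rw [hw, abs_mul, abs_of_pos q0]
    refine (mul_lt_mul_of_pos_left e q0).trans_eq ?_
    field_simp
  have h4 : ((a' * (30 * j + 1) * d + (a - q * n) * D : ℤ) : ℝ) = w * D - β * ((60 * j + 2) * q * D) := by
    push_cast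
    rw [hw, hd'']
    field_simp
    ring
  have h5 := abs_sub (w * D) (β * ((60 * j + 2) * q * D))
  rw [← h4, abs_mul, abs_mul β, abs_of_nonneg (show (0 : ℝ) ≤ D by linarith),
    abs_of_nonneg (show (0 : ℝ) ≤ (60 * j + 2) * q * D by positivity)] at h5
  have h6 : 1 / (4 * (D : ℝ)) ≤ |w| := by rw [div_le_iff₀ (by positivity)]; linarith
  rw [show q * ((a' / q' + β) * (60 * j + 2)) = w + ((q * n - a : ℤ) : ℝ) by rw [hw]; push_cast; field_simp; ring,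
    abs_sin_eq, nd_add_int, nd_eq_abs h3.le]
  have p1 := pi_gt_d4
  have p2 := pi_lt_d4
  have h7 : 0 < π * (1 / (4 * (D : ℝ))) := by positivity
  refine le_trans ?_ (sin_le_sin_of_le_of_le_pi_div_two (by linarith) (by nlinarith)
    (mul_le_mul_of_nonneg_left h6 pi_pos.le))
  refine le_trans ?_ (sin_gt_sub_cube h7).le
  obtain ⟨t, ht⟩ : ∃ t : ℝ, t = 1 / D := ⟨_, rfl⟩
  have t0 : 0 < t := by rw [ht]; positivity
  have t1 : t ≤ 1 := by rw [ht, div_le_one (by linarith)]; exact D0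
  rw [show (0.66 : ℝ) / D = 0.66 * t by rw [ht]; ring, show 1 / (4 * (D : ℝ)) = t / 4 by rw [ht]; field_simp]
  have h8 : (π * (t / 4)) ^ 2 ≤ 0.7854 ^ 2 := pow_le_pow_left₀ (by positivity) (by nlinarith) 2
  have h9 : 0.785 * t ≤ π * (t / 4) := by nlinarith
  nlinarith

theorem step {N q : ℕ} (hq : 0 < q) (θ : ℝ) (P : ℕ → ℕ → Prop) [∀ j, DecidablePred (P j)] {c0 c1 a X : ℝ} (h0 : 0 ≤ c0) (h1 : 0 ≤ c1)
    (hF : ∀ s, ∀ j ∈ JA N, ∀ b, P j b → nd (θ * (60 * j + 2) + b / q) < 1 / (2 * q) →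
      ‖tau s (θ * (60 * j + 2) + b / q)‖ ≤ c0 + c1 * (1 / (1 + 4 * a ^ 2 * sin (π * (q * (θ * (60 * j + 2)))) ^ 2)))
    (hX : ∑ j ∈ JA N, lw j * (1 / (1 + 4 * a ^ 2 * sin (π * (q * θ * (60 * j + 2))) ^ 2)) ≤ Th N * X) :
    ∑ s ∈ range 8, ∑ j ∈ JW N s, lw j * ∑ b ∈ (range q).filter (P j), ‖tau s (θ * (60 * j + 2) + b / q)‖ ≤
      Th N * (q ^ 2 / 2826240 ^ 2 + c0 + c1 * X) := by
  refine (sum_le_sum fun s _ => sum_le_sum fun j hj => mul_le_mul_of_nonneg_left (sum_a s hq _ (P j) (by positivity)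
    (hF s j (JW_subset N s hj))) (lw_nonneg j)).trans ?_
  rw [sum_win N fun j => lw j * (q ^ 2 / 2826240 ^ 2 +
    (c0 + c1 * (1 / (1 + 4 * a ^ 2 * sin (π * (q * (θ * (60 * j + 2)))) ^ 2))))]
  simp only [← add_assoc, mul_add (lw _), sum_add_distrib, ← sum_mul, ← Th_eq, mul_left_comm _ c1, ← mul_sum,
    mul_add (Th N), ← mul_assoc (q : ℝ)]
  exact add_le_add_right (mul_le_mul_of_nonneg_left hX h1) _

theorem num1 {q A t T G : ℝ} (q0 : 1 ≤ q) (hA : 1 ≤ A) (hA' : 1 / (2 * A - 1) ≤ q / 5652089) (t0 : 0 < t) (hG : 4 ≤ G)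
    (hT : 1.2 / T ≤ 1.2 / 10 + 1.2 * t / q) :
    1.25 * ((1 + 1.2 / T + 0.000001) * (((1 : ℕ) : ℝ) / ((2 * A - 1) * (1 - 0.0068) ^ 2))) ≤
      (1 + 1.2 / 10 + 0.000001) * (0.54 * G * q / 2826240 + 23.8 / 98500000 * t) := by
  have h0 : 0 < 2 * A - 1 := by linarith
  have h1 : ((1 : ℕ) : ℝ) / ((2 * A - 1) * (1 - 0.0068) ^ 2) ≤ q / 5652089 * (1 / (1 - 0.0068) ^ 2) := by
    rw [Nat.cast_one, ← one_div_mul_one_div]
    exact mul_le_mul_of_nonneg_right hA' (by positivity)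
  have h2 := mul_le_mul (show 1 + 1.2 / T + 0.000001 ≤ 1.120001 + 1.2 * t / q by linarith) h1 (by positivity)
    (by positivity)
  rw [show (1.120001 + 1.2 * t / q) * (q / 5652089 * (1 / (1 - 0.0068) ^ 2)) =
    (1.120001 * q + 1.2 * t) * (1 / 5652089 * (1 / (1 - 0.0068) ^ 2)) by field_simp] at h2
  have h3 := mul_le_mul_of_nonneg_right hG (show (0 : ℝ) ≤ q by linarith)
  refine (mul_le_mul_of_nonneg_left h2 (by norm_num)).trans ?_
  norm_num
  linarith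

theorem num2 {q A G : ℝ} (q0 : 1 ≤ q) (hA : 1 ≤ A) (hA' : 1 / (2 * A - 1) ≤ q / 5652089) (hG : 4 ≤ G) :
    1.25 * (((3 : ℕ) : ℝ) / ((2 * A - 1) * (1 - 0.05) ^ 2)) ≤ 0.54 * G * q / 2826240 := by
  have h0 : 0 < 2 * A - 1 := by linarith
  have h3 := mul_le_mul_of_nonneg_right hG (show (0 : ℝ) ≤ q by linarith)
  rw [show ((3 : ℕ) : ℝ) / ((2 * A - 1) * (1 - 0.05) ^ 2) = 1 / (2 * A - 1) * (3 / (1 - 0.05) ^ 2) by
    push_cast; field_simp]
  norm_num at hA' ⊢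
  linarith

theorem num3 {q a g : ℝ} (q0 : 1 ≤ q) (ha : 15 ≤ a) (hg : 1 ≤ g) :
    1.25 * ((1 + 4 * a ^ 2 * (0.66 / (g * a)) ^ 2) / (4 * (2826240 / q) * (0.66 / (g * a)))) *
      (((3 : ℕ) : ℝ) / ((2 * a - 1) * (1 - 0.05) ^ 2)) ≤ 0.54 * (g / 0.66 + 2.64 / g) * q / 2826240 := by
  have h0 : 0 < 2 * a - 1 := by linarith
  have h1 : a / (2 * a - 1) ≤ 15 / 29 := by rw [div_le_div_iff₀ h0 (by norm_num)]; linarith
  have h2 : 0 ≤ (g / 0.66 + 2.64 / g) * q / 2826240 := by positivity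
  calc _ = 1.25 * 3 / (4 * (1 - 0.05) ^ 2) * (a / (2 * a - 1)) * ((g / 0.66 + 2.64 / g) * q / 2826240) := by
        push_cast; field_simp; norm_num
    _ ≤ 0.54 * ((g / 0.66 + 2.64 / g) * q / 2826240) := by
        refine mul_le_mul_of_nonneg_right ?_ h2
        norm_num
        linarith
    _ = _ := by ring

theorem num4 {a A v v0 : ℝ} (ha : 0 ≤ a) (hA : a ≤ A) (hA0 : 0 < A) (h0 : 0 < v0) (hv : v0 ≤ |v|) :
    1.25 * (1 / (1 + 4 * A ^ 2 * v ^ 2)) ≤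
      0 + 1.25 * ((1 + 4 * a ^ 2 * v0 ^ 2) / (4 * A * v0)) * (1 / (1 + 4 * a ^ 2 * v ^ 2)) := by
  have h1 := pow_le_pow_left₀ h0.le hv 2
  have h2 := pow_le_pow_left₀ ha hA 2
  rw [sq_abs] at h1
  rw [zero_add, mul_assoc 1.25]
  refine mul_le_mul_of_nonneg_left ?_ (by norm_num)
  rw [div_mul_div_comm, mul_one, div_le_div_iff₀ (by positivity) (by positivity), one_mul]
  have h3 := mul_le_mul_of_nonneg_right (show 4 * A * v0 ≤ 1 + 4 * A ^ 2 * v0 ^ 2 by nlinarith [sq_nonneg (1 - 2 * A * v0)])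
    (show 0 ≤ 1 + 4 * a ^ 2 * v ^ 2 by positivity)
  nlinarith [mul_nonneg (sub_nonneg.2 h1) (sub_nonneg.2 h2)]

theorem num5 {q a g v : ℝ} (q0 : 1 ≤ q) (ha0 : 1 ≤ a) (ha : a ≤ 14) (hg : 1 ≤ g) (hv : 0.66 / (g * a) ≤ |v|) :
    1.25 * (1 / (1 + 4 * (2826240 / q) ^ 2 * v ^ 2)) ≤ 1.79e-11 * q ^ 2 * g ^ 2 := by
  have h1 : 0.66 / (g * 14) ≤ |v| :=
    le_trans (div_le_div_of_nonneg_left (by norm_num) (by positivity) (mul_le_mul_of_nonneg_left ha (by linarith))) hv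
  have h2 := pow_le_pow_left₀ (by positivity) h1 2
  rw [sq_abs] at h2
  have h3 := mul_le_mul_of_nonneg_left h2 (show 0 ≤ 4 * (2826240 / q) ^ 2 by positivity)
  refine (mul_le_mul_of_nonneg_left (one_div_le_one_div_of_le
    (show 0 < 4 * (2826240 / q) ^ 2 * (0.66 / (g * 14)) ^ 2 by positivity) (by linarith)) (by norm_num)).trans ?_
  rw [show 1.25 * (1 / (4 * (2826240 / q) ^ 2 * (0.66 / (g * 14)) ^ 2)) =
    1.25 * 14 ^ 2 / (4 * 2826240 ^ 2 * 0.66 ^ 2) * q ^ 2 * g ^ 2 by field_simp]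
  gcongr
  norm_num

/-- the contribution of one modulus -/
theorem one {N : ℕ} {a' : ℤ} {q' : ℕ} {β lo R : ℝ} (hN : 10 ^ 23 ≤ N) (hq' : 0 < q') (hco : IsCoprime a' (q' : ℤ))
    (hlo : 0 < lo) (hTh : lo * BB N / 16 ≤ Th N) (hR : 1 ≤ R)
    (hs : q2 q' * (12 + 0.144 * dl N β) * R ^ 2 ≤ BB N / 60) {q : ℕ} (hq : 0 < q) (hq1 : q ≤ 391) (h60 : q.Coprime 60) :
    ∑ s ∈ range 8, ∑ j ∈ JW N s, lw j * ∑ b ∈ (range q).filter (fun b => ¬ (Val N q' q β ∧ Mat a' q' q b j)),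
        ‖tau s ((a' / q' + β) * (60 * j + 2) + b / q)‖ ≤
      Th N * (q ^ 2 / 2826240 ^ 2 + 1.79e-11 * q ^ 2 * (ge q' : ℝ) ^ 2 + cc N lo 10 R * ff (q2 q') *
        (0.54 * (ge q' / 0.66 + 2.64 / ge q') * q / 2826240 +
          if ¬ Val N q' q β then 23.8 * q.gcd q' / (dl N β * q2 q') else 0)) := by
  obtain ⟨q3, c, d, h1, h2, h3, h4, h5, h6, h7⟩ := arith hq' h60
  have hB := BB_ge hN
  have hT := Th_nonneg N
  have q0 : (1 : ℝ) ≤ q := by exact_mod_cast hq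
  have q1 : (q : ℝ) ≤ 391 := by exact_mod_cast hq1
  have q2' : (0 : ℝ) < q' := by exact_mod_cast hq'
  have q30 : (1 : ℝ) ≤ q3 := by exact_mod_cast h1
  have g0 : (1 : ℝ) ≤ q.gcd q' := by exact_mod_cast Nat.gcd_pos_of_pos_left _ hq
  have e0 : (1 : ℝ) ≤ ge q' := by exact_mod_cast h4
  have hb := abs_nonneg β
  have e2 : (q2 q' : ℝ) = q.gcd q' * q3 := by exact_mod_cast h2
  have e3 : (qc q' : ℝ) = ge q' * q2 q' := by exact_mod_cast h3
  have hθ : 60 * (q * (a' / q' + β)) = ((c * a' : ℤ) : ℝ) / q3 + 60 * q * β := by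
    have h : (c : ℝ) = 60 * q * q3 / q' := by rw [eq_div_iff q2'.ne']; exact_mod_cast h6.symm
    push_cast
    rw [h]
    field_simp
  have hdv : q3 ∣ q2 q' := h2 ▸ dvd_mul_left _ _
  have hq2 : 0 < q2 q' := h2 ▸ Nat.mul_pos (Nat.gcd_pos_of_pos_left _ hq) h1
  have hco' : IsCoprime (c * a') (q3 : ℤ) := (Nat.isCoprime_iff_coprime.2 h5).mul_left
    (hco.of_isCoprime_of_dvd_right (Int.natCast_dvd_natCast.2 (hdv.trans (Nat.div_dvd_of_dvd (Nat.gcd_dvd_left _ _)))))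
  rw [dl_eq, e2] at hs
  have hBβ : 0 ≤ |β| * BB N := by positivity
  have hs' : ∀ x : ℝ, x ≤ 12 + 14184000 * (|β| * BB N) → q3 * R ^ 2 * (x * 60 / BB N) ≤ 1 := fun x hx => by
    rw [← mul_div_assoc, div_le_one (by linarith)]
    have h8 : (q3 : ℝ) * R ^ 2 * x ≤ q3 * R ^ 2 * (12 + 14184000 * (|β| * BB N)) :=
      mul_le_mul_of_nonneg_left hx (by positivity)
    have h9 := mul_le_mul_of_nonneg_right g0
      (show 0 ≤ (q3 : ℝ) * R ^ 2 * (12 + 14184000 * (|β| * BB N)) by positivity)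
    linarith
  have hRB : R ≤ BB N := by
    have h8 := hs' 1 (by linarith)
    rw [← mul_div_assoc, div_le_one (by linarith)] at h8
    have h9 := mul_le_mul_of_nonneg_right q30 (sq_nonneg R)
    have h10 := mul_le_mul_of_nonneg_left hR (show 0 ≤ R by linarith)
    linarith
  have ky := fun {m n : ℕ} (hm : 0 < m) {T a ρ : ℝ} => key (m := m) (n := n) hN hlo hTh hR hRB h1 hdv hq2 hm hco' hθ
    (T := T) (a := a) (ρ := ρ)
  rw [abs_mul, abs_of_nonneg (show (0 : ℝ) ≤ 60 * q by positivity)] at ky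
  have st := fun {c0 c1 a X : ℝ} => step (N := N) hq (a' / q' + β) (fun j b => ¬ (Val N q' q β ∧ Mat a' q' q b j))
    (c0 := c0) (c1 := c1) (a := a) (X := X)
  have hA : (1 : ℝ) ≤ 2826240 / q := by rw [le_div_iff₀ (by linarith)]; linarith
  have hA0 : q * (2826240 / (q : ℝ)) = 2826240 := mul_div_cancel₀ _ (by linarith)
  have hA' : 1 / (2 * (2826240 / (q : ℝ)) - 1) ≤ q / 5652089 := by
    rw [div_le_div_iff₀ (by linarith) (by norm_num)]
    linarith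
  have hG : 4 ≤ (ge q' : ℝ) / 0.66 + 2.64 / ge q' := by
    rw [div_add_div _ _ (by norm_num) (by linarith), le_div_iff₀ (by linarith)]
    linarith [sq_nonneg ((ge q' : ℝ) - 1.32)]
  have hK : 0 ≤ 4 / 15 * log (2 * BB N) / (lo * Gs 60 R) := by
    have := log_two_BB_pos hN
    have := one_le_Gs 60 hR
    positivity
  have hc : ∀ T, cc N lo T R = (1 + 1.2 / T + 0.000001) * (4 / 15 * log (2 * BB N) / (lo * Gs 60 R)) := fun T => by
    rw [cc]; ring
  have hf := (ff_pos (q2 q')).le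
  have hcf : 0 ≤ cc N lo 10 R * ff (q2 q') := by rw [hc]; positivity
  have hz : 0 ≤ 1.79e-11 * (q : ℝ) ^ 2 * (ge q' : ℝ) ^ 2 := by positivity
  by_cases hV : Val N q' q β
  swap
  · have hβ : 0 < |β| := lt_of_le_of_ne hb fun e => hV (by rw [Val, ← e]; simp only [zero_mul]; positivity)
    have hD : 0 < |β| * BB N * q * q3 := by positivity
    have h8 := ky (m := 1) (n := ⌈5 * (2826240 / (q : ℝ))⌉₊) one_pos (T := min (|β| * BB N * q * q3) 10)
      (a := 2826240 / q) (ρ := 0.0068) (lt_min hD (by norm_num)) (by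
        refine le_trans (le_of_eq ?_) (hs' (min (|β| * BB N * q * q3) 10 +
          |β| * BB N * (q * ⌈5 * (2826240 / (q : ℝ))⌉₊)) (add_le_add ((min_le_right _ _).trans (by norm_num)) ?_))
        · field_simp
        · have h8 := mul_le_mul_of_nonneg_left (Nat.ceil_lt_add_one (show 0 ≤ 5 * (2826240 / (q : ℝ)) by linarith)).le
            (show (0 : ℝ) ≤ q by linarith)
          rw [mul_comm 14184000]
          exact mul_le_mul_of_nonneg_left (by linarith) hBβ) (Or.inr (by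
        rw [div_le_iff₀ (by linarith)]
        have := min_le_left (|β| * BB N * q * q3) 10
        push_cast
        linarith)) hA ((pow_le_exp hA (Nat.le_ceil _)).trans exp_five) (by norm_num)
    refine (st (c0 := 0) (c1 := 1.25) le_rfl (by norm_num) (fun s j _ b _ _ => by
      rw [zero_add]; exact tau_lor' s _ hq b) h8).trans (mul_le_mul_of_nonneg_left ?_ hT)
    have h9 : 1.2 / min (|β| * BB N * q * q3) 10 ≤ 1.2 / 10 + 1.2 * (1 / (|β| * BB N * q3)) / q := by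
      rcases min_choice (|β| * BB N * q * q3) 10 with e | e <;> rw [e]
      · exact le_add_of_nonneg_of_le (by norm_num) (le_of_eq (by field_simp))
      · exact le_add_of_nonneg_right (by positivity)
    have h10 := mul_le_mul_of_nonneg_left (num1 q0 hA hA' (by positivity) hG h9) (mul_nonneg hK hf)
    rw [if_pos hV, hc, hc, dl_eq, show 23.8 * q.gcd q' / (98500000 * (|β| * BB N) * q2 q') =
      23.8 / 98500000 * (1 / (|β| * BB N * q3)) by rw [e2]; field_simp]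
    linarith
  rw [if_neg (not_not.2 hV), add_zero]
  have hV' : |β| * (2 * BB N + 1) * q * (ge q' * q3) ≤ 0.75 := by
    rw [Val, e3, e2] at hV
    exact le_of_mul_le_mul_right (by linarith) (show (0 : ℝ) < q.gcd q' by linarith)
  have hv : ∀ j ∈ JA N, ∀ b : ℕ, ¬ (Val N q' q β ∧ Mat a' q' q b j) →
      nd ((a' / q' + β) * (60 * j + 2) + b / q) < 1 / (2 * q) →
      0.66 / (ge q' * q3) ≤ |sin (π * (q * ((a' / q' + β) * (60 * j + 2))))| := fun j hj b h hn => by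
    have h8 := gap hq hq' (Nat.mul_pos h4 h1) h7 (by
      refine le_trans ?_ hV'
      have h8 : (60 * j + 2 : ℝ) ≤ 2 * BB N + 1 := by linarith [(mem_JA.1 hj).1.2]
      rw [Nat.cast_mul]
      exact mul_le_mul_of_nonneg_right (mul_le_mul_of_nonneg_right (mul_le_mul_of_nonneg_left h8 hb) (by linarith))
        (by positivity)) (fun e => h ⟨hV, e⟩) hn
    rwa [Nat.cast_mul] at h8
  have ky3 := fun {a : ℝ} (ha : 1 ≤ a) (h : a ≤ q3) => ky (m := 3) (n := 3 * q3) (by norm_num) (T := 10) (a := a)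
    (ρ := 0.05) (by norm_num) (by
      refine le_trans (le_of_eq ?_) (hs' (10 + 3 * (|β| * BB N * q * q3)) ?_)
      · push_cast; field_simp
      · have h8 : |β| * BB N * q * (1 * q3) ≤ |β| * (BB N + 1 / 2) * q * (ge q' * q3) := by gcongr; linarith
        linarith) (Or.inl le_rfl) ha ((pow_le_exp ha (by push_cast; linarith)).trans exp_three) (by norm_num)
  by_cases c1 : (q3 : ℝ) ≤ 14
  · refine (st (c0 := 1.79e-11 * (q : ℝ) ^ 2 * (ge q' : ℝ) ^ 2) (c1 := 0) hz le_rfl (fun s j hj b h hn => by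
      rw [zero_mul, add_zero]
      exact (tau_lor' s _ hq b).trans (num5 q0 q30 c1 e0 (hv j hj b h hn))) (ky3 le_rfl q30)).trans
        (mul_le_mul_of_nonneg_left ?_ hT)
    rw [zero_mul]
    exact add_le_add_right (by positivity) _
  have c2 : (15 : ℝ) ≤ q3 := by exact_mod_cast (show 15 ≤ q3 from Nat.succ_le_of_lt (by exact_mod_cast not_le.1 c1))
  rcases le_total (q3 : ℝ) (2826240 / q) with c3 | c3
  · refine (st (c0 := 0) le_rfl (by positivity) (fun s j hj b h hn => (tau_lor' s _ hq b).trans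
      (num4 (by linarith) c3 (by linarith) (by positivity) (hv j hj b h hn))) (ky3 q30 le_rfl)).trans
        (mul_le_mul_of_nonneg_left ?_ hT)
    have h8 := mul_le_mul_of_nonneg_left (num3 q0 c2 e0) hcf
    linarith
  · refine (st (c0 := 0) (c1 := 1.25) le_rfl (by norm_num) (fun s j _ b _ _ => by
      rw [zero_add]; exact tau_lor' s _ hq b) (ky3 hA c3)).trans (mul_le_mul_of_nonneg_left ?_ hT)
    have h8 := mul_le_mul_of_nonneg_left (num2 q0 hA hA' hG) hcf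
    linarith

end Cfsg.Agent.Depth.D.Fo
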