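import Cfsg.Agent.Depth.D.Rho

/-!
# Depth (S5768): the matching terms, general denominators (helper20)

`kap` : the matched coefficient; `mat_spec`, `norm_kap_le`, `sum_kap_le`, `boxM1`.
-/

set_option autoImplicit false

namespace Cfsg.Agent.Depth.D

open Finset Cfsg.Agent.Depth.S
open scoped Classical

/-- the matched coefficient -/
noncomputable def kap (N c1 : ℕ) (a' : ℤ) (q' : ℕ) (β : ℝ) (j : ℕ) : ℂ :=
  ∑ ps ∈ QF, ∑ a ∈ (range ps.prod).filter (fun a => Val N q' ps.prod β ∧ Mat a' q' ps.prod a j), rh c1 ps a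

theorem matH_eq (N c1 : ℕ) (a' : ℤ) (q' : ℕ) (β : ℝ) : matH N c1 a' q' β = ∑ s ∈ range 8, ∑ j ∈ JW N s,
    (lw j : ℂ) * (ex ((a' / q' + β) * (c1 * j)) * tau s (β * (60 * j + 2)) * kap N c1 a' q' β j) := rfl

theorem QF_coprime {ps : List ℕ} (h : ps ∈ QF) : ps.prod.Coprime 60 :=
  Nat.coprime_list_prod_left_iff.2 fun p hp => coprime_sixty ((QF_spec h).2.2.2 p hp).1 ((QF_spec h).2.2.2 p hp).2.1

theorem QF_inj {ps ps' : List ℕ} (h : ps ∈ QF) (h' : ps' ∈ QF) (e : ps.prod = ps'.prod) : ps = ps' :=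
  List.inj_on_of_nodup_map (l := [] :: QP) (f := List.prod) (by decide +kernel) (List.mem_toFinset.1 h)
    (List.mem_toFinset.1 h') e

theorem cL_eq {ps : List ℕ} (h : ps ∈ QF) : Squarefree ps.prod ∧ cL ps = cM ps.prod := by
  rcases QF_cases h with rfl | ⟨p, rfl, hp, -⟩ | ⟨p, p', rfl, hp, hp', -, -, hne⟩
  · simp [cL, cM]
  · simp [cL, cM, hp.squarefree, hp.primeFactors]
  · have h1 : Squarefree (p * p') :=
      (Nat.squarefree_mul ((Nat.coprime_primes hp hp').2 hne)).2 ⟨hp.squarefree, hp'.squarefree⟩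
    refine ⟨by simpa using h1, ?_⟩
    rw [List.prod_pair, cM, if_pos h1, Nat.primeFactors_mul hp.ne_zero hp'.ne_zero, hp.primeFactors, hp'.primeFactors,
      prod_union (disjoint_singleton.2 hne)]
    simp [cL]

/-- the denominator of a matched reduced fraction -/
theorem mat_spec {a' : ℤ} {q' q a j : ℕ} (hq : 0 < q) (h60 : q.Coprime 60) (ha' : IsCoprime a' (q' : ℤ))
    (ha : a.Coprime q) (h : Mat a' q' q a j) :
    q * (qc q').gcd (60 * j + 2) = qc q' ∧ (qc q').Coprime 30 := by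
  have hq0 : (q : ℤ) ≠ 0 := by exact_mod_cast hq.ne'
  have h1 : (q : ℤ) * q' ∣ a * q' + a' * (60 * j + 2) * q := by exact_mod_cast h
  have h2 : q ∣ q' := by
    have h3 : (q : ℤ) ∣ a * q' := (dvd_add_left (dvd_mul_left _ _)).1 ((dvd_mul_right _ _).trans h1)
    exact ha.symm.dvd_of_dvd_mul_left (by exact_mod_cast h3)
  obtain ⟨m, rfl⟩ := h2
  have h3 : (q : ℤ) * m ∣ a * m + a' * (60 * j + 2) := by
    refine (mul_dvd_mul_iff_left hq0).1 ?_
    rw [show (q : ℤ) * (a * m + a' * (60 * j + 2)) = a * (q * m) + a' * (60 * j + 2) * q by ring]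
    exact_mod_cast h1
  have h4 : m ∣ 60 * j + 2 := by
    have h5 : (m : ℤ) ∣ a' * (60 * j + 2) := (dvd_add_right (dvd_mul_left _ _)).1 ((dvd_mul_left _ _).trans h3)
    have h6 : IsCoprime (m : ℤ) a' := (ha'.of_isCoprime_of_dvd_right (by push_cast; exact dvd_mul_left _ _)).symm
    exact_mod_cast h6.dvd_of_dvd_mul_left h5
  obtain ⟨b, hb⟩ := h4
  have hm : (m : ℤ) ≠ 0 := by
    rintro h5
    have h6 : m = 0 := by exact_mod_cast h5
    rw [h6] at hb
    omega
  have h5 : q.Coprime b := by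
    have h6 : (60 * j + 2 : ℤ) = m * b := by exact_mod_cast hb
    have h7 : (q : ℤ) ∣ a + a' * b := by
      refine (mul_dvd_mul_iff_right hm).1 ?_
      rwa [h6, show (a : ℤ) * m + a' * (m * b) = (a + a' * b) * m by ring] at h3
    refine Nat.coprime_of_dvd fun p hp h8 h9 => ?_
    have h10 : (p : ℤ) ∣ a := (dvd_add_left ((Int.natCast_dvd_natCast.2 h9).mul_left _)).1
      ((Int.natCast_dvd_natCast.2 h8).trans h7)
    exact hp.one_lt.ne' (Nat.eq_one_of_dvd_coprimes ha (by exact_mod_cast h10) h8)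
  have h6 : q.Coprime 2 := h60.coprime_dvd_right (by decide)
  have h7 : q.Coprime 30 := h60.coprime_dvd_right (by decide)
  have h8 : (30 * j + 1).Coprime 30 := by simp
  have h9 : (q * m).gcd 2 = m.gcd 2 := Nat.Coprime.gcd_mul_left_cancel m h6
  rcases Nat.even_or_odd' m with ⟨m, rfl | rfl⟩
  · have h10 : qc (q * (2 * m)) = q * m := by
      rw [qc, h9, Nat.gcd_eq_right (dvd_mul_right _ _), mul_left_comm, Nat.mul_div_cancel_left _ two_pos]
    refine ⟨?_, ?_⟩
    · rw [h10, hb, show 2 * m * b = 2 * b * m by ring, Nat.gcd_mul_right, h6.mul_right h5, one_mul]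
    · rw [h10]
      exact Nat.Coprime.mul_left h7 (h8.coprime_dvd_left ⟨b, by nlinarith⟩)
  · have h11 : (2 * m + 1).Coprime 2 := by simp
    have h10 : qc (q * (2 * m + 1)) = q * (2 * m + 1) := by rw [qc, h9, h11, Nat.div_one]
    refine ⟨?_, ?_⟩
    · rw [h10, hb, mul_comm (2 * m + 1) b, Nat.gcd_mul_right, h5, one_mul]
    · rw [h10]
      exact Nat.Coprime.mul_left h7 (h8.coprime_dvd_left (h11.dvd_of_dvd_mul_left ⟨b, by rw [← hb]; ring⟩))

theorem mat_unique {a' : ℤ} {q' q a a₁ j : ℕ} (hq' : 0 < q') (ha : a < q) (ha₁ : a₁ < q) (h : Mat a' q' q a j)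
    (h₁ : Mat a' q' q a₁ j) : a = a₁ := by
  have h2 : (q : ℤ) * q' ∣ (a₁ - a) * q' := by
    have h3 := dvd_sub h₁ h
    rw [add_sub_add_right_eq_sub, ← sub_mul] at h3
    exact_mod_cast h3
  exact Nat.ModEq.eq_of_lt_of_lt (Nat.modEq_iff_dvd.2 ((mul_dvd_mul_iff_right (by exact_mod_cast hq'.ne')).1 h2)) ha ha₁

variable {N c1 : ℕ} {a' : ℤ} {q' : ℕ} {β : ℝ}

theorem spec_of_ne (ha' : IsCoprime a' (q' : ℤ)) {ps : List ℕ} (hps : ps ∈ QF) {j a : ℕ}
    (ha : a ∈ (range ps.prod).filter (fun a => Val N q' ps.prod β ∧ Mat a' q' ps.prod a j)) (h : rh c1 ps a ≠ 0) :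
    ps.prod * (qc q').gcd (60 * j + 2) = qc q' ∧ (qc q').Coprime 30 :=
  mat_spec (QF_pos hps) (QF_coprime hps) ha'
    (not_not.1 fun h1 => h (((boxRho c1).2 ps hps a (mem_range.1 (mem_filter.1 ha).1)).2 h1)) (mem_filter.1 ha).2.2

theorem exists_of_kap {j : ℕ} (h : kap N c1 a' q' β j ≠ 0) : ∃ ps ∈ QF,
    ∃ a ∈ (range ps.prod).filter (fun a => Val N q' ps.prod β ∧ Mat a' q' ps.prod a j), rh c1 ps a ≠ 0 := by
  obtain ⟨ps, hps, h1⟩ := exists_ne_zero_of_sum_ne_zero h
  exact ⟨ps, hps, exists_ne_zero_of_sum_ne_zero h1⟩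

theorem qc_pos (hq' : 0 < q') : 0 < qc q' := Nat.div_pos (Nat.gcd_le_left _ hq') (Nat.gcd_pos_of_pos_left _ hq')

theorem small_of_val (hq' : 0 < q') {q : ℕ} (hq : 0 < q) (h : Val N q' q β) : |β| * (2 * BB N + 1) ≤ 0.75 := by
  have h1 : (1 : ℝ) ≤ qc q' := by exact_mod_cast qc_pos hq'
  have h2 : (q.gcd q' : ℝ) ≤ q := by exact_mod_cast Nat.gcd_le_left _ hq
  have h3 : (0 : ℝ) < q := by exact_mod_cast hq
  have h4 : 0 ≤ |β| * (2 * BB N + 1) * q := by
    have := BB_nonneg N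
    positivity
  have h5 := le_mul_of_one_le_right h4 h1
  unfold Val at h
  exact le_of_mul_le_mul_right (by linarith) h3

/-- the local factors -/
noncomputable def loc (F : ℕ → ℝ) (k : ℕ) : ℝ :=
  ∏ p ∈ k.primeFactors, ((cQ p : ℝ) * F (p ^ (k.factorization p - 1)) + (1 - (cQ p : ℝ)) * F (p ^ k.factorization p))

theorem seven_le {k p : ℕ} (hk : k.Coprime 30) (hp : p ∈ k.primeFactors) : 7 ≤ p := by
  have h1 := Nat.prime_of_mem_primeFactors hp
  have h2 := hk.coprime_dvd_left (Nat.dvd_of_mem_primeFactors hp)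
  by_contra h3
  have h4 : p < 7 := not_le.1 h3
  interval_cases p <;> simp_all (config := {decide := true})

theorem cM_le_loc {q m b : ℕ} (hq : Squarefree q) (hm : 0 < m) (hb : m ∣ b) (h30 : (q * m).Coprime 30) :
    cM q ≤ loc (fun e => if e ∣ b then 1 else 0) (q * m) := by
  have h0 := hq.ne_zero
  have h1 : q.primeFactors = (q * m).primeFactors.filter (· ∣ q) := by
    ext p
    simp only [mem_filter, Nat.mem_primeFactors]
    exact ⟨fun h => ⟨⟨h.1, h.2.1.mul_right _, mul_ne_zero h0 hm.ne'⟩, h.2.1⟩, fun h => ⟨h.1.1, h.2, h0⟩⟩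
  rw [cM, if_pos hq, h1, prod_filter]
  refine prod_le_prod (fun p hp => ?_) fun p hp => ?_
  · have := cQ_nonneg p (by linarith [seven_le h30 hp])
    split_ifs
    · assumption
    · exact zero_le_one
  have h2 := cQ_le (seven_le h30 hp)
  have h3 : p ^ m.factorization p ∣ b := (Nat.ordProj_dvd m p).trans hb
  have h4 : (q * m).factorization p = q.factorization p + m.factorization p := by
    rw [Nat.factorization_mul h0 hm.ne', Finsupp.add_apply]
  have h5 := hq.natFactorization_le_one p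
  beta_reduce
  rw [if_pos ((pow_dvd_pow p (show (q * m).factorization p - 1 ≤ _ by omega)).trans h3)]
  by_cases h6 : p ∣ q
  · rw [if_pos h6]
    split_ifs <;> linarith
  · rw [if_neg h6, h4, Nat.factorization_eq_zero_of_not_dvd h6, zero_add, if_pos h3]
    linarith

theorem loc_nonneg {F : ℕ → ℝ} (hF : ∀ e, 0 ≤ F e) {k : ℕ} (hk : k.Coprime 30) : 0 ≤ loc F k :=
  prod_nonneg fun p hp => add_nonneg (mul_nonneg (cQ_nonneg p (by linarith [seven_le hk hp])) (hF _))
    (mul_nonneg (by linarith [cQ_le (seven_le hk hp)]) (hF _))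

theorem norm_kap_le (hq' : 0 < q') (ha' : IsCoprime a' (q' : ℤ)) (h30 : (qc q').Coprime 30) (j : ℕ) :
    ‖kap N c1 a' q' β j‖ ≤ loc (fun e => if e ∣ 60 * j + 2 then 1 else 0) (qc q') := by
  by_cases h0 : kap N c1 a' q' β j = 0
  · rw [h0, norm_zero]
    exact loc_nonneg (fun e => by split_ifs <;> norm_num) h30
  obtain ⟨ps, hps, a, ha, h1⟩ := exists_of_kap h0
  have h2 := (spec_of_ne ha' hps ha h1).1
  have h3 := Nat.gcd_pos_of_pos_left (60 * j + 2) (qc_pos hq')
  rw [kap, sum_eq_single_of_mem ps hps, sum_eq_single_of_mem a ha]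
  · refine ((boxRho c1).2 ps hps a (mem_range.1 (mem_filter.1 ha).1)).1.trans ?_
    rw [(cL_eq hps).2]
    have h4 := cM_le_loc (cL_eq hps).1 h3 (Nat.gcd_dvd_right _ _) (by rwa [h2])
    rwa [h2] at h4
  · intro b hb hne
    exact absurd (mat_unique hq' (mem_range.1 (mem_filter.1 hb).1) (mem_range.1 (mem_filter.1 ha).1)
      (mem_filter.1 hb).2.2 (mem_filter.1 ha).2.2) hne
  · intro ps' hps' hne
    refine sum_eq_zero fun b hb => not_not.1 fun h4 => hne (QF_inj hps' hps ?_)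
    exact Nat.eq_of_mul_eq_mul_right h3 ((spec_of_ne ha' hps' hb h4).1.trans h2.symm)

/-! ### expansion over the subsets -/

theorem map_prod_pow {F : ℕ → ℝ} (h1 : F 1 = 1) (hm : ∀ a b : ℕ, a.Coprime b → F (a * b) = F a * F b) (v : ℕ → ℕ)
    {S : Finset ℕ} (hS : ∀ p ∈ S, p.Prime) : F (∏ p ∈ S, p ^ v p) = ∏ p ∈ S, F (p ^ v p) := by
  induction S using Finset.induction_on with
  | empty => simpa using h1
  | insert p S hp ih =>
    rw [prod_insert hp, prod_insert hp, hm, ih fun r hr => hS r (mem_insert_of_mem hr)]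
    refine Nat.Coprime.prod_right fun r hr => Nat.Coprime.pow _ _ ?_
    exact (Nat.coprime_primes (hS p (mem_insert_self _ _)) (hS r (mem_insert_of_mem hr))).2 fun e => hp (e ▸ hr)

/-- the divisor of a subset -/
def eT (k : ℕ) (T : Finset ℕ) : ℕ :=
  ∏ p ∈ k.primeFactors, p ^ (if p ∈ T then k.factorization p - 1 else k.factorization p)

/-- the coefficient of a subset -/
noncomputable def cT (k : ℕ) (T : Finset ℕ) : ℝ := (∏ p ∈ T, (cQ p : ℝ)) * ∏ p ∈ k.primeFactors \ T, (1 - (cQ p : ℝ))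

theorem loc_eq {F : ℕ → ℝ} (h1 : F 1 = 1) (hm : ∀ a b : ℕ, a.Coprime b → F (a * b) = F a * F b) (k : ℕ) :
    loc F k = ∑ T ∈ k.primeFactors.powerset, cT k T * F (eT k T) := by
  rw [loc, prod_add]
  refine sum_congr rfl fun T hT => ?_
  have h2 : ∏ p ∈ k.primeFactors \ T, F (p ^ if p ∈ T then k.factorization p - 1 else k.factorization p) =
      ∏ p ∈ k.primeFactors \ T, F (p ^ k.factorization p) := prod_congr rfl fun p hp => by rw [if_neg (mem_sdiff.1 hp).2]
  have h3 : ∏ p ∈ T, F (p ^ if p ∈ T then k.factorization p - 1 else k.factorization p) =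
      ∏ p ∈ T, F (p ^ (k.factorization p - 1)) := prod_congr rfl fun p hp => by rw [if_pos hp]
  rw [eT, map_prod_pow h1 hm _ fun p hp => Nat.prime_of_mem_primeFactors hp, ← prod_sdiff (mem_powerset.1 hT), h2, h3,
    prod_mul_distrib, prod_mul_distrib, cT]
  ring

theorem eT_dvd {k : ℕ} (hk : 0 < k) (T : Finset ℕ) : eT k T ∣ k := by
  conv_rhs => rw [← Nat.prod_factorization_pow_eq_self hk.ne', Nat.prod_factorization_eq_prod_primeFactors]
  exact prod_dvd_prod_of_dvd _ _ fun p _ => pow_dvd_pow p (by split_ifs <;> omega)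

theorem cT_nonneg {k : ℕ} (hk : k.Coprime 30) {T : Finset ℕ} (hT : T ∈ k.primeFactors.powerset) : 0 ≤ cT k T :=
  mul_nonneg (prod_nonneg fun p hp => cQ_nonneg p (by linarith [seven_le hk (mem_powerset.1 hT hp)]))
    (prod_nonneg fun p hp => by linarith [cQ_le (seven_le hk (mem_sdiff.1 hp).1)])

theorem loc_dvd (b k : ℕ) : loc (fun e => if e ∣ b then 1 else 0) k =
    ∑ T ∈ k.primeFactors.powerset, cT k T * if eT k T ∣ b then 1 else 0 :=
  loc_eq (if_pos (one_dvd b)) (fun x y h => by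
    rw [ite_zero_mul_ite_zero, one_mul]
    exact if_congr ⟨fun h1 => ⟨(dvd_mul_right _ _).trans h1, (dvd_mul_left _ _).trans h1⟩,
      fun h1 => h.mul_dvd_of_dvd_of_dvd h1.1 h1.2⟩ rfl rfl) k

theorem cM_eq {k : ℕ} (hk : 0 < k) :
    cM k = ∑ T ∈ k.primeFactors.powerset, cT k T * if eT k T = 1 then 1 else 0 := by
  rw [← loc_eq (F := fun e => if e = 1 then 1 else 0) (if_pos rfl) (fun x y _ => by
    rw [ite_zero_mul_ite_zero, one_mul]
    exact if_congr mul_eq_one rfl rfl), loc, cM]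
  have h1 : ∀ p ∈ k.primeFactors, ((cQ p : ℝ) * (if p ^ (k.factorization p - 1) = 1 then 1 else 0) +
      (1 - (cQ p : ℝ)) * if p ^ k.factorization p = 1 then 1 else 0) =
      if k.factorization p ≤ 1 then (cQ p : ℝ) else 0 := by
    intro p hp
    have h2 := (Nat.prime_of_mem_primeFactors hp).one_lt.ne'
    have h3 : k.factorization p ≠ 0 := Finsupp.mem_support_iff.1 hp
    simp only [pow_eq_one_iff, h2, h3, false_or, if_false, mul_zero, add_zero, mul_ite, mul_one]
    exact if_congr (by omega) rfl rfl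
  rw [prod_congr rfl h1, prod_ite_zero]
  refine if_congr ?_ rfl rfl
  rw [Nat.squarefree_iff_factorization_le_one hk.ne']
  refine ⟨fun h p _ => h p, fun h p => ?_⟩
  by_cases hp : p ∈ k.primeFactors
  · exact h p hp
  · rw [Finsupp.notMem_support_iff.1 hp]
    exact zero_le_one

theorem xM_eq (u : ℕ → ℝ) (k : ℕ) : xM u k = ∑ T ∈ k.primeFactors.powerset,
    cT k T * ((∏ p ∈ (eT k T).primeFactors, u p ^ (eT k T).factorization p) / (eT k T).totient) := by
  rw [← loc_eq (F := fun e => (∏ p ∈ e.primeFactors, u p ^ e.factorization p) / e.totient) (by simp), loc, xM]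
  · refine prod_congr rfl fun p hp => ?_
    have h1 : ∀ v : ℕ, ∏ r ∈ (p ^ v).primeFactors, u r ^ (p ^ v).factorization r = u p ^ v := fun v => by
      rw [← Nat.prod_factorization_eq_prod_primeFactors fun r n => u r ^ n,
        (Nat.prime_of_mem_primeFactors hp).factorization_pow]
      exact Finsupp.prod_single_index (pow_zero _)
    rw [h1, h1]
  · intro x y h
    rw [← Nat.prod_factorization_eq_prod_primeFactors fun r n => u r ^ n,
      ← Nat.prod_factorization_eq_prod_primeFactors fun r n => u r ^ n,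
      ← Nat.prod_factorization_eq_prod_primeFactors fun r n => u r ^ n, Nat.factorization_mul_of_coprime h,
      Finsupp.prod_add_index' (fun _ => pow_zero _) fun _ _ _ => pow_add _ _ _, Nat.totient_mul h, Nat.cast_mul,
      mul_div_mul_comm]

theorem mass_eq (N e : ℕ) : mass N e = ∑ j ∈ JA N, lw j * if e ∣ 60 * j + 2 then 1 else 0 := by
  rw [mass, sum_win_filter, sum_filter]
  simp only [mul_ite, mul_one, mul_zero]

theorem sum_kap_le (hq' : 0 < q') (ha' : IsCoprime a' (q' : ℤ)) (h30 : (qc q').Coprime 30) {C : ℝ} {u : ℕ → ℝ}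
    (h : ∀ e, 1 < e → e ∣ qc q' →
      mass N e ≤ Th N * (C * (∏ p ∈ e.primeFactors, u p ^ e.factorization p) / e.totient)) :
    ∑ j ∈ JA N, lw j * ‖kap N c1 a' q' β j‖ ≤ Th N * (cM (qc q') + C * (xM u (qc q') - cM (qc q'))) := by
  have hk := qc_pos hq'
  refine (sum_le_sum fun j _ => mul_le_mul_of_nonneg_left (norm_kap_le hq' ha' h30 j) (lw_nonneg j)).trans ?_
  simp only [loc_dvd, mul_sum]
  rw [sum_comm, cM_eq hk, xM_eq u, ← sum_sub_distrib, mul_sum, ← sum_add_distrib, mul_sum]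
  refine sum_le_sum fun T hT => ?_
  have h1 : ∑ j ∈ JA N, lw j * (cT (qc q') T * if eT (qc q') T ∣ 60 * j + 2 then 1 else 0) =
      cT (qc q') T * mass N (eT (qc q') T) := by
    rw [mass_eq, mul_sum]
    exact sum_congr rfl fun j _ => mul_left_comm _ _ _
  rw [h1]
  have h2 := cT_nonneg h30 hT
  have h3 := eT_dvd hk T
  generalize eT (qc q') T = e at h3
  by_cases he : e = 1
  · subst he
    rw [mass_eq, Th_eq]
    simp [mul_comm]
  · have h4 := mul_le_mul_of_nonneg_left (h e (by have := Nat.pos_of_dvd_of_pos h3 hk; omega) h3) h2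
    rw [if_neg he]
    refine h4.trans (le_of_eq ?_)
    ring

theorem omg_nonneg {d : ℚ} : (0 : ℝ) ≤ omg d := by
  have h : 0 ≤ omg d := by
    unfold omg
    refine add_nonneg (le_min ?_ ?_) (by norm_num)
    · split_ifs
      · exact le_max_of_le_right (by norm_num)
      · norm_num
    · split_ifs with h
      · norm_num
      · have : 0 < d := by linarith [not_le.1 h]
        positivity
  exact_mod_cast h

theorem norm_matH_le (hT : BoxTau) (hN : 10 ^ 23 ≤ N) (hc : c1 < 60) (hq' : 0 < q') {d0 : ℚ} (h0 : 0 ≤ d0)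
    (h1 : (d0 : ℝ) ≤ dl N β) : ‖matH N c1 a' q' β‖ ≤ omg d0 * ∑ j ∈ JA N, lw j * ‖kap N c1 a' q' β j‖ := by
  rw [matH_eq, ← sum_win, mul_sum]
  refine norm_sum_le_of_le _ fun s hs => ?_
  rw [mul_sum]
  refine norm_sum_le_of_le _ fun j hj => ?_
  rw [norm_mul, norm_mul, norm_mul, norm_ex, one_mul, Complex.norm_real, Real.norm_of_nonneg (lw_nonneg j),
    mul_left_comm]
  by_cases h2 : kap N c1 a' q' β j = 0
  · simp [h2]
  obtain ⟨ps, hps, a, ha, -⟩ := exists_of_kap h2
  exact mul_le_mul_of_nonneg_right (hT N c1 s j β d0 hN hc (mem_range.1 hs) (mem_JW.1 hj).2.1 h0 h1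
    (small_of_val hq' (QF_pos hps) (mem_filter.1 ha).2.1)) (mul_nonneg (lw_nonneg j) (norm_nonneg _))

theorem boxM1 (hT : BoxTau) : BoxM1 := by
  intro N c1 a' q' β hN hc hq' ha'
  refine ⟨fun h => ?_, fun d0 C u h30 h0 h1 _ _ h => ?_⟩
  · rw [matH_eq]
    refine sum_eq_zero fun s _ => sum_eq_zero fun j _ => ?_
    have h2 : kap N c1 a' q' β j = 0 := not_not.1 fun h2 => by
      obtain ⟨ps, hps, a, ha, h3⟩ := exists_of_kap h2
      exact h (spec_of_ne ha' hps ha h3).2
    rw [h2, mul_zero, mul_zero]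
  · rw [mul_left_comm]
    exact (norm_matH_le hT hN hc hq' h0 h1).trans (mul_le_mul_of_nonneg_left (sum_kap_le hq' ha' h30 h) omg_nonneg)

end Cfsg.Agent.Depth.D
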