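import Cfsg.Agent.Depth.D.Win
import Cfsg.Agent.Depth.S.LemS
import Cfsg.Agent.Depth.S.GH1

/-!
# Depth (S5768): Brun-Titchmarsh for the divisors of `b` (helper20)
-/

set_option autoImplicit false

namespace Cfsg.Agent.Depth.D

open Finset Cfsg.Agent.Depth.S
open scoped Classical

theorem ff_eq_div_m3 {e : ℕ} (he : 0 < e) (h : e.Coprime 30) : ff e = e / e.totient := by
  have h0 : (e : ℝ) ≠ 0 := by exact_mod_cast he.ne'
  rw [ff, filter_true_of_mem, div_eq_mul_one_div, GH.inv_tot he, ← mul_assoc, mul_one_div_cancel h0, one_mul]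
  intro p hp
  have h1 := Nat.prime_of_mem_primeFactors hp
  have h2 := h.coprime_dvd_left (Nat.dvd_of_mem_primeFactors hp)
  by_contra h3
  have h4 : p ≤ 5 := not_lt.1 h3
  interval_cases p <;> simp_all (config := {decide := true})

theorem card_dvd_le {N e : ℕ} {R : ℝ} (he : 0 < e) (h30 : e.Coprime 30) (hR : 1 ≤ R) (hB : R ≤ BB N) :
    (((JA N).filter fun j => e ∣ 60 * j + 2).card : ℝ) ≤ (BB N / 60 / e + 1.2 * R ^ 2 + 3) / Gs (60 * e) R := by
  have h0 : (0 : ℝ) < e := by exact_mod_cast he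
  have hG : 0 < Gs (60 * e) R := lt_of_lt_of_le one_pos (one_le_Gs _ hR)
  have hB0 := BB_nonneg N
  rcases ((JA N).filter fun j => e ∣ 60 * j + 2).eq_empty_or_nonempty with h | ⟨j1, hj1⟩
  · rw [h, card_empty, Nat.cast_zero]
    positivity
  have h60 : e.Coprime 60 := Nat.Coprime.coprime_dvd_right (by decide : 60 ∣ 30 ^ 2) (h30.pow_right 2)
  have h1 : ∀ j ∈ (JA N).filter fun j => e ∣ 60 * j + 2, e * (j / e) + j1 % e = j := by
    intro j hj
    have h2 : 60 * j + 2 ≡ 60 * j1 + 2 [MOD e] :=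
      ((Nat.modEq_zero_iff_dvd.2 (mem_filter.1 hj).2).trans (Nat.modEq_zero_iff_dvd.2 (mem_filter.1 hj1).2).symm)
    have h3 : j % e = j1 % e := Nat.ModEq.cancel_left_of_coprime h60 (Nat.ModEq.add_right_cancel' 2 h2)
    rw [← h3, Nat.div_add_mod]
  obtain ⟨j0, Y, hY, h2⟩ := exists_Ico (a := ((BB N - 1) / 60 - (j1 % e : ℕ)) / e)
    (b := ((2 * BB N - 1) / 60 - (j1 % e : ℕ)) / e) (div_le_div_of_nonneg_right (by linarith) h0.le)
  rw [← card_image_of_injOn (f := fun j => j / e) fun a ha b hb (h : a / e = b / e) => by rw [← h1 a ha, ← h1 b hb, h]]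
  refine (bt (60 * e) (60 * (j1 % e) + 1) (60 * e) R _ j0 Y dvd_rfl hR fun i hi => ?_).trans
    (div_le_div_of_nonneg_right ?_ hG.le)
  · obtain ⟨j, hj, rfl⟩ := mem_image.1 hi
    have h3 := h1 j hj
    have h4 : (e : ℝ) * (j / e : ℕ) + (j1 % e : ℕ) = j := by exact_mod_cast h3
    have h5 := (mem_JA.1 (mem_filter.1 hj).1).1
    have h6 := h2 (j / e) (by rw [div_lt_iff₀ h0]; linarith [h5.1]) (by rw [le_div_iff₀ h0]; linarith [h5.2])
    refine ⟨h6.1, h6.2, fun p hp h7 h8 => ?_⟩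
    rw [show 60 * e * (j / e) + (60 * (j1 % e) + 1) = 60 * (e * (j / e) + j1 % e) + 1 by ring, h3]
    exact sifted (mem_filter.1 hj).1 _ hB p hp h7 h8
  · rw [← sub_div, show (2 * BB N - 1) / 60 - (j1 % e : ℕ) - ((BB N - 1) / 60 - (j1 % e : ℕ)) = BB N / 60 by ring] at hY
    linarith

theorem boxM3 : BoxM3 := by
  intro N e lo T R hN he h30 hlo hTh hT hR h1 hB
  have h0 : (0 : ℝ) < e := by exact_mod_cast he
  have hφ : (0 : ℝ) < e.totient := by exact_mod_cast Nat.totient_pos.2 he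
  have hG : 0 < Gs 60 R := lt_of_lt_of_le one_pos (one_le_Gs _ hR)
  have hL := log_two_BB_pos hN
  have hB0 := BB_pos hN
  have h2 := gh1 e R he
  rw [ff_eq_div_m3 he h30] at h2
  have h3 : mass N e ≤ ((JA N).filter fun j => e ∣ 60 * j + 2).card * Real.log (2 * BB N) := by
    rw [mass, sum_win_filter, ← nsmul_eq_mul]
    exact sum_le_card_nsmul _ _ _ fun j hj => lw_le (mem_filter.1 hj).1
  have h4 : e * (1.2 * R ^ 2 + 3) ≤ BB N / 60 * (1.2 / T) := by
    rw [← mul_div_assoc, le_div_iff₀ hT]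
    nlinarith [mul_pos h0 hT]
  have h5 : (BB N / 60 / e + 1.2 * R ^ 2 + 3) / Gs (60 * e) R ≤
      BB N / 60 * (1 + 1.2 / T + 0.000001) / (Gs 60 R * e.totient) := by
    refine (div_le_div_of_nonneg_left (by positivity) (by positivity) h2).trans ?_
    rw [show (BB N / 60 / e + 1.2 * R ^ 2 + 3) / (Gs 60 R / (e / e.totient)) =
      (BB N / 60 + e * (1.2 * R ^ 2 + 3)) / (Gs 60 R * e.totient) by field_simp; ring]
    exact div_le_div_of_nonneg_right (by nlinarith) (by positivity)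
  refine h3.trans ((mul_le_mul_of_nonneg_right ((card_dvd_le he h30 hR hB).trans h5) hL.le).trans ?_)
  refine le_trans (le_of_eq ?_) (mul_le_mul_of_nonneg_right hTh (by unfold cc; positivity))
  unfold cc
  field_simp
  ring

end Cfsg.Agent.Depth.D
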