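import Cfsg.Agent.Depth.D.M1

/-!
# Depth (S5768): the matching terms, denominators `2`, `p`, `2 p` (helper20)
-/

set_option autoImplicit false
set_option linter.unusedSectionVars false

namespace Cfsg.Agent.Depth.D

open Finset Cfsg.Agent.Depth.S
open scoped Classical

/-- the weight of the class `r` modulo `n` -/
noncomputable def Wc (N n r : ℕ) : ℝ := ∑ j ∈ (JA N).filter (fun j => j % n = r), lw j

theorem Wc_eq (N : ℕ) {n r : ℕ} (hr : r < n) :
    Wc N n r = th (60 * n) (60 * r + 1) (2 * BB N) - th (60 * n) (60 * r + 1) (BB N) := by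
  rw [← sum_class N (dvd_mul_right 60 n) (by omega), Wc]
  refine sum_congr (filter_congr fun j _ => ?_) fun _ _ => rfl
  have h1 : 60 * j + 1 ≡ 60 * r + 1 [MOD 60 * n] ↔ j ≡ r [MOD n] :=
    ⟨fun h => Nat.ModEq.mul_left_cancel' (by norm_num) (Nat.ModEq.add_right_cancel' 1 (h.of_dvd dvd_rfl)),
      fun h => (h.mul_left' 60).add_right 1⟩
  refine Iff.trans ?_ h1.symm
  rw [Nat.ModEq, Nat.mod_eq_of_lt hr]

theorem sum_per (N : ℕ) {n : ℕ} (hn : 0 < n) (f : ℕ → ℂ) (hf : ∀ j, f (j % n) = f j) :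
    ∑ j ∈ JA N, (lw j : ℂ) * f j = ∑ r ∈ range n, (Wc N n r : ℂ) * f r := by
  rw [← sum_fiberwise_of_maps_to (t := range n) (g := fun j => j % n) fun j _ => mem_range.2 (Nat.mod_lt j hn)]
  refine sum_congr rfl fun r _ => ?_
  rw [Wc, Complex.ofReal_sum, sum_mul]
  exact sum_congr rfl fun j hj => by rw [← (mem_filter.1 hj).2, hf]

variable {N c1 : ℕ} {a' : ℤ} {q' : ℕ} {β : ℝ}

/-- the coefficient with its phase -/
noncomputable def kp (N c1 : ℕ) (a' : ℤ) (q' : ℕ) (β : ℝ) (j : ℕ) : ℂ :=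
  ex ((a' * (c1 * j) : ℤ) / q') * kap N c1 a' q' β j

theorem norm_kp (j : ℕ) : ‖kp N c1 a' q' β j‖ = ‖kap N c1 a' q' β j‖ := by rw [kp, norm_mul, norm_ex, one_mul]

theorem norm_matH_split {z : ℂ} {ζ : ℝ}
    (h : ∀ s j, s < 8 → InW N s j → ‖ex (β * (c1 * j)) * tau s (β * (60 * j + 2)) - z‖ ≤ ζ) :
    ‖matH N c1 a' q' β‖ ≤ ‖z‖ * ‖∑ j ∈ JA N, (lw j : ℂ) * kp N c1 a' q' β j‖ +
      ζ * ∑ j ∈ JA N, lw j * ‖kap N c1 a' q' β j‖ := by
  have h1 : matH N c1 a' q' β = z * ∑ j ∈ JA N, (lw j : ℂ) * kp N c1 a' q' β j + ∑ s ∈ range 8, ∑ j ∈ JW N s,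
      (ex (β * (c1 * j)) * tau s (β * (60 * j + 2)) - z) * ((lw j : ℂ) * kp N c1 a' q' β j) := by
    rw [matH_eq, ← sum_win, mul_sum, ← sum_add_distrib]
    refine sum_congr rfl fun s _ => ?_
    rw [mul_sum, ← sum_add_distrib]
    refine sum_congr rfl fun j _ => ?_
    rw [kp, add_mul (a' / q' : ℝ), ex_add, show ((a' * (c1 * j) : ℤ) : ℝ) / q' = a' / q' * (c1 * j) by push_cast; ring]
    ring
  rw [h1, ← norm_mul, ← sum_win N fun j => lw j * ‖kap N c1 a' q' β j‖, mul_sum (range 8) _ ζ]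
  refine norm_add_le_of_le le_rfl (norm_sum_le_of_le _ fun s hs => ?_)
  rw [mul_sum]
  refine norm_sum_le_of_le _ fun j hj => ?_
  rw [norm_mul, norm_mul, norm_kp, Complex.norm_real, Real.norm_of_nonneg (lw_nonneg j)]
  exact mul_le_mul_of_nonneg_right (h s j (mem_range.1 hs) (mem_JW.1 hj).2.1) (mul_nonneg (lw_nonneg j) (norm_nonneg _))

theorem val_of_small (hN : 10 ^ 23 ≤ N) (hd : dl N β ≤ 8) (hq : qc q' ≤ 23) {ps : List ℕ} (hps : ps ∈ QF) :
    Val N q' ps.prod β := by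
  have h1 : (1 : ℝ) ≤ ps.prod.gcd q' := by exact_mod_cast Nat.gcd_pos_of_pos_left q' (QF_pos hps)
  have h2 : (ps.prod : ℝ) ≤ 391 := by exact_mod_cast (QF_spec hps).2.2.1
  have h3 : (qc q' : ℝ) ≤ 23 := by exact_mod_cast hq
  have h4 := BB_ge hN
  have h5 := abs_nonneg β
  have h6 : |β| * (2 * BB N + 1) ≤ 0.000001 := by
    rw [dl, N_eq] at hd
    nlinarith
  have h7 : |β| * (2 * BB N + 1) * ps.prod ≤ 0.000001 * 391 := mul_le_mul h6 h2 (Nat.cast_nonneg _) (by norm_num)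
  have h8 := mul_le_mul h7 h3 (Nat.cast_nonneg _) (by norm_num)
  unfold Val
  linarith

theorem zet_nonneg (d0 d1 : ℚ) : 0 ≤ zet d0 d1 := by
  unfold zet
  positivity

theorem mem_QF_nil : [] ∈ QF := List.mem_toFinset.2 List.mem_cons_self

/-- the term of the modulus `1` -/
theorem term_nil (hv : Val N q' 1 β) (j : ℕ) :
    ∑ a ∈ (range ([] : List ℕ).prod).filter (fun a => Val N q' ([] : List ℕ).prod β ∧ Mat a' q' ([] : List ℕ).prod a j),
      rh c1 [] a = if (q' : ℤ) ∣ a' * (60 * j + 2) then 1 else 0 := by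
  rw [sum_filter]
  simp [rh_nil, hv, Mat]

theorem kap_two (hN : 10 ^ 23 ≤ N) (hd : dl N β ≤ 8) (ha' : IsCoprime a' ((2 : ℕ) : ℤ)) (j : ℕ) :
    kap N c1 a' 2 β j = 1 := by
  rw [kap, sum_eq_single_of_mem [] mem_QF_nil, term_nil (val_of_small hN hd (by decide) mem_QF_nil),
    if_pos ⟨a' * (30 * j + 1), by push_cast; ring⟩]
  intro ps hps hne
  exact sum_eq_zero fun a ha => not_not.1 fun h => hne (QF_inj hps mem_QF_nil
    (Nat.eq_one_of_mul_eq_one_right (spec_of_ne ha' hps ha h).1))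

theorem sum_two (f : ℕ → ℂ) : ∑ r ∈ range 2, f r = f 0 + f 1 := by simp [sum_range_succ]

theorem boxM4 (hZ : BoxZet) : BoxM4 := by
  intro N c1 a' β x0 lo up d0 d1 hN hc hc2 ha' hP hx hlo hup h0 h1 h2 h3
  have hd : dl N β ≤ 8 := h2.trans (by exact_mod_cast h3)
  obtain ⟨z, hz, h4⟩ := hZ N c1 β d0 d1 hN hc h0 h1 h2 h3
  have h5 : ∀ j, kp N c1 a' 2 β (j % 2) = kp N c1 a' 2 β j := fun j => by
    rw [kp, kp, kap_two hN hd ha', kap_two hN hd ha']
    exact congrArg (· * 1) (ex_congr two_pos (by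
      rw [← mul_sub, ← mul_sub]
      exact ((Nat.modEq_iff_dvd.1 (Nat.mod_modEq j 2).symm).mul_left _).mul_left _))
  have h6 : kp N c1 a' 2 β 0 = 1 := by simp [kp, kap_two hN hd ha', ex_zero]
  have h7 : kp N c1 a' 2 β 1 = -1 := by
    have h8 : a' % 2 = 1 := Int.odd_iff.1 (Int.isCoprime_two_right.1 ha')
    have h9 : ((2 : ℕ) : ℤ) ∣ a' * (c1 * (1 : ℕ)) - 1 := by
      obtain ⟨x, rfl⟩ : ∃ x, a' = 2 * x + 1 := ⟨a' / 2, by omega⟩
      obtain ⟨y, rfl⟩ : ∃ y, c1 = 2 * y + 1 := ⟨c1 / 2, by omega⟩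
      exact ⟨2 * x * y + x + y, by push_cast; ring⟩
    rw [kp, kap_two hN hd ha', mul_one, ex_congr two_pos h9, ex, ← Complex.exp_pi_mul_I]
    congr 1
    push_cast
    ring
  have h8 : Th N = Wc N 2 0 + Wc N 2 1 := by
    have h9 := sum_per N two_pos (fun _ => 1) fun _ => rfl
    rw [sum_two] at h9
    simp only [mul_one] at h9
    rw [Th_eq]
    exact_mod_cast h9
  have h9 := hP (60 * 0 + 1) _ (by norm_num) hx
  have h10 := hP (60 * 1 + 1) _ (by norm_num) hx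
  rw [← Wc_eq N (n := 2) (by norm_num), mul_div_assoc, mul_div_assoc] at h9 h10
  have h11 : 0 ≤ BB N / (Nat.totient 120 : ℕ) := div_nonneg (BB_nonneg N) (Nat.cast_nonneg _)
  refine (norm_matH_split h4).trans ?_
  rw [sum_per N two_pos _ h5, mul_add, sum_two]
  simp only [h6, h7, kap_two hN hd ha', norm_one, mul_one]
  rw [← Th_eq, mul_comm (zet _ _), ← mul_assoc, mul_comm _ (omg d0 : ℝ), mul_neg_one, ← sub_eq_add_neg,
    ← Complex.ofReal_sub, Complex.norm_real, Real.norm_eq_abs]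
  refine add_le_add_left (mul_le_mul hz ?_ (abs_nonneg _) omg_nonneg) _
  rw [← mul_div_assoc, le_div_iff₀ (by linarith), h8]
  generalize BB N / (Nat.totient 120 : ℕ) = X at h9 h10 h11
  have h12 : ∀ {s t : ℝ}, s ≤ up * X → lo * X ≤ t → s * lo ≤ t * up := fun hs ht => by
    nlinarith [mul_le_mul_of_nonneg_right hs hlo.le, mul_le_mul_of_nonneg_right ht (hlo.le.trans hup)]
  have h13 := h12 h9.2 h10.1
  have h14 := h12 h10.2 h9.1
  rcases abs_cases (Wc N 2 0 - Wc N 2 1) with ⟨e, -⟩ | ⟨e, -⟩ <;> rw [e] <;> nlinarith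

section prime

variable {p t : ℕ} (hp : p.Prime) (h7 : 7 ≤ p) (ht : t = 1 ∨ t = 2)
include hp h7

theorem co_congr (c : ℕ) {m m' : ℤ} (h : (p : ℤ) ∣ m - m') : co p c m = co p c m' := by
  unfold co
  congr 1
  refine sum_congr rfl fun i _ => ?_
  have h1 := ex_congr hp.pos (x := m * i) (y := m' * i) (by rw [← sub_mul]; exact h.mul_right _)
  push_cast at h1
  rw [h1]

theorem co_add (c : ℕ) (m : ℤ) : (if (p : ℤ) ∣ m then 1 else 0) + co p c m =
    (∑ i ∈ range p, (omQ p ((60 * i + c) % p) : ℂ) * ex ((m : ℝ) * i / p)) / p := by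
  have h0 : (p : ℂ) ≠ 0 := by exact_mod_cast hp.ne_zero
  have h1 := ortho hp.pos m
  unfold co
  push_cast
  simp only [sub_mul, sum_sub_distrib, one_mul, mul_div_right_comm]
  rw [h1]
  split_ifs
  · field_simp
    ring
  · simp

include ht

theorem qc_mul : qc (t * p) = p := by
  have h1 : p.Coprime 2 := (coprime_sixty hp h7).coprime_dvd_right (by decide)
  rcases ht with rfl | rfl
  · rw [qc, one_mul, h1, Nat.div_one]
  · rw [qc, Nat.gcd_eq_right (dvd_mul_right _ _), Nat.mul_div_cancel_left _ two_pos]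

theorem kap_prime (hps : [p] ∈ QF) (hv : ∀ ps ∈ QF, Val N (t * p) ps.prod β) (ha' : IsCoprime a' ((t * p : ℕ) : ℤ))
    (j : ℕ) {b : ℤ} (hb : 60 * (j : ℤ) + 2 = t * b) : kap N c1 a' (t * p) β j =
      (∑ i ∈ range p, (omQ p ((60 * i + c1) % p) : ℂ) * ex (((a' * b : ℤ) : ℝ) * i / p)) / p := by
  have h0 : (t : ℤ) ≠ 0 := by rcases ht with rfl | rfl <;> norm_num
  have h1 : (p : ℤ) ≠ 0 := by exact_mod_cast hp.ne_zero
  rw [← co_add hp h7, kap, ← sum_subset (s₁ := {[], [p]}) (by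
    intro x hx
    rcases mem_insert.1 hx with rfl | hx
    · exact mem_QF_nil
    · rwa [mem_singleton.1 hx]), sum_pair (by simp), term_nil (hv [] mem_QF_nil), hb]
  · congr 1
    · rw [mul_left_comm, Nat.cast_mul]
      exact if_congr (mul_dvd_mul_iff_left h0) rfl rfl
    have h2 : ∀ a : ℕ, Mat a' (t * p) p a j ↔ (p : ℤ) ∣ a + a' * b := fun a => by
      rw [Mat, hb]
      push_cast
      rw [show (a : ℤ) * (t * p) + a' * (t * b) * p = (a + a' * b) * (t * p) by ring]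
      exact mul_dvd_mul_iff_right (mul_ne_zero h0 h1)
    have h3 : (((-(a' * b)) % p).toNat : ℤ) = -(a' * b) % p := Int.toNat_of_nonneg (Int.emod_nonneg _ h1)
    have h4 : (p : ℤ) ∣ ((-(a' * b)) % p).toNat + a' * b := by
      rw [h3, ← sub_neg_eq_add]
      exact (Int.mod_modEq _ _).symm.dvd
    have h5 : ((-(a' * b)) % p).toNat < p := by
      have := Int.emod_lt_of_pos (-(a' * b)) (show (0 : ℤ) < p by exact_mod_cast hp.pos)
      omega
    have h6 := hv _ hps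
    rw [List.prod_singleton] at h6 ⊢
    rw [sum_eq_single_of_mem _ (mem_filter.2 ⟨mem_range.2 h5, h6, (h2 _).2 h4⟩), rh_one]
    · exact co_congr hp h7 c1 (by rwa [← neg_add', dvd_neg])
    · intro a ha hne
      exact absurd (mat_unique (Nat.mul_pos (by omega) hp.pos) (mem_range.1 (mem_filter.1 ha).1) h5
        (mem_filter.1 ha).2.2 ((h2 _).2 h4)) hne
  · intro ps h2 hne
    refine sum_eq_zero fun a ha => not_not.1 fun h => hne ?_
    have h3 := (spec_of_ne ha' h2 ha h).1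
    rw [qc_mul hp h7 ht] at h3
    rcases (Nat.dvd_prime hp).1 (Dvd.intro _ h3) with h4 | h4
    · rw [QF_inj h2 mem_QF_nil h4]
      exact mem_insert_self _ _
    · rw [QF_inj h2 hps (h4.trans List.prod_singleton.symm)]
      exact mem_insert_of_mem (mem_singleton_self _)

theorem kp_prime (hps : [p] ∈ QF) (hv : ∀ ps ∈ QF, Val N (t * p) ps.prod β) (ha' : IsCoprime a' ((t * p : ℕ) : ℤ))
    (j : ℕ) : kp N c1 a' (t * p) β j = (∑ i ∈ range p, (omQ p ((60 * i + c1) % p) : ℂ) *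
      ex ((2 * a' * i : ℤ) / (t * p : ℕ)) * ex ((a' * (60 * i + c1) * j : ℤ) / (t * p : ℕ))) / p := by
  obtain ⟨b, hb⟩ : ∃ b : ℤ, 60 * (j : ℤ) + 2 = t * b := by
    rcases ht with rfl | rfl
    · exact ⟨60 * j + 2, by simp⟩
    · exact ⟨30 * j + 1, by push_cast; ring⟩
  have h0 : (t : ℝ) ≠ 0 := by rcases ht with rfl | rfl <;> norm_num
  have h1 : (p : ℝ) ≠ 0 := by exact_mod_cast hp.ne_zero
  have h2 : 60 * (j : ℝ) + 2 = t * b := by exact_mod_cast hb
  rw [kp, kap_prime hp h7 ht hps hv ha' j hb, ← mul_div_assoc, mul_sum]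
  congr 1
  refine sum_congr rfl fun i _ => ?_
  rw [mul_left_comm, mul_assoc, ← ex_add, ← ex_add]
  congr 2
  push_cast
  field_simp
  linear_combination (-(a' : ℝ) * i) * h2

theorem kp_per (hps : [p] ∈ QF) (hv : ∀ ps ∈ QF, Val N (t * p) ps.prod β) (ha' : IsCoprime a' ((t * p : ℕ) : ℤ))
    (j : ℕ) : kp N c1 a' (t * p) β (j % (2 * p)) = kp N c1 a' (t * p) β j := by
  rw [kp_prime hp h7 ht hps hv ha', kp_prime hp h7 ht hps hv ha']
  congr 1
  refine sum_congr rfl fun i _ => congrArg _ (ex_congr (Nat.mul_pos (by omega) hp.pos) ?_)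
  rw [← mul_sub]
  refine (Nat.modEq_iff_dvd.1 ((Nat.mod_modEq j (2 * p)).symm.of_dvd ?_)).mul_left _
  rcases ht with rfl | rfl
  · exact ⟨2, by ring⟩
  · exact dvd_rfl

theorem sum_kp (hps : [p] ∈ QF) (hv : ∀ ps ∈ QF, Val N (t * p) ps.prod β) (ha' : IsCoprime a' ((t * p : ℕ) : ℤ)) :
    ∑ r ∈ range (2 * p), kp N c1 a' (t * p) β r = 0 := by
  simp only [kp_prime hp h7 ht hps hv ha']
  rw [← sum_div, sum_comm, sum_eq_zero, zero_div]
  intro i _
  rw [← mul_sum]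
  by_cases h1 : p ∣ 60 * i + c1
  · rw [Nat.mod_eq_zero_of_dvd h1, omQ_zero, Rat.cast_zero, zero_mul, zero_mul]
  obtain ⟨t', ht'⟩ : ∃ t' : ℕ, t * t' = 2 := by
    rcases ht with rfl | rfl
    · exact ⟨2, rfl⟩
    · exact ⟨1, rfl⟩
  have h0 : (t : ℝ) ≠ 0 := by rcases ht with rfl | rfl <;> norm_num
  have h2 : (p : ℝ) ≠ 0 := by exact_mod_cast hp.ne_zero
  have h3 : (t : ℝ) * t' = 2 := by exact_mod_cast ht'
  have h4 := ortho (M := 2 * p) (by omega) (a' * (60 * i + c1) * t')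
  rw [if_neg] at h4
  · rw [← mul_zero ((omQ p ((60 * i + c1) % p) : ℂ) * ex ((2 * a' * i : ℤ) / (t * p : ℕ))), ← h4]
    refine congrArg _ (sum_congr rfl fun r _ => congrArg ex ?_)
    push_cast
    field_simp
    linear_combination (-(a' : ℝ) * (60 * i + c1) * r) * h3
  · intro h5
    have h6 : (p : ℤ) ∣ a' * (60 * i + c1) * t' := (Int.natCast_dvd_natCast.2 (dvd_mul_left p 2)).trans h5
    have h8 : IsCoprime (p : ℤ) a' := (ha'.of_isCoprime_of_dvd_right (by push_cast; exact dvd_mul_left _ _)).symm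
    rw [mul_assoc] at h6
    have h9 : p ∣ (60 * i + c1) * t' := by exact_mod_cast h8.dvd_of_dvd_mul_left h6
    refine ((Nat.Prime.dvd_mul hp).1 h9).elim h1 fun h10 => ?_
    have := Nat.le_of_dvd two_pos (h10.trans (Dvd.intro_left _ ht'))
    omega

omit ht

theorem loc_prime (F : ℕ → ℝ) : loc F p = cQ p * F 1 + (1 - cQ p) * F p := by
  simp [loc, hp.primeFactors, hp.factorization_self]

theorem Wc_bad (hN : 10 ^ 23 ≤ N) (h23 : p ≤ 23) {r : ℕ} (h : p ∣ 60 * r + 1) : Wc N (2 * p) r = 0 := by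
  refine sum_eq_zero fun j hj => ?_
  obtain ⟨h1, h2⟩ := mem_filter.1 hj
  have h3 : p ∣ 60 * j + 1 := by
    rw [← Nat.div_add_mod j (2 * p), h2, show 60 * (2 * p * (j / (2 * p)) + r) + 1 =
      p * (120 * (j / (2 * p))) + (60 * r + 1) by ring]
    exact dvd_add (dvd_mul_right _ _) h
  have h4 : (p : ℝ) ≤ 23 := by exact_mod_cast h23
  exact absurd h3 (sifted h1 1 (R := 23) (by linarith [BB_ge hN]) p hp h4 hp.not_dvd_one)

theorem Wc_good {x0 lo up : ℝ} (hP : PI (120 * p) x0 lo up) (hx : x0 ≤ BB N) {r : ℕ} (hr : r < 2 * p)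
    (h : ¬ p ∣ 60 * r + 1) :
    lo * (BB N / (32 * (p - 1))) ≤ Wc N (2 * p) r ∧ Wc N (2 * p) r ≤ up * (BB N / (32 * (p - 1))) := by
  have h60 := coprime_sixty hp h7
  have h1 : (60 * r + 1).Coprime 120 :=
    Nat.Coprime.coprime_dvd_right (by decide : 120 ∣ 60 ^ 2) (Nat.Coprime.pow_right 2 (by simp))
  have h2 := hP (60 * r + 1) _ (h1.mul_right ((hp.coprime_iff_not_dvd).2 h).symm) hx
  have h3 : (Nat.totient (120 * p) : ℝ) = 32 * (p - 1) := by
    rw [Nat.totient_mul (Nat.Coprime.coprime_dvd_left (by decide : 120 ∣ 60 ^ 2) (h60.symm.pow_left 2)),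
      Nat.totient_prime hp, show Nat.totient 120 = 32 by decide +kernel, Nat.cast_mul, Nat.cast_pred hp.pos]
    norm_num
  rwa [h3, mul_div_assoc, mul_div_assoc, show 120 * p = 60 * (2 * p) by ring, ← Wc_eq N hr] at h2

end prime

theorem list_spec : ∀ p ∈ [7, 11, 13, 17, 19, 23], [p] ∈ ([] :: QP) ∧ 7 ≤ p ∧ p ≤ 23 ∧
    ((range (2 * p)).filter fun r => p ∣ 60 * r + 1).card = 2 ∧
    ((range (2 * p)).filter fun r => p ∣ 60 * r + 2).card = 2 := by decide +kernel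

theorem boxM5 (hT : BoxTau) (hZ : BoxZet) : BoxM5 := by
  intro N c1 p q' a' β x0 lo up l0 d0 hN hc _ hpl hq ha' hP hx hup hl0 hTh h0 h1
  obtain ⟨hps, h7, h23, hc1, hc2⟩ := list_spec p hpl
  replace hps : [p] ∈ QF := List.mem_toFinset.2 hps
  have hp : p.Prime := ((QF_spec hps).2.2.2 p List.mem_cons_self).1
  obtain ⟨t, ht, rfl⟩ : ∃ t, (t = 1 ∨ t = 2) ∧ q' = t * p := by
    rcases hq with rfl | rfl
    · exact ⟨1, .inl rfl, (one_mul _).symm⟩
    · exact ⟨2, .inr rfl, rfl⟩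
  have hq' : 0 < t * p := Nat.mul_pos (by omega) hp.pos
  have hqc := qc_mul hp h7 ht
  have h30 : (qc (t * p)).Coprime 30 := by
    rw [hqc]
    exact (coprime_sixty hp h7).coprime_dvd_right (by decide)
  have hp1 : (0 : ℝ) < p - 1 := by
    have : (7 : ℝ) ≤ p := by exact_mod_cast h7
    linarith
  have hB := BB_pos hN
  have hc0 := cQ_nonneg p (by omega)
  have hc4 := cQ_le h7
  have hex : ∀ r, p ∣ 60 * r + 2 → ¬ p ∣ 60 * r + 1 := fun r h2 h3 =>
    hp.not_dvd_one ((Nat.dvd_add_right h3).1 h2)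
  set X := BB N / (32 * (p - 1)) with hX
  have hX0 : 0 < X := by positivity
  have hX1 : 2 * X ≤ Th N / ((p - 1) * l0) := by
    rw [le_div_iff₀ (by positivity), hX]
    refine le_trans (le_of_eq ?_) hTh
    field_simp
    ring
  have hup0 : 0 ≤ up := by
    have h2 := (Wc_good hp h7 hP hx (r := 0) (by omega) (by simpa using hp.one_lt.ne')).2
    have h3 : 0 ≤ Wc N (2 * p) 0 := sum_nonneg fun j _ => lw_nonneg j
    exact nonneg_of_mul_nonneg_left (h3.trans h2) hX0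
  have hmass : mass N p ≤ Th N * (up / ((p - 1) * l0)) := by
    have h2 := sum_per N (n := 2 * p) (by omega) (fun j => if p ∣ 60 * j + 2 then 1 else 0) fun j =>
      if_congr (((((Nat.mod_modEq j (2 * p)).of_dvd (dvd_mul_left p 2)).mul_left 60).add_right 2).dvd_iff dvd_rfl) rfl rfl
    have h3 : mass N p = ∑ r ∈ (range (2 * p)).filter fun r => p ∣ 60 * r + 2, Wc N (2 * p) r := by
      rw [mass, sum_win_filter, sum_filter, sum_filter]
      simp only [mul_ite, mul_one, mul_zero] at h2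
      apply Complex.ofReal_injective
      simpa [apply_ite Complex.ofReal] using h2
    have h4 := sum_le_card_nsmul ((range (2 * p)).filter fun r => p ∣ 60 * r + 2) (Wc N (2 * p)) (up * X) fun r hr =>
      (Wc_good hp h7 hP hx (mem_range.1 (mem_filter.1 hr).1) (hex r (mem_filter.1 hr).2)).2
    rw [hc2, nsmul_eq_mul, Nat.cast_ofNat] at h4
    rw [h3, mul_div_left_comm]
    nlinarith [mul_le_mul_of_nonneg_left hX1 hup0]
  have hk : ∀ j, ‖kap N c1 a' (t * p) β j‖ ≤ cQ p + (1 - cQ p) * if p ∣ 60 * j + 2 then 1 else 0 := fun j => by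
    have h2 := norm_kap_le (N := N) (c1 := c1) (β := β) hq' ha' h30 j
    rwa [hqc, loc_prime hp h7, if_pos (one_dvd _), mul_one] at h2
  have hsum : ∑ j ∈ JA N, lw j * ‖kap N c1 a' (t * p) β j‖ ≤ Th N * (cQ p + (1 - cQ p) * (up / ((p - 1) * l0))) := by
    refine (sum_le_sum fun j _ => mul_le_mul_of_nonneg_left (hk j) (lw_nonneg j)).trans ?_
    simp only [mul_add, sum_add_distrib, mul_left_comm _ (1 - (cQ p : ℝ))]
    rw [← sum_mul, ← Th_eq, ← mul_sum, ← mass_eq]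
    exact add_le_add_right (mul_le_mul_of_nonneg_left hmass (by linarith)) _
  refine ⟨?_, fun d1 h2 h3 hlo => ?_⟩
  · rw [mul_left_comm]
    exact (norm_matH_le hT hN hc hq' h0 h1).trans (mul_le_mul_of_nonneg_left hsum omg_nonneg)
  obtain ⟨z, hz, h4⟩ := hZ N c1 β d0 d1 hN hc h0 h1 h2 h3
  have hv : ∀ ps ∈ QF, Val N (t * p) ps.prod β := fun ps =>
    val_of_small hN (h2.trans (by exact_mod_cast h3)) (hqc.trans_le h23)
  refine (norm_matH_split h4).trans ?_
  rw [mul_add, mul_left_comm (Th N), mul_left_comm (Th N) (zet _ _)]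
  refine add_le_add (mul_le_mul hz ?_ (norm_nonneg _) omg_nonneg) (mul_le_mul_of_nonneg_left hsum (zet_nonneg _ _))
  rw [sum_per N (by omega) _ (kp_per hp h7 ht hps hv ha'), ← sub_zero (∑ r ∈ _, _),
    ← mul_zero (((up + lo) / 2 * X : ℝ) : ℂ), ← sum_kp hp h7 ht hps hv ha' (c1 := c1), mul_sum, ← sum_sub_distrib]
  have h5 : ∀ r ∈ range (2 * p), ‖(Wc N (2 * p) r : ℂ) * kp N c1 a' (t * p) β r -
      (((up + lo) / 2 * X : ℝ) : ℂ) * kp N c1 a' (t * p) β r‖ ≤ (up - lo) / 2 * X * cQ p +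
      (lo * X * cQ p * (if p ∣ 60 * r + 1 then 1 else 0) +
        (up - lo) / 2 * X * (1 - cQ p) * if p ∣ 60 * r + 2 then 1 else 0) := by
    intro r hr
    rw [← sub_mul, norm_mul, norm_kp, ← Complex.ofReal_sub, Complex.norm_real, Real.norm_eq_abs]
    have h6 := hk r
    by_cases h8 : p ∣ 60 * r + 1
    · rw [if_neg fun h => hex r h h8, mul_zero, add_zero] at h6
      rw [Wc_bad hp h7 hN h23 h8, zero_sub, abs_neg, abs_of_nonneg (by positivity), if_pos h8,
        if_neg fun h => hex r h h8]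
      refine (mul_le_mul_of_nonneg_left h6 (by positivity)).trans (le_of_eq ?_)
      ring
    · obtain ⟨h9, h10⟩ := Wc_good hp h7 hP hx (mem_range.1 hr) h8
      have h11 : |Wc N (2 * p) r - (up + lo) / 2 * X| ≤ (up - lo) / 2 * X := abs_le.2 ⟨by linarith, by linarith⟩
      refine (mul_le_mul h11 h6 (norm_nonneg _) ((abs_nonneg _).trans h11)).trans (le_of_eq ?_)
      rw [if_neg h8]
      ring
  refine (norm_sum_le_of_le _ h5).trans ?_
  rw [sum_add_distrib, sum_add_distrib, sum_const, ← mul_sum, ← mul_sum, sum_boole, sum_boole, hc1, hc2, card_range,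
    nsmul_eq_mul, mul_div_left_comm (Th N)]
  have h6 : 0 ≤ (up + lo) / 2 * cQ p + (up - lo) / 2 * (1 + (p - 2) * cQ p) := by
    have : (0 : ℝ) ≤ p - 2 := by
      have : (7 : ℝ) ≤ p := by exact_mod_cast h7
      linarith
    have : 0 ≤ up - lo := by linarith
    positivity
  refine le_trans (le_of_eq ?_) (mul_le_mul_of_nonneg_left hX1 h6)
  push_cast
  ring

end Cfsg.Agent.Depth.D
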