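import Cfsg.Agent.Depth.D.Win
import Cfsg.Agent.Depth.D.Ff
import Cfsg.Agent.Depth.S.LemS

/-!
# Depth (S5768): the noise and the direct bound (helper48)
-/

set_option autoImplicit false

namespace Cfsg.Agent.Depth.D

open Finset
open Cfsg.Agent.Depth.S

/-- relative width of the window, in thousandths -/
noncomputable def dr (s : ℕ) : ℝ := (rw (s + 1) : ℝ) - rw s

theorem dr_nonneg (s : ℕ) : 0 ≤ dr s := by
  have h : (rw s : ℝ) ≤ rw (s + 1) := by exact_mod_cast rw_le (Nat.le_succ s)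
  exact sub_nonneg.2 h

theorem dr_facts {s : ℕ} (hs : s < 8) :
    90 ≤ dr s ∧ 3014656000 ≤ (4 * nw s : ℕ) * dr s ∧ (4 * nw s : ℕ) * dr s ≤ 3198976000 := by
  interval_cases s <;> norm_num [dr, rw, nw, kk]

theorem nw_le {s : ℕ} (hs : s < 8) : 4 * nw s ≤ 34611200 := by
  interval_cases s <;> norm_num [nw, kk]

theorem Gs_le (k : ℕ) {R : ℝ} (hR : 0 ≤ R) : Gs k R ≤ R := by
  unfold Gs
  refine (sum_le_card_nsmul _ _ 1 fun d hd => ?_).trans ?_
  · have h1 : 0 < d := (mem_Icc.1 (mem_filter.1 hd).1).1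
    have h2 : (1 : ℝ) ≤ d.totient := by exact_mod_cast Nat.totient_pos.2 h1
    exact div_le_one_of_le₀ h2 (by positivity)
  · have h1 := card_filter_le (Icc 1 ⌊R⌋₊) (fun d => Squarefree d ∧ d.Coprime k)
    rw [Nat.card_Icc, Nat.add_sub_cancel] at h1
    rw [nsmul_eq_mul, mul_one]
    exact le_trans (by exact_mod_cast h1) (Nat.floor_le hR)

theorem q2_pos {q' : ℕ} (h : 0 < q') : 0 < q2 q' :=
  Nat.div_pos (Nat.gcd_le_left _ h) (Nat.gcd_pos_of_pos_left _ h)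

/-- `60 a' / q'` in lowest terms -/
theorem sixty_frac {a' : ℤ} {q' : ℕ} (hq : 0 < q') (ha : IsCoprime a' (q' : ℤ)) :
    ∃ a : ℤ, IsCoprime a (q2 q' : ℤ) ∧ (a : ℝ) / q2 q' = 60 * (a' / q') := by
  have hg : 0 < q'.gcd 60 := Nat.gcd_pos_of_pos_left _ hq
  have h1 : q'.gcd 60 * q2 q' = q' := Nat.mul_div_cancel' (Nat.gcd_dvd_left _ _)
  have h2 : q'.gcd 60 * (60 / q'.gcd 60) = 60 := Nat.mul_div_cancel' (Nat.gcd_dvd_right _ _)
  have h3 : (q2 q').Coprime (60 / q'.gcd 60) := Nat.coprime_div_gcd_div_gcd hg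
  refine ⟨(60 / q'.gcd 60 : ℕ) * a', IsCoprime.mul_left (Nat.isCoprime_iff_coprime.2 h3.symm) ?_, ?_⟩
  · exact ha.of_isCoprime_of_dvd_right (Int.natCast_dvd_natCast.2 (Dvd.intro_left _ h1))
  · have h4 : ((q'.gcd 60 : ℕ) : ℝ) * q2 q' = q' := by exact_mod_cast h1
    have h5 : ((q'.gcd 60 : ℕ) : ℝ) * (60 / q'.gcd 60 : ℕ) = 60 := by exact_mod_cast h2
    have h6 : (0 : ℝ) < q2 q' := by exact_mod_cast q2_pos hq
    have h7 : (0 : ℝ) < (q'.gcd 60 : ℕ) := by exact_mod_cast hg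
    rw [Int.cast_mul, Int.cast_natCast]
    generalize ((60 / q'.gcd 60 : ℕ) : ℝ) = u at h5 ⊢
    rw [← h5, ← h4]
    field_simp

/-- **the sampling lemma on one window** -/
theorem win_bound {N s : ℕ} {a' : ℤ} {q' k qt m n : ℕ} {β T R h : ℝ} (γ : ℕ → ℂ) (hN : 10 ^ 23 ≤ N) (hs : s < 8)
    (hq : 0 < q') (ha : IsCoprime a' (q' : ℤ)) (hT : 0 < T) (hR : 1 ≤ R)
    (hc : q2 q' * (T + 0.0325 * dl N β) * R ^ 2 ≤ 0.0015 * BB N) (hk : 60 ∣ k) (hqt : 0 < qt)
    (hd : ∀ m' r : ℕ, Squarefree r → r.Coprime k → q2 q' ∣ m' * r → qt ∣ m') (hh : 0 < h)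
    (hh' : h ≤ qt * max 1 (dl N β / (33 * T))) (hm : ((4 * nw s : ℕ) : ℝ) ≤ m * h) (hn : n ≤ 4 * nw s) :
    ∑ j ∈ JW N s, ‖∑ i ∈ range n, γ i * ex ((a' / q' + β) * (60 * j + 2) * i)‖ ^ 2 ≤
      dr s * BB N / 60000 * (1 + 1.2 / T + 0.000001) / Gs k R * (m * ∑ i ∈ range n, ‖γ i‖ ^ 2) := by
  obtain ⟨j0, Y, hY, hJ⟩ := JW_Ico N s
  change (Y : ℝ) ≤ dr s * BB N / 60000 + 1 at hY
  obtain ⟨d1, d2, d3⟩ := dr_facts hs
  have hB := BB_ge hN
  have hδ : dl N β = 98500000 * (|β| * BB N) := by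
    unfold dl
    rw [N_eq N]
    unfold BB
    ring
  have hG : 0 < Gs k R := one_pos.trans_le (one_le_Gs k hR)
  have hn' : (n : ℝ) ≤ (4 * nw s : ℕ) := by exact_mod_cast hn
  have hqt' : (0 : ℝ) < qt := by exact_mod_cast hqt
  have hq2 : (0 : ℝ) < q2 q' := by exact_mod_cast q2_pos hq
  have hγ : 0 ≤ ∑ i ∈ range n, ‖γ i‖ ^ 2 := sum_nonneg fun _ _ => by positivity
  have hb : 0 ≤ |β| * BB N := mul_nonneg (abs_nonneg β) (by linarith)
  have hn0 : (0 : ℝ) ≤ n := Nat.cast_nonneg n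
  have hm0 : (0 : ℝ) ≤ m := Nat.cast_nonneg m
  generalize ((4 * nw s : ℕ) : ℝ) = n4 at *
  have hY0 : 0.0015 * BB N ≤ dr s * BB N / 60000 := by nlinarith
  obtain ⟨Y0, hY1⟩ : ∃ Y0, Y0 = dr s * BB N / 60000 := ⟨_, rfl⟩
  rw [← hY1] at hY hY0 ⊢
  have hY2 : 0 < Y0 := by linarith
  have hT1 : 0 < 1.2 / T := by positivity
  rcases le_or_gt R (BB N) with hRB | hRB
  · obtain ⟨a, ha1, ha2⟩ := sixty_frac hq ha
    have hm1 : 0 < m := by
      rcases Nat.eq_zero_or_pos m with rfl | h0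
      · simp only [Nat.cast_zero, zero_mul] at hm
        nlinarith
      · exact h0
    have e60 : |60 * β| * Y0 = |β| * BB N * dr s / 1000 := by
      rw [abs_mul, abs_of_pos (by norm_num : (0 : ℝ) < 60), hY1]
      ring
    have key := lemS 60 1 k R (JW N s) j0 Y a (q2 q') qt m n (60 * β) (T / Y0)
      (fun i => γ i * ex (2 * (a' / q' + β) * i)) hk hR (q2_pos hq) hqt hm1 (by positivity) ha1
      (fun j hj => ⟨(hJ j hj).1, (hJ j hj).2, sifted' hj k hRB⟩) ?_ hd ?_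
    · have e1 : ∀ j : ℕ, ∑ i ∈ range n, γ i * ex ((a' / q' + β) * (60 * j + 2) * i) =
          ∑ i ∈ range n, γ i * ex (2 * (a' / q' + β) * i) * ex ((a / q2 q' + 60 * β) * i * j) := fun j =>
        sum_congr rfl fun i _ => by
          rw [mul_assoc (γ i), ← ex_add, ha2]
          congr 2
          ring
      simp only [norm_mul, norm_ex, mul_one] at key
      simp only [e1]
      refine key.trans ?_
      have h1 : (Y + 1.2 / (T / Y0) + 2 : ℝ) ≤ Y0 * (1 + 1.2 / T + 0.000001) := by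
        have : 1.2 / (T / Y0) = Y0 * (1.2 / T) := by field_simp
        rw [this]
        linarith
      calc _ = (Y + 1.2 / (T / Y0) + 2 : ℝ) / Gs k R * (m * ∑ i ∈ range n, ‖γ i‖ ^ 2) := by ring
        _ ≤ _ := mul_le_mul_of_nonneg_right (div_le_div_of_nonneg_right h1 hG.le) (mul_nonneg hm0 hγ)
    · have h1 : |60 * β| * n * Y0 ≤ 0.0325 * dl N β := by
        have h2 : n * dr s ≤ 3198976000 := (mul_le_mul_of_nonneg_right hn' (by linarith)).trans d3
        have h3 := mul_le_mul_of_nonneg_left h2 hb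
        rw [mul_right_comm, e60, hδ]
        linarith
      have h2 : T / Y0 + |60 * β| * n ≤ (T + 0.0325 * dl N β) / Y0 := by
        rw [le_div_iff₀ hY2, add_mul, div_mul_cancel₀ _ hY2.ne']
        linarith
      refine (mul_le_mul_of_nonneg_left h2 (by positivity)).trans ?_
      rw [← mul_div_assoc, div_le_one hY2]
      linarith
    · rcases le_total (dl N β / (33 * T)) 1 with h1 | h1
      · rw [max_eq_left h1, mul_one] at hh'
        have h2 : (n : ℝ) ≤ m * qt := hn'.trans (hm.trans (mul_le_mul_of_nonneg_left hh' hm0))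
        exact Or.inl (by exact_mod_cast h2)
      · rw [max_eq_right h1, ← mul_div_assoc, le_div_iff₀ (by positivity), hδ] at hh'
        refine Or.inr ?_
        rw [div_le_iff₀ hY2, show |60 * β| * qt * m * Y0 = |60 * β| * Y0 * qt * m by ring, e60]
        have h2 := mul_le_mul_of_nonneg_right hm (show 0 ≤ 33 * T by positivity)
        have h3 := mul_le_mul_of_nonneg_left hh' hm0
        have h4 : n4 * (33 * T) ≤ m * (qt * (98500000 * (|β| * BB N))) := by linarith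
        have h5 := mul_le_mul_of_nonneg_right h4 (dr_nonneg s)
        have h6 := mul_le_mul_of_nonneg_right d2 hT.le
        linarith
  · have h1 : ∀ j ∈ JW N s, ‖∑ i ∈ range n, γ i * ex ((a' / q' + β) * (60 * j + 2) * i)‖ ^ 2 ≤
        n * ∑ i ∈ range n, ‖γ i‖ ^ 2 := fun j _ => by
      have := normSq_sum_le (range n) fun i => γ i * ex ((a' / q' + β) * (60 * j + 2) * i)
      simpa only [norm_mul, norm_ex, mul_one, card_range] using this
    have h2 : (JW N s).card ≤ Y := by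
      have := card_le_card (show JW N s ⊆ Ico j0 (j0 + Y) from fun j hj => mem_Ico.2 (hJ j hj))
      rwa [Nat.card_Ico, Nat.add_sub_cancel_left] at this
    have h2' : ((JW N s).card : ℝ) ≤ 2 * Y0 := by
      have : ((JW N s).card : ℝ) ≤ Y := by exact_mod_cast h2
      linarith
    have h3 : (qt : ℝ) ≤ q2 q' := by
      exact_mod_cast Nat.le_of_dvd (q2_pos hq) (hd _ 1 squarefree_one (Nat.coprime_one_left k) (by simp))
    have hδ0 : 0 ≤ dl N β := by rw [hδ]; positivity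
    have h4 : max 1 (dl N β / (33 * T)) * T ≤ T + 0.0325 * dl N β := by
      rcases le_total (dl N β / (33 * T)) 1 with h1 | h1
      · rw [max_eq_left h1]
        linarith
      · rw [max_eq_right h1, show dl N β / (33 * T) * T = dl N β / 33 by field_simp]
        linarith
    have h5 : h * T ≤ q2 q' * (T + 0.0325 * dl N β) :=
      (mul_le_mul_of_nonneg_right hh' hT.le).trans (by
        rw [mul_assoc]
        exact mul_le_mul h3 h4 (by positivity) hq2.le)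
    have h6 : h * T * R ≤ 0.0015 := by
      have h7 := mul_le_mul_of_nonneg_right h5 (sq_nonneg R)
      refine le_of_mul_le_mul_right (a := R) ?_ (by linarith)
      nlinarith
    have h7 : n * Gs k R ≤ 0.0015 * m / T := by
      rw [le_div_iff₀ hT]
      have h8 := mul_le_mul (hn'.trans hm) (Gs_le k (zero_le_one.trans hR)) hG.le (by positivity)
      have h9 := mul_le_mul_of_nonneg_right h8 hT.le
      have h10 := mul_le_mul_of_nonneg_left h6 hm0
      linarith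
    refine (sum_le_card_nsmul _ _ _ h1).trans ?_
    rw [nsmul_eq_mul, ← mul_assoc, ← mul_assoc]
    refine mul_le_mul_of_nonneg_right ?_ hγ
    rw [div_mul_eq_mul_div, le_div_iff₀ hG, mul_assoc]
    refine (mul_le_mul h2' h7 (by positivity) (by positivity)).trans ?_
    have h8 : 0 ≤ Y0 * m := by positivity
    have h9 : 0 ≤ Y0 * m / T := by positivity
    calc 2 * Y0 * (0.0015 * m / T) = 0.003 * (Y0 * m / T) := by ring
      _ ≤ 1.000001 * (Y0 * m) + 1.2 * (Y0 * m / T) := by linarith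
      _ = _ := by ring

theorem cc_pos {N : ℕ} {lo T R : ℝ} (hN : 10 ^ 23 ≤ N) (hlo : 0 < lo) (hT : 0 < T) (hR : 1 ≤ R) : 0 < cc N lo T R := by
  have h1 := log_two_BB_pos hN
  have h2 : 0 < Gs 60 R := one_pos.trans_le (one_le_Gs 60 hR)
  unfold cc
  positivity

/-- summing over the windows -/
theorem glob {N k : ℕ} {lo T R F C : ℝ} (A : ℕ → ℕ → ℝ) (X : ℕ → ℝ) (hN : 10 ^ 23 ≤ N) (hlo : 0 < lo)
    (hTh : lo * BB N / 16 ≤ Th N) (hT : 0 < T) (hR : 1 ≤ R) (hF : 0 < F) (hG : Gs 60 R / F ≤ Gs k R)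
    (hA0 : ∀ s j, 0 ≤ A s j) (hC0 : 0 ≤ C)
    (hA : ∀ s, s < 8 → ∑ j ∈ JW N s, A s j ≤ dr s * BB N / 60000 * (1 + 1.2 / T + 0.000001) / Gs k R * X s)
    (hC : ∑ s ∈ range 8, dr s / 1000 * X s ≤ C) :
    ∑ s ∈ range 8, ∑ j ∈ JW N s, lw j * A s j ≤ Th N * (cc N lo T R * F * C) := by
  have hL := log_two_BB_pos hN
  have hB := BB_pos hN
  have hG1 : 0 < Gs 60 R := one_pos.trans_le (one_le_Gs 60 hR)
  have hG2 : 0 < Gs k R := one_pos.trans_le (one_le_Gs k hR)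
  have h1 : 1 / Gs k R ≤ F / Gs 60 R := by
    rw [div_le_iff₀ hF] at hG
    rw [div_le_div_iff₀ hG2 hG1]
    linarith
  calc ∑ s ∈ range 8, ∑ j ∈ JW N s, lw j * A s j
      ≤ ∑ s ∈ range 8, Real.log (2 * BB N) * (BB N / 60) * (1 + 1.2 / T + 0.000001) * (1 / Gs k R) *
          (dr s / 1000 * X s) := by
        refine sum_le_sum fun s hs => ?_
        refine (sum_le_sum fun j hj => mul_le_mul_of_nonneg_right (lw_le' hj) (hA0 s j)).trans ?_
        rw [← mul_sum]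
        refine (mul_le_mul_of_nonneg_left (hA s (mem_range.1 hs)) hL.le).trans (le_of_eq ?_)
        ring
    _ ≤ Real.log (2 * BB N) * (BB N / 60) * (1 + 1.2 / T + 0.000001) * (F / Gs 60 R) * C := by
        rw [← mul_sum]
        refine (mul_le_mul_of_nonneg_left hC (by positivity)).trans (mul_le_mul_of_nonneg_right ?_ hC0)
        exact mul_le_mul_of_nonneg_left h1 (by positivity)
    _ = lo * BB N / 16 * (cc N lo T R * F * C) := by
        unfold cc
        field_simp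
        ring
    _ ≤ _ := mul_le_mul_of_nonneg_right hTh (by have := cc_pos hN hlo hT hR; positivity)

/-- Jensen's inequality for the weights `lw` -/
theorem jensen {N : ℕ} (A : ℕ → ℕ → ℝ) {C p : ℝ} (hC : 0 < C) (hp0 : 0 ≤ p) (hp1 : p ≤ 1) (hA0 : ∀ s j, 0 ≤ A s j)
    (h : ∑ s ∈ range 8, ∑ j ∈ JW N s, lw j * A s j ≤ Th N * C) :
    ∑ s ∈ range 8, ∑ j ∈ JW N s, lw j * A s j ^ p ≤ Th N * C ^ p := by
  have hCp : 0 < C ^ p := Real.rpow_pos_of_pos hC p
  have h1 : ∀ s j, lw j * A s j ^ p ≤ C ^ p * (1 - p) * lw j + C ^ p * p / C * (lw j * A s j) := fun s j => by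
    have h2 := rpow_one_add_le_one_add_mul_self (s := A s j / C - 1)
      (by linarith [div_nonneg (hA0 s j) hC.le]) hp0 hp1
    rw [add_sub_cancel, Real.div_rpow (hA0 s j) hC.le, div_le_iff₀ hCp] at h2
    refine (mul_le_mul_of_nonneg_left h2 (lw_nonneg j)).trans (le_of_eq ?_)
    ring
  refine (sum_le_sum fun s _ => sum_le_sum fun j _ => h1 s j).trans ?_
  simp only [sum_add_distrib, ← mul_sum]
  have h2 := mul_le_mul_of_nonneg_left h (show 0 ≤ C ^ p * p / C by positivity)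
  have h3 : C ^ p * p / C * (Th N * C) = C ^ p * p * Th N := by field_simp
  change C ^ p * (1 - p) * Th N + _ ≤ _
  linarith

theorem sum_ceil {h c1 c2 : ℝ} (t : ℕ → ℝ) (hh : 0 < h) (ht : ∀ s, 0 ≤ t s)
    (h1 : ∑ s ∈ range 8, dr s / 1000 * ((4 * nw s : ℕ) * t s) ≤ c1) (h2 : ∑ s ∈ range 8, dr s / 1000 * t s ≤ c2) :
    ∑ s ∈ range 8, dr s / 1000 * ((⌈((4 * nw s : ℕ) : ℝ) / h⌉₊ : ℕ) * t s) ≤ c1 / h + c2 := by
  refine le_trans ?_ (add_le_add (div_le_div_of_nonneg_right h1 hh.le) h2)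
  rw [sum_div, ← sum_add_distrib]
  refine sum_le_sum fun s _ => ?_
  have h3 := (Nat.ceil_lt_add_one (show 0 ≤ ((4 * nw s : ℕ) : ℝ) / h by positivity)).le
  have h4 := dr_nonneg s
  refine (mul_le_mul_of_nonneg_left (mul_le_mul_of_nonneg_right h3 (ht s)) (by positivity)).trans (le_of_eq ?_)
  ring

theorem le_ceil_mul {h : ℝ} (hh : 0 < h) (x : ℝ) : x ≤ (⌈x / h⌉₊ : ℕ) * h := (div_le_iff₀ hh).1 (Nat.le_ceil _)

theorem Tw_pos' (s : ℕ) : 0 < Tw s := by
  have h : 0 < Yw s := by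
    unfold Yw kk
    rcases Nat.lt_or_ge s 8 with h | h
    · interval_cases s <;> norm_num
    · rw [List.getD_eq_default _ _ h]
      norm_num
  have h1 : (0 : ℝ) < Yw s := by exact_mod_cast h
  unfold Tw
  positivity

theorem boxNoi : BoxNoi := by
  intro N c1 lam a' q' β lo T R h hN hL hq ha hlo hTh hT hR hc hh hh'
  have hex : ∀ s, ∃ P : Fin 3 → ℕ → ℝ, s < 8 → (∑ k, ∑ m ∈ range (4 * nw s), P k m ^ 2 ≤ (n8T s : ℝ) / 10 ^ 22 ∧
      ∀ x : ℝ, ‖∑ i ∈ range (Ew s), ((lam s i - tw s i * (rhoQ (60 * i + c1) : ℝ) : ℝ) : ℂ) * ex (x * i)‖ ≤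
        Tw s * (0.001 + (∑ k, ‖SS (4 * nw s) (P k) x‖ ^ 2) ^ (1 / 8 : ℝ))) := fun s => by
    by_cases hs : s < 8
    · obtain ⟨P, hP⟩ := (hL s hs).2.2.2
      exact ⟨P, fun _ => hP⟩
    · exact ⟨fun _ _ => 0, fun e => absurd e hs⟩
  choose P hP using hex
  obtain ⟨A, hA⟩ : ∃ A : ℕ → ℕ → ℝ, ∀ s j,
      A s j = ∑ k, ‖SS (4 * nw s) (P s k) ((a' / q' + β) * (60 * j + 2))‖ ^ 2 := ⟨_, fun _ _ => rfl⟩
  have hA0 : ∀ s j, 0 ≤ A s j := fun s j => by
    rw [hA]
    exact sum_nonneg fun _ _ => by positivity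
  have h1 : noiS N c1 lam (a' / q' + β) ≤
      Th N * 0.001 + ∑ s ∈ range 8, ∑ j ∈ JW N s, lw j * A s j ^ (1 / 8 : ℝ) := by
    unfold noiS Th
    simp only [sum_mul, ← sum_add_distrib, ← mul_add]
    refine sum_le_sum fun s hs => sum_le_sum fun j _ => mul_le_mul_of_nonneg_left ?_ (lw_nonneg j)
    rw [div_le_iff₀' (Tw_pos' s), hA]
    exact (hP s (mem_range.1 hs)).2 _
  have h2 : ∑ s ∈ range 8, ∑ j ∈ JW N s, lw j * A s j ^ (1 / 8 : ℝ) ≤ Th N * 0.03491 := by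
    unfold Th
    simp only [sum_mul]
    refine sum_le_sum fun s hs => sum_le_sum fun j _ => mul_le_mul_of_nonneg_left ?_ (lw_nonneg j)
    have h3 : A s j ≤ (4 * nw s : ℕ) * ((n8T s : ℝ) / 10 ^ 22) := by
      refine le_trans ?_ (mul_le_mul_of_nonneg_left (hP s (mem_range.1 hs)).1 (Nat.cast_nonneg _))
      rw [hA, mul_sum]
      refine sum_le_sum fun k _ => ?_
      have := normSq_sum_le (range (4 * nw s)) fun i => (P s k i : ℂ) * ex ((a' / q' + β) * (60 * j + 2) * i)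
      simpa only [SS, norm_mul, norm_ex, mul_one, card_range, Complex.norm_real, Real.norm_eq_abs, sq_abs] using this
    have h4 : (4 * nw s : ℕ) * ((n8T s : ℝ) / 10 ^ 22) ≤ 0.03491 ^ 8 := by
      have hs' := mem_range.1 hs
      interval_cases s <;> norm_num [nw, kk, n8T]
    refine (Real.rpow_le_rpow (hA0 s j) (h3.trans h4) (by norm_num)).trans (le_of_eq ?_)
    rw [one_div]
    exact_mod_cast Real.pow_rpow_inv_natCast (x := 0.03491) (n := 8) (by norm_num) (by norm_num)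
  have h3 : ∑ s ∈ range 8, ∑ j ∈ JW N s, lw j * A s j ^ (1 / 8 : ℝ) ≤
      Th N * (cc N lo T R * ff (q2 q') * (1.604e-12 / h + 6.97e-20)) ^ (1 / 8 : ℝ) := by
    have hcc := cc_pos hN hlo hT hR
    have hff := ff_pos (q2 q')
    refine jensen A (by positivity) (by norm_num) (by norm_num) hA0 ?_
    refine glob (k := 60 * q2 q') A (fun s => (⌈((4 * nw s : ℕ) : ℝ) / h⌉₊ : ℕ) * ((n8T s : ℝ) / 10 ^ 22)) hN hlo hTh hT
      hR hff (gh1 _ R (q2_pos hq)) hA0 (by positivity) (fun s hs => ?_) ?_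
    · simp only [hA]
      rw [sum_comm]
      have h4 := fun k : Fin 3 => win_bound (fun i => (P s k i : ℂ)) hN hs hq ha hT hR hc (dvd_mul_right 60 (q2 q'))
        (q2_pos hq) (fun m' r _ h5 h6 => (Nat.Coprime.coprime_mul_left_right h5).symm.dvd_of_dvd_mul_right h6) hh hh'
        (le_ceil_mul hh _) le_rfl
      refine (sum_le_sum fun k _ => h4 k).trans ?_
      simp only [← mul_sum, Complex.norm_real, Real.norm_eq_abs, sq_abs]
      have h5 := dr_nonneg s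
      have h6 := BB_pos hN
      have h7 := GH.Gs_nonneg (60 * q2 q') R
      exact mul_le_mul_of_nonneg_left (mul_le_mul_of_nonneg_left (hP s hs).1 (Nat.cast_nonneg _)) (by positivity)
    · refine sum_ceil _ hh (fun s => by positivity) ?_ ?_ <;> norm_num [sum_range_succ, dr, rw, nw, kk, n8T]
  rw [mul_add, mul_min_of_nonneg _ _ (Th_nonneg N)]
  exact h1.trans (add_le_add le_rfl (le_min h2 h3))

theorem dir_gen {N c1 : ℕ} {lam : ℕ → ℕ → ℝ} {a' : ℤ} {q' k qt : ℕ} {β lo T R h F C : ℝ} (m : ℕ → ℕ)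
    (hN : 10 ^ 23 ≤ N) (hL : LAll c1 lam) (hq : 0 < q') (ha : IsCoprime a' (q' : ℤ)) (hlo : 0 < lo)
    (hTh : lo * BB N / 16 ≤ Th N) (hT : 0 < T) (hR : 1 ≤ R)
    (hc : q2 q' * (T + 0.0325 * dl N β) * R ^ 2 ≤ 0.0015 * BB N) (hk : 60 ∣ k) (hqt : 0 < qt) (hF : 0 < F)
    (hG : Gs 60 R / F ≤ Gs k R) (hd : ∀ m' r : ℕ, Squarefree r → r.Coprime k → q2 q' ∣ m' * r → qt ∣ m') (hh : 0 < h)
    (hh' : h ≤ qt * max 1 (dl N β / (33 * T))) (hm : ∀ s, s < 8 → ((4 * nw s : ℕ) : ℝ) ≤ m s * h) (hC0 : 0 < C)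
    (hC : ∑ s ∈ range 8, dr s / 1000 * (m s * ((n2T s : ℝ) / 10 ^ 9)) ≤ C) :
    ‖phiH N c1 lam (a' / q' + β)‖ ≤ Th N * Real.sqrt (cc N lo T R * F * C) := by
  obtain ⟨A, hA⟩ : ∃ A : ℕ → ℕ → ℝ, ∀ s j, A s j = ‖∑ i ∈ range (5 * Yw s),
      ((lam s (Iw s + i) / Tw s : ℝ) : ℂ) * ex ((a' / q' + β) * (60 * j + 2) * i)‖ ^ 2 := ⟨_, fun _ _ => rfl⟩
  have hA0 : ∀ s j, 0 ≤ A s j := fun s j => by
    rw [hA]
    positivity
  have h1 : ‖phiH N c1 lam (a' / q' + β)‖ ≤ ∑ s ∈ range 8, ∑ j ∈ JW N s, lw j * A s j ^ (1 / 2 : ℝ) := by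
    unfold phiH
    refine (norm_sum_le _ _).trans (sum_le_sum fun s hs => (norm_sum_le _ _).trans (sum_le_sum fun j _ => le_of_eq ?_))
    have h0 : ∑ i ∈ range (Iw s), ((lam s i / Tw s : ℝ) : ℂ) *
        ex ((a' / q' + β) * ((i * (60 * j + 2) + c1 * j : ℕ) : ℝ)) = 0 := sum_eq_zero fun i hi => by
      have h2 : lam s i = 0 := by
        by_contra h3
        exact absurd ((hL s (mem_range.1 hs)).2.1 i h3).1 (not_le.2 (mem_range.1 hi))
      simp [h2]
    have h2 : ∀ i ∈ range (5 * Yw s), ((lam s (Iw s + i) / Tw s : ℝ) : ℂ) *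
        ex ((a' / q' + β) * (((Iw s + i) * (60 * j + 2) + c1 * j : ℕ) : ℝ)) =
        ex ((a' / q' + β) * (Iw s * (60 * j + 2) + c1 * j)) *
          (((lam s (Iw s + i) / Tw s : ℝ) : ℂ) * ex ((a' / q' + β) * (60 * j + 2) * i)) := fun i _ => by
      rw [mul_left_comm, ← ex_add]
      congr 2
      push_cast
      ring
    rw [norm_mul, Complex.norm_real, Real.norm_of_nonneg (lw_nonneg j), Ew, sum_range_add, h0, zero_add,
      sum_congr rfl h2, ← mul_sum, norm_mul, norm_ex, one_mul, hA, ← Real.sqrt_eq_rpow, Real.sqrt_sq (norm_nonneg _)]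
  have hcc := cc_pos hN hlo hT hR
  rw [Real.sqrt_eq_rpow]
  refine h1.trans (jensen A (by positivity) (by norm_num) (by norm_num) hA0 ?_)
  refine glob A (fun s => m s * ((n2T s : ℝ) / 10 ^ 9)) hN hlo hTh hT hR hF hG hA0 hC0.le (fun s hs => ?_) hC
  simp only [hA]
  refine (win_bound _ hN hs hq ha hT hR hc hk hqt hd hh hh' (hm s hs) (by unfold Yw nw; omega)).trans ?_
  have h5 := dr_nonneg s
  have h6 := BB_pos hN
  have h7 := GH.Gs_nonneg k R
  refine mul_le_mul_of_nonneg_left (mul_le_mul_of_nonneg_left ?_ (Nat.cast_nonneg _)) (by positivity)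
  have h8 := (hL s hs).2.2.1
  have h9 : 0 ≤ ∑ i ∈ range (Iw s), lam s i ^ 2 := sum_nonneg fun _ _ => sq_nonneg _
  rw [Ew, sum_range_add] at h8
  simp only [Complex.norm_real, Real.norm_eq_abs, sq_abs, div_pow, ← sum_div]
  rw [div_le_iff₀ (pow_pos (Tw_pos' s) 2)]
  linarith

theorem boxDir : BoxDir := by
  intro N c1 lam a' q' k qt β lo T R h F hN hL hq ha hlo hTh hT hR hc hk hqt hF hG hd hh hh'
  have h2 : ∑ s ∈ range 8, dr s / 1000 * ((n2T s : ℝ) / 10 ^ 9) ≤ 2.14e-6 := by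
    norm_num [sum_range_succ, dr, rw, n2T]
  refine ⟨dir_gen (fun s => ⌈((4 * nw s : ℕ) : ℝ) / h⌉₊) hN hL hq ha hlo hTh hT hR hc hk hqt hF hG hd hh hh'
    (fun s _ => le_ceil_mul hh _) (by positivity) (sum_ceil _ hh (fun s => by positivity) ?_ h2), fun h3 =>
    dir_gen (fun _ => 1) hN hL hq ha hlo hTh hT hR hc hk hqt hF hG hd hh hh' (fun s hs => ?_) (by norm_num) ?_⟩
  · norm_num [sum_range_succ, dr, rw, nw, kk, n2T]
  · have h4 : ((4 * nw s : ℕ) : ℝ) ≤ 34611200 := by exact_mod_cast nw_le hs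
    rw [Nat.cast_one, one_mul]
    exact h4.trans h3
  · simpa only [Nat.cast_one, one_mul] using h2

end Cfsg.Agent.Depth.D
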