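import Cfsg.Agent.Depth.D.Tau
import Cfsg.Agent.Depth.D.Rho

/-!
# Depth (S5768): the comparison weight, `boxNu` (helper23)
-/

set_option autoImplicit false

namespace Cfsg.Agent.Depth.D

open Finset Real Cfsg.Agent.Depth.S
open scoped Classical

/-- weighted sums over the windows -/
theorem norm_win_le (N : ℕ) (f : ℕ → ℕ → ℂ) {c : ℝ} (h : ∀ s, s < 8 → ∀ j ∈ JW N s, ‖f s j‖ ≤ c) :
    ‖∑ s ∈ range 8, ∑ j ∈ JW N s, (lw j : ℂ) * f s j‖ ≤ Th N * c := by
  rw [Th, sum_mul]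
  refine norm_sum_le_of_le _ fun s hs => ?_
  rw [sum_mul]
  refine norm_sum_le_of_le _ fun j hj => ?_
  rw [norm_mul, Complex.norm_real, Real.norm_of_nonneg (lw_nonneg j)]
  exact mul_le_mul_of_nonneg_left (h s (mem_range.1 hs) j hj) (lw_nonneg j)

theorem norm_b (j : ℕ) : ‖(60 * j + 2 : ℂ)‖ = 60 * j + 2 := by
  have := Complex.norm_natCast (60 * j + 2)
  push_cast at this
  exact this

theorem norm_Dk_b (j : ℕ) (θ : ℝ) : ‖Dk (60 * j + 2) θ / (60 * j + 2)‖ ≤ 1 := by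
  have := norm_Dk_le (60 * j + 2) θ
  push_cast at this
  rw [norm_div, norm_b]
  exact (div_le_one (by positivity)).2 this

theorem nu_sin {N : ℕ} (c1 : ℕ) (hN : 10 ^ 23 ≤ N) (θ : ℝ) :
    ‖nuH N c1 θ‖ * (11304960 * BB N * |sin (π * θ)|) ≤ Th N := by
  have hB := BB_pos hN
  rcases eq_or_ne (sin (π * θ)) 0 with h | h
  · rw [h, abs_zero, mul_zero, mul_zero]
    exact Th_nonneg N
  have h0 := abs_pos.2 h
  rw [← le_div_iff₀ (by positivity), div_eq_mul_one_div]
  refine norm_win_le N _ fun s _ j hj => ?_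
  have h1 := (inW_bounds (mem_JW.1 hj).2.1).1
  have h2 := norm_Dk_mul_sin (60 * j + 2) θ
  have h3 := norm_tau_mul_sin s (θ * (60 * j + 2))
  have h4 := Yw_ge s
  push_cast at h2
  rw [← h2] at h3
  rw [le_div_iff₀ (by positivity), norm_mul, norm_mul, norm_ex, one_mul, norm_div, norm_b, ← Dk]
  refine le_trans ?_ h3
  rw [mul_assoc]
  refine mul_le_mul_of_nonneg_left ?_ (norm_nonneg _)
  rw [div_mul_eq_mul_div, div_le_iff₀ (by positivity)]
  have h5 : 11304960 * BB N ≤ 4 * Yw s * (60 * j + 2) := by nlinarith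
  nlinarith [mul_le_mul_of_nonneg_left h5 (mul_nonneg (norm_nonneg (Dk (60 * j + 2) θ)) h0.le)]

theorem nu_far {N : ℕ} (c1 : ℕ) (hN : 10 ^ 23 ≤ N) {β : ℝ} (h : |β| ≤ 0.1) (h' : 0.75 < |β| * (2 * BB N + 1)) :
    ‖nuH N c1 β‖ ≤ Th N * 0.000001 := by
  have hB := BB_ge hN
  have h1 := nu_sin c1 hN β
  have h2 := two_nd_le_sin β
  rw [nd_eq_abs (by linarith)] at h2
  have h3 : 1000000 ≤ 11304960 * BB N * |sin (π * β)| := by nlinarith
  nlinarith [norm_nonneg (nuH N c1 β)]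

theorem mat_inner (N c1 j : ℕ) (β : ℝ) :
    ∑ ps ∈ QF, ∑ a ∈ (range ps.prod).filter (fun a => Val N 1 ps.prod β ∧ Mat 0 1 ps.prod a j), rh c1 ps a =
      if |β| * (2 * BB N + 1) ≤ 0.75 then 1 else 0 := by
  rw [sum_eq_single [] (fun ps hps h => sum_eq_zero fun a ha => ?_) fun h => (h (by simp [QF])).elim]
  · rw [sum_filter, List.prod_nil, range_one, sum_singleton, rh_nil]
    simp [Val, Mat, qc]
  · obtain ⟨h1, h2⟩ := mem_filter.1 ha
    have h3 : ps.prod ∣ a := by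
      generalize ps.prod = q at h2
      simpa [Mat, Int.natCast_dvd_natCast] using h2.2
    obtain rfl := Nat.eq_zero_of_dvd_of_lt h3 (mem_range.1 h1)
    refine ((boxRho c1).2 ps hps 0 (mem_range.1 h1)).2 ?_
    rw [Nat.coprime_zero_left]
    rcases QF_cases hps with rfl | ⟨p, rfl, -, h7⟩ | ⟨p, p', rfl, -, -, h7, h7', -⟩
    · exact (h rfl).elim
    · simp only [List.prod_cons, List.prod_nil]; omega
    · simp only [List.prod_cons, List.prod_nil]; nlinarith

theorem norm_one_sub_Dk (j : ℕ) (β : ℝ) :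
    ‖1 - Dk (60 * j + 2) β / (60 * j + 2)‖ ≤ 2 * π * |β * (60 * j + 2)| := by
  have h0 : (0 : ℝ) < 60 * j + 2 := by positivity
  have h1 : (60 * j + 2 : ℂ) ≠ 0 := by rw [← norm_pos_iff, norm_b]; exact h0
  have h2 : (1 : ℂ) - Dk (60 * j + 2) β / (60 * j + 2) = -(∑ v ∈ range (60 * j + 2), (ex (β * v) - 1)) / (60 * j + 2) := by
    rw [sum_sub_distrib, sum_const, card_range, nsmul_eq_mul, Dk]
    push_cast
    field_simp
    ring
  rw [h2, norm_div, norm_neg, norm_b, div_le_iff₀ h0]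
  refine (norm_sum_le_of_le _ (n := fun _ => 2 * π * |β * (60 * j + 2)|) fun v hv => ?_).trans (le_of_eq ?_)
  · have h3 : (v : ℝ) ≤ 60 * j + 2 := by exact_mod_cast (mem_range.1 hv).le
    rw [norm_ex_sub_one, mul_assoc]
    refine mul_le_mul_of_nonneg_left (abs_sin_le_abs.trans ?_) two_pos.le
    rw [abs_mul, abs_of_pos pi_pos, abs_mul, abs_mul, abs_of_pos h0, Nat.abs_cast]
    gcongr
  · rw [sum_const, card_range, nsmul_eq_mul]
    push_cast
    ring

theorem tau_mul_abs (s : ℕ) {u : ℝ} (h : |u| ≤ 0.75) : ‖tau s u‖ * (2 * π * |u|) ≤ 0.000001 := by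
  have h1 : |u| / 3 ≤ nd u := le_nd_of_abs (by linarith [abs_nonneg u]) (by linarith)
  have h2 := two_nd_le_sin u
  have h3 := norm_tau_mul_sin s u
  have h4 := Yw_ge s
  have h5 : 2 * π * |u| ≤ 0.000001 * (4 * Yw s * |sin (π * u)|) := by
    nlinarith [mul_le_mul h4 (show 2 / 3 * |u| ≤ |sin (π * u)| by linarith) (by positivity) (by linarith),
      mul_le_mul_of_nonneg_right pi_lt_d2.le (abs_nonneg u), abs_nonneg u]
  nlinarith [mul_le_mul_of_nonneg_left h5 (norm_nonneg (tau s u))]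

theorem boxNu : BoxNu := by
  intro N c1 hN hc
  refine ⟨nu_sin c1 hN, fun β d0 hβ h0 hd => ?_, fun β hβ => ?_⟩
  · rcases le_or_gt (|β| * (2 * BB N + 1)) 0.75 with h | h
    · refine norm_win_le N _ fun s hs j hj => ?_
      rw [norm_mul, norm_mul, norm_ex, one_mul]
      exact (mul_le_of_le_one_right (norm_nonneg _) (norm_Dk_b j β)).trans
        (boxTau N c1 s j β d0 hN hc hs (mem_JW.1 hj).2.1 h0 hd h)
    · exact (nu_far c1 hN hβ h).trans (mul_le_mul_of_nonneg_left (omg_ge d0) (Th_nonneg N))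
  · simp only [matH, mat_inner, Int.cast_zero, zero_div, zero_add]
    split_ifs with h
    · rw [nuH, ← sum_sub_distrib]
      simp only [← sum_sub_distrib, ← mul_sub]
      refine norm_win_le N _ fun s _ j hj => ?_
      have h1 := (inW_bounds (mem_JW.1 hj).2.1).2
      rw [norm_mul, norm_mul, norm_ex, one_mul]
      refine (mul_le_mul_of_nonneg_left (norm_one_sub_Dk j β) (norm_nonneg _)).trans (tau_mul_abs s ?_)
      rw [abs_mul, abs_of_nonneg (show (0 : ℝ) ≤ 60 * j + 2 by positivity)]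
      exact le_trans (mul_le_mul_of_nonneg_left (by linarith) (abs_nonneg β)) h
    · simp only [mul_zero, sum_const_zero, zero_sub, norm_neg]
      exact nu_far c1 hN hβ (not_le.1 h)

end Cfsg.Agent.Depth.D
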