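import Cfsg.Agent.Depth.D.Win
import Cfsg.Agent.Depth.S.Basic

/-!
# Depth (S5768): the transform `tau` of the trapezoid, `boxTau` (helper23)

`Dk n u` the Dirichlet kernel, `tau_eq` the product form, norm bounds.
-/

set_option autoImplicit false

namespace Cfsg.Agent.Depth.D

open Finset Real Cfsg.Agent.Depth.S

/-- the Dirichlet kernel -/
noncomputable def Dk (n : ℕ) (u : ℝ) : ℂ := ∑ i ∈ range n, ex (u * i)

theorem norm_Dk_le (n : ℕ) (u : ℝ) : ‖Dk n u‖ ≤ n := norm_geom_le u n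

theorem norm_Dk_mul_sin (n : ℕ) (u : ℝ) : ‖Dk n u‖ * |sin (π * u)| = |sin (π * (u * n))| := by
  have h := congrArg norm (geom_mul u n)
  rw [norm_mul, norm_ex_sub_one, norm_ex_sub_one] at h
  rw [Dk]
  linarith

theorem norm_Dk_mul_sin_le (n : ℕ) (u : ℝ) : ‖Dk n u‖ * |sin (π * u)| ≤ 1 := norm_geom_mul_sin u n

theorem ex_sub_one (x : ℝ) : ex x - 1 = ex (x / 2) * (2 * Complex.I * sin (π * x)) := by
  have h1 : ex (x / 2) = Complex.exp (((π * x : ℝ) : ℂ) * Complex.I) := by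
    rw [ex_eq]; congr 3; ring
  have h2 : ex x = ex (x / 2) * ex (x / 2) := by rw [← ex_add, add_halves]
  have h3 : (1 : ℂ) = ex (x / 2) * Complex.exp (-((π * x : ℝ) : ℂ) * Complex.I) := by
    rw [h1, ← Complex.exp_add]; simp
  rw [h2, h3, ← mul_sub, h1, Complex.ofReal_sin, Complex.sin]
  congr 1
  linear_combination (Complex.exp (((π * x : ℝ) : ℂ) * Complex.I) - Complex.exp (-((π * x : ℝ) : ℂ) * Complex.I)) *
    Complex.I_mul_I

theorem Dk_mul_sin (n : ℕ) (u : ℝ) : Dk n u * sin (π * u) = ex (u * (n - 1) / 2) * sin (π * (u * n)) := by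
  have h := geom_mul u n
  rw [ex_sub_one, ex_sub_one, show u * n / 2 = u / 2 + u * (n - 1) / 2 by ring, ex_add] at h
  refine mul_left_cancel₀ (mul_ne_zero (ex_ne_zero (u / 2)) (mul_ne_zero two_ne_zero Complex.I_ne_zero)) ?_
  rw [Dk]
  linear_combination h

theorem Dk_add_int (n : ℕ) (u : ℝ) (m : ℤ) : Dk n (u + m) = Dk n u :=
  sum_congr rfl fun i _ => by rw [add_mul, ← ex_add_int (u * i) (m * i)]; push_cast; rfl

theorem kk_ge (s : ℕ) : 92 ≤ kk s := by
  rcases Nat.lt_or_ge s 8 with h | h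
  · interval_cases s <;> decide
  · obtain ⟨k, rfl⟩ := Nat.exists_eq_add_of_le' h
    exact le_refl 92

theorem Yw_ge (s : ℕ) : (2826240 : ℝ) ≤ Yw s := by
  have := kk_ge s
  exact_mod_cast (show 2826240 ≤ Yw s by unfold Yw; omega)

theorem Yw_pos (s : ℕ) : (0 : ℝ) < Yw s := by linarith [Yw_ge s]

theorem Tw_pos (s : ℕ) : 0 < Tw s := by
  have := Yw_pos s
  unfold Tw
  positivity

theorem Iw_eq (s : ℕ) : (Iw s : ℝ) = 0.3 * Yw s := by
  unfold Iw Yw
  push_cast
  ring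

/-- sums against the trapezoid -/
theorem sum_tw (s : ℕ) (f : ℕ → ℂ) :
    ∑ i ∈ range (Ew s), (tw s i : ℂ) * f i = ∑ x ∈ range (4 * Yw s), ∑ y ∈ range (Yw s), f (Iw s + x + y) := by
  rw [← sum_product', ← sum_fiberwise_of_maps_to (s := range (4 * Yw s) ×ˢ range (Yw s)) (t := range (Ew s))
    (g := fun x => Iw s + x.1 + x.2) fun x hx => by
      have h1 := mem_range.1 (mem_product.1 hx).1
      have h2 := mem_range.1 (mem_product.1 hx).2
      rw [mem_range, Ew]; omega]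
  refine sum_congr rfl fun i _ => ?_
  rw [sum_congr rfl fun x hx => by rw [(mem_filter.1 hx).2], sum_const, nsmul_eq_mul, tw]

/-- **the product form** -/
theorem tau_eq (s : ℕ) (u : ℝ) : tau s u = ex (u * Iw s) * Dk (4 * Yw s) u * Dk (Yw s) u / Tw s := by
  have h := sum_tw s fun i => ex (u * i)
  rw [eq_div_iff (Complex.ofReal_ne_zero.2 (Tw_pos s).ne'), tau, sum_mul, Dk, Dk, mul_assoc, sum_mul_sum, mul_sum]
  refine Eq.trans (sum_congr rfl fun i _ => ?_) (h.trans (sum_congr rfl fun x _ => ?_))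
  · have := Complex.ofReal_ne_zero.2 (Tw_pos s).ne'
    push_cast
    field_simp
  · rw [mul_sum]
    refine sum_congr rfl fun y _ => ?_
    rw [← ex_add, ← ex_add]
    push_cast
    congr 1
    ring

theorem tau_per (s : ℕ) (u : ℝ) (m : ℤ) : tau s (u + m) = tau s u :=
  sum_congr rfl fun i _ => by rw [add_mul, ← ex_add_int (u * i) (m * i)]; push_cast; rfl

theorem norm_tau (s : ℕ) (u : ℝ) :
    ‖tau s u‖ = ‖Dk (4 * Yw s) u‖ / (4 * Yw s) * (‖Dk (Yw s) u‖ / Yw s) := by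
  rw [tau_eq, norm_div, norm_mul, norm_mul, norm_ex, one_mul, Complex.norm_real, Real.norm_of_nonneg (Tw_pos s).le, Tw,
    div_mul_div_comm]

theorem Dk_div_le (s : ℕ) (u : ℝ) : ‖Dk (Yw s) u‖ / Yw s ≤ 1 := (div_le_one (Yw_pos s)).2 (norm_Dk_le _ _)

theorem Dk_div_le' (s : ℕ) (u : ℝ) : ‖Dk (4 * Yw s) u‖ / (4 * Yw s) ≤ 1 := by
  have := Yw_pos s
  rw [div_le_one (by positivity)]
  exact_mod_cast norm_Dk_le (4 * Yw s) u

theorem norm_tau_le_Dk (s : ℕ) (u : ℝ) : ‖tau s u‖ ≤ ‖Dk (4 * Yw s) u‖ / (4 * Yw s) := by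
  have := Yw_pos s
  rw [norm_tau]
  exact mul_le_of_le_one_right (by positivity) (Dk_div_le s u)

theorem norm_tau_le_one (s : ℕ) (u : ℝ) : ‖tau s u‖ ≤ 1 := (norm_tau_le_Dk s u).trans (Dk_div_le' s u)

theorem norm_tau_mul_le (s : ℕ) (u : ℝ) : ‖tau s u‖ * (4 * Yw s * |sin (π * u)|) ≤ |sin (π * (u * (4 * Yw s)))| := by
  have h0 := Yw_pos s
  have h1 := norm_Dk_mul_sin (4 * Yw s) u
  push_cast at h1
  rw [← h1, ← mul_assoc]
  exact mul_le_mul_of_nonneg_right ((le_div_iff₀ (by positivity)).1 (norm_tau_le_Dk s u)) (abs_nonneg _)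

theorem norm_tau_mul_sin (s : ℕ) (u : ℝ) : ‖tau s u‖ * (4 * Yw s * |sin (π * u)|) ≤ 1 :=
  (norm_tau_mul_le s u).trans (abs_sin_le_one _)

theorem norm_tau_mul_sin_sq (s : ℕ) (u : ℝ) : ‖tau s u‖ * (4 * Yw s ^ 2 * sin (π * u) ^ 2) ≤ 1 := by
  have h0 := Yw_pos s
  have h1 := mul_le_one₀ (norm_Dk_mul_sin_le (4 * Yw s) u) (by positivity) (norm_Dk_mul_sin_le (Yw s) u)
  refine le_trans (le_of_eq ?_) h1
  rw [norm_tau, ← sq_abs (sin _)]
  field_simp

/-- the norm bound of the plan -/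
theorem norm_tau_le_min (s : ℕ) {u : ℝ} (h : sin (π * u) ≠ 0) :
    ‖tau s u‖ ≤ min 1 (1 / (4 * Yw s * |sin (π * u)|)) * min 1 (1 / (Yw s * |sin (π * u)|)) := by
  have h0 := Yw_pos s
  have h1 := abs_pos.2 h
  rw [norm_tau]
  refine mul_le_mul (le_min (Dk_div_le' s u) ?_) (le_min (Dk_div_le s u) ?_) (by positivity) (by positivity)
  · rw [div_le_div_iff₀ (by positivity) (by positivity)]
    nlinarith [norm_Dk_mul_sin_le (4 * Yw s) u]
  · rw [div_le_div_iff₀ (by positivity) (by positivity)]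
    nlinarith [norm_Dk_mul_sin_le (Yw s) u]

/-! ### elementary inequalities -/

theorem nonneg_of_deriv {f f' : ℝ → ℝ} (h0 : f 0 = 0) (hf : ∀ x, HasDerivAt f (f' x) x) (h : ∀ x, 0 ≤ x → 0 ≤ f' x)
    {x : ℝ} (hx : 0 ≤ x) : 0 ≤ f x := by
  have := monotoneOn_of_deriv_nonneg (convex_Ici 0) (fun x _ => (hf x).continuousAt.continuousWithinAt)
    (fun x _ => (hf x).differentiableAt.differentiableWithinAt)
    (fun x hx => by rw [(hf x).deriv]; exact h x (interior_subset hx)) Set.self_mem_Ici hx hx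
  rwa [h0] at this

theorem cos_le_four {x : ℝ} (hx : 0 ≤ x) : cos x ≤ 1 - x ^ 2 / 2 + x ^ 4 / 24 := by
  have := nonneg_of_deriv (f := fun x => 1 - x ^ 2 / 2 + x ^ 4 / 24 - cos x) (f' := fun x => -x + x ^ 3 / 6 + sin x)
    (by simp) (fun x => by
      refine (((((hasDerivAt_pow 2 x).div_const 2).const_sub 1).add ((hasDerivAt_pow 4 x).div_const 24)).sub
        (hasDerivAt_cos x)).congr_deriv ?_
      norm_num; ring) (fun x hx => by linarith [sin_ge_sub_cube hx]) hx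
  linarith

theorem sin_le_five {x : ℝ} (hx : 0 ≤ x) : sin x ≤ x - x ^ 3 / 6 + x ^ 5 / 120 := by
  have := nonneg_of_deriv (f := fun x => x - x ^ 3 / 6 + x ^ 5 / 120 - sin x)
    (f' := fun x => 1 - x ^ 2 / 2 + x ^ 4 / 24 - cos x) (by simp) (fun x => by
      refine ((((hasDerivAt_id x).sub ((hasDerivAt_pow 3 x).div_const 6)).add ((hasDerivAt_pow 5 x).div_const 120)).sub
        (hasDerivAt_sin x)).congr_deriv ?_
      norm_num; ring) (fun x hx => by linarith [cos_le_four hx]) hx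
  linarith

theorem abs_sin_abs (x : ℝ) : |sin (|x|)| = |sin x| := by
  rcases abs_choice x with h | h <;> rw [h]
  rw [sin_neg, abs_neg]

/-- the real form of `omg` -/
theorem omg_cast (d : ℚ) : (omg d : ℝ) = min (if 0.6606 * (d : ℝ) ≤ 3.1 then
    max (1 - (0.6606 * (d : ℝ)) ^ 2 / 6 + (0.6606 * (d : ℝ)) ^ 4 / 120) 0.3184 else 0.3184 : ℝ)
    (if (d : ℝ) ≤ 1 then 1 else 1 / (0.63 * (d : ℝ))) + 0.000001 := by
  have h1 : (0.6606 * d ≤ 3.1) ↔ (0.6606 * (d : ℝ) ≤ 3.1) := by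
    rw [← Rat.cast_le (K := ℝ)]; push_cast; norm_num
  have h2 : (d ≤ 1) ↔ ((d : ℝ) ≤ 1) := by rw [← Rat.cast_le (K := ℝ)]; push_cast; rfl
  unfold omg
  simp only [h1, h2]
  split_ifs <;> push_cast <;> norm_num

theorem omg_ge (d : ℚ) : (0.000001 : ℝ) ≤ omg d := by
  rw [omg_cast, le_add_iff_nonneg_left]
  refine le_min ?_ ?_ <;> split_ifs with h
  · exact le_max_of_le_right (by norm_num)
  · norm_num
  · norm_num
  · have : (0 : ℝ) < d := by linarith [not_le.1 h]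
    positivity

/-- the bound for `sin x / x` -/
theorem abs_sin_le_omg {d : ℚ} (hd : 0 ≤ d) {x : ℝ} (hx : 0.6606 * d ≤ |x|) : |sin x| ≤ (omg d - 0.000001) * |x| := by
  have hd' : (0 : ℝ) ≤ d := by exact_mod_cast hd
  rw [omg_cast, add_sub_cancel_right, ← abs_sin_abs]
  have h0 := abs_nonneg x
  generalize |x| = y at *
  have h1 : |sin y| ≤ y := abs_sin_le_abs.trans (abs_of_nonneg h0).le
  rw [min_mul_of_nonneg _ _ h0]
  refine le_min ?_ ?_
  · rcases le_total y π with h | h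
    · have h2 : |sin y| ≤ (1 - y ^ 2 / 6 + y ^ 4 / 120) * y := by
        rw [abs_of_nonneg (sin_nonneg_of_nonneg_of_le_pi h0 h)]
        linarith [sin_le_five h0]
      have h3 : y ^ 2 ≤ 10 := by nlinarith [pi_lt_d2]
      have mono : ∀ t, 0 ≤ t → t ≤ y → 1 - y ^ 2 / 6 + y ^ 4 / 120 ≤ 1 - t ^ 2 / 6 + t ^ 4 / 120 := fun t ht hty => by
        have h4 : t ^ 2 ≤ y ^ 2 := pow_le_pow_left₀ ht hty 2
        nlinarith [mul_nonneg (sub_nonneg.2 h4) (show 0 ≤ 20 - y ^ 2 - t ^ 2 by linarith)]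
      refine h2.trans (mul_le_mul_of_nonneg_right ?_ h0)
      split_ifs with h5
      · exact le_max_of_le_left (mono _ (by positivity) hx)
      · exact (mono 3.1 (by norm_num) (by linarith [not_le.1 h5])).trans (by norm_num)
    · have h2 : |sin y| ≤ 0.3184 * y := by linarith [abs_sin_le_one y, pi_gt_d4]
      refine h2.trans (mul_le_mul_of_nonneg_right ?_ h0)
      split_ifs
      · exact le_max_right _ _
      · exact le_rfl
  · split_ifs with h
    · rwa [one_mul]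
    · have h2 := not_le.1 h
      refine (abs_sin_le_one y).trans ?_
      rw [div_mul_eq_mul_div, le_div_iff₀ (by positivity)]
      linarith

theorem omg_sub_le (d : ℚ) : (omg d : ℝ) - 0.000001 ≤ 1.6 := by
  rw [omg_cast, add_sub_cancel_right]
  refine min_le_of_right_le ?_
  split_ifs with h
  · norm_num
  · have h2 := not_le.1 h
    rw [div_le_iff₀ (by positivity)]
    linarith

theorem one_le_omg_zero : (1 : ℝ) ≤ omg 0 := by
  rw [omg_cast]
  norm_num

theorem abs_sin_ge {u : ℝ} (h : |u| ≤ 0.0001) : π * |u| ≤ |sin (π * u)| * (1 + 0.0000001) := by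
  have h0 := abs_nonneg u
  have h1 : |sin (π * u)| = |sin (π * |u|)| := by rw [← abs_sin_abs, abs_mul, abs_of_pos pi_pos]
  have h2 : 0 ≤ π * |u| := by positivity
  have h3 : π * |u| ≤ 0.0004 := by nlinarith [pi_lt_four]
  have h4 := (sin_ge_sub_cube h2).trans (le_abs_self _)
  rw [h1]
  generalize π * |u| = y at *
  have h5 : y ^ 3 ≤ 0.00000016 * y := by nlinarith [mul_le_mul h3 h3 h2 (by norm_num)]
  nlinarith

/-- the bound for `tau` -/
theorem norm_tau_le_omg (s : ℕ) {u : ℝ} {d : ℚ} (hd : 0 ≤ d) (hu : |u| ≤ 0.75) (h : 0.6606 * d ≤ 4 * π * Yw s * |u|) :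
    ‖tau s u‖ ≤ omg d := by
  have hY := Yw_ge s
  rcases eq_or_ne u 0 with rfl | h0
  · have h1 : (d : ℝ) ≤ 0 := by rw [abs_zero, mul_zero] at h; linarith
    rw [le_antisymm (by exact_mod_cast h1) hd]
    exact (norm_tau_le_one s 0).trans one_le_omg_zero
  have h1 := abs_pos.2 h0
  rcases le_total |u| 0.0001 with h2 | h2
  · have h3 : |π * (u * (4 * Yw s))| = 4 * Yw s * (π * |u|) := by
      rw [abs_mul, abs_mul, abs_of_pos pi_pos, abs_of_nonneg (show (0 : ℝ) ≤ 4 * Yw s by linarith)]; ring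
    have h4 := (norm_tau_mul_le s u).trans (abs_sin_le_omg hd (by rw [h3]; linarith))
    have h5 := abs_sin_ge h2
    have h6 := omg_ge d
    have h7 := omg_sub_le d
    have h8 : 0 < |sin (π * u)| := by nlinarith [mul_pos pi_pos h1]
    rw [h3] at h4
    refine le_of_mul_le_mul_right (h4.trans ?_) (show 0 < 4 * Yw s * |sin (π * u)| by positivity)
    rw [mul_left_comm, mul_left_comm (omg d : ℝ)]
    refine mul_le_mul_of_nonneg_left ((mul_le_mul_of_nonneg_left h5 (by linarith)).trans ?_) (by linarith)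
    nlinarith
  · have h3 : 0.0002 ≤ |sin (π * u)| := by
      linarith [two_nd_le_sin u, le_nd_of_abs h2 (by linarith)]
    have h4 := norm_tau_mul_sin_sq s u
    have h5 : 0.0002 ^ 2 ≤ sin (π * u) ^ 2 := by rw [← sq_abs (sin _)]; exact pow_le_pow_left₀ (by norm_num) h3 2
    have h6 : (2826240 : ℝ) ^ 2 ≤ Yw s ^ 2 := pow_le_pow_left₀ (by norm_num) hY 2
    have h7 : 1000000 ≤ 4 * (Yw s : ℝ) ^ 2 * sin (π * u) ^ 2 :=
      le_trans (by norm_num) (mul_le_mul (mul_le_mul_of_nonneg_left h6 (by norm_num)) h5 (by norm_num) (by positivity))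
    refine le_trans ?_ (omg_ge d)
    nlinarith [norm_nonneg (tau s u)]

/-- the size of `b Y` in the window -/
theorem bY_bounds {N s j : ℕ} (hN : 10 ^ 23 ≤ N) (hs : s < 8) (h : InW N s j) :
    0.9557 * (5422080 * BB N) ≤ (60 * j + 2) * (Yw s : ℝ) ∧ (60 * j + 2) * (Yw s : ℝ) ≤ 1.0445 * (5422080 * BB N) := by
  have hB := BB_ge hN
  obtain ⟨h1, h2⟩ := h
  interval_cases s <;> norm_num [rw, Yw, kk] at h1 h2 ⊢ <;> constructor <;> linarith

theorem dl_eq (N : ℕ) (β : ℝ) : dl N β = 98500000 * (|β| * BB N) := by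
  rw [dl, N_eq]
  ring

theorem boxTau : BoxTau := by
  intro N c1 s j β d0 hN _ hs hj h0 hd hβ
  have h1 := (inW_bounds hj).2
  have h2 := (bY_bounds hN hs hj).1
  have h3 : (0 : ℝ) ≤ 60 * j + 2 := by positivity
  have h4 := abs_nonneg β
  refine norm_tau_le_omg s h0 ?_ ?_ <;> rw [abs_mul, abs_of_nonneg h3]
  · exact le_trans (mul_le_mul_of_nonneg_left (by linarith) h4) hβ
  · rw [dl_eq] at hd
    have h5 := mul_le_mul_of_nonneg_left h2 h4
    have h6 : 0 ≤ |β| * BB N := mul_nonneg h4 (BB_nonneg N)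
    nlinarith [mul_le_mul pi_gt_d4.le h5 (by nlinarith) pi_pos.le]

end Cfsg.Agent.Depth.D
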