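import Cfsg.Agent.Depth.D.Tau

/-!
# Depth (S5768): `tau` is nearly constant over the windows, `boxZet` (helper23)
-/

set_option autoImplicit false

namespace Cfsg.Agent.Depth.D

open Finset Real Cfsg.Agent.Depth.S

/-- `sin t / t` -/
noncomputable def scz (t : ℝ) : ℝ := sin t / t

theorem abs_scz_le {t c : ℝ} (h0 : t ≠ 0) (h : |sin t| ≤ c * |t|) : |scz t| ≤ c := by
  rw [scz, abs_div, div_le_iff₀ (abs_pos.2 h0)]
  exact h

theorem abs_scz_le_one {t : ℝ} (h0 : t ≠ 0) : |scz t| ≤ 1 := abs_scz_le h0 (by rw [one_mul]; exact abs_sin_le_abs)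

theorem abs_scz_le_omg {t : ℝ} (h0 : t ≠ 0) {d : ℚ} (hd : 0 ≤ d) (h : 0.6606 * d ≤ |t|) : |scz t| ≤ omg d :=
  (abs_scz_le h0 (abs_sin_le_omg hd h)).trans (by linarith)

theorem scz_deriv {a τ : ℝ} (ha : a ≠ 0) (hτ : τ ≠ 0) :
    HasDerivAt (fun τ => scz (a * τ)) ((cos (a * τ) - scz (a * τ)) / τ) τ := by
  have h1 : HasDerivAt (fun τ => a * τ) a τ := by simpa using (hasDerivAt_id τ).const_mul a
  refine (h1.sin.div h1 (mul_ne_zero ha hτ)).congr_deriv ?_
  rw [scz]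
  field_simp

theorem sin_sub_le {t : ℝ} (ht : 0 ≤ t) : |sin t - t * cos t| ≤ t ^ 3 / 3 := by
  have h1 : ∀ x, HasDerivAt (fun x => sin x - x * cos x) (x * sin x) x := fun x => by
    refine ((hasDerivAt_sin x).sub ((hasDerivAt_id x).mul (hasDerivAt_cos x))).congr_deriv ?_
    simp
  have h2 : ∀ x : ℝ, HasDerivAt (fun x : ℝ => x ^ 3 / 3) (x ^ 2) x := fun x => by
    refine ((hasDerivAt_pow 3 x).div_const 3).congr_deriv ?_
    norm_num
  have h3 : ∀ x : ℝ, 0 ≤ x → |x * sin x| ≤ x ^ 2 := fun x hx => by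
    rw [abs_mul, abs_of_nonneg hx, sq]
    exact mul_le_mul_of_nonneg_left (abs_sin_le_abs.trans (abs_of_nonneg hx).le) hx
  have h4 := nonneg_of_deriv (f := fun x => x ^ 3 / 3 - (sin x - x * cos x)) (by simp) (fun x => (h2 x).sub (h1 x))
    (fun x hx => by linarith [(abs_le.1 (h3 x hx)).2]) ht
  have h5 := nonneg_of_deriv (f := fun x => x ^ 3 / 3 + (sin x - x * cos x)) (by simp) (fun x => (h2 x).add (h1 x))
    (fun x hx => by linarith [(abs_le.1 (h3 x hx)).1]) ht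
  exact abs_le.2 ⟨by linarith, by linarith⟩

theorem cos_sub_scz {t T : ℝ} (h0 : t ≠ 0) (h : |t| ≤ T) : |cos t - scz t| ≤ min (T ^ 2 / 3) 1.14 := by
  have key : ∀ t : ℝ, 0 < t → |cos t - scz t| ≤ t ^ 2 / 3 := fun t ht => by
    have h1 := sin_sub_le ht.le
    rw [show cos t - scz t = -(sin t - t * cos t) / t by rw [scz]; field_simp; ring, abs_div, abs_neg, abs_of_pos ht,
      div_le_iff₀ ht]
    linarith
  have h1 : |cos t - scz t| ≤ t ^ 2 / 3 := by
    rcases lt_or_gt_of_ne h0 with h2 | h2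
    · have h3 := key (-t) (by linarith)
      rwa [cos_neg, scz, sin_neg, neg_div_neg_eq, neg_sq, ← scz] at h3
    · exact key t h2
  have h2 : t ^ 2 ≤ T ^ 2 := by rw [← sq_abs t]; exact pow_le_pow_left₀ (abs_nonneg t) h 2
  refine le_min (by linarith) ?_
  rcases le_total (t ^ 2) 3.42 with h3 | h3
  · linarith
  · refine abs_le_of_sq_le_sq' ?_ (by norm_num) |> abs_le.2
    have h4 : scz t * t = sin t := div_mul_cancel₀ _ h0
    have h5 := sin_sq_add_cos_sq t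
    have h6 : (cos t - scz t) ^ 2 * t ^ 2 ≤ 1.14 ^ 2 * t ^ 2 := by
      have h7 : (cos t - scz t) ^ 2 * t ^ 2 = (t * cos t - sin t) ^ 2 := by rw [← h4]; ring
      nlinarith [sq_nonneg (t * sin t + cos t)]
    exact le_of_mul_le_mul_right h6 (by positivity)

/-- the continuous model -/
noncomputable def Gz (x τ : ℝ) : ℂ := ex (2.8 * x * τ) * ((scz (4 * π * x * τ) * scz (π * x * τ) : ℝ) : ℂ)

theorem norm_Gz (x τ : ℝ) : ‖Gz x τ‖ = |scz (4 * π * x * τ)| * |scz (π * x * τ)| := by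
  rw [Gz, norm_mul, norm_ex, one_mul, Complex.norm_real, Real.norm_eq_abs, abs_mul]

theorem ex_deriv (c τ : ℝ) : HasDerivAt (fun τ : ℝ => ex (c * τ)) (ex (c * τ) * ((2 * π * c : ℝ) * Complex.I)) τ := by
  have h1 : ∀ τ : ℝ, ex (c * τ) = Complex.exp ((2 * π * c : ℝ) * Complex.I * τ) := fun τ => by
    rw [ex_eq]; push_cast; congr 1; ring
  simp only [h1]
  simpa using (((hasDerivAt_id τ).ofReal_comp).const_mul (((2 * π * c : ℝ) : ℂ) * Complex.I)).cexp

theorem Gz_sub {x σ : ℝ} (hx : x ≠ 0) {d0 d1 : ℚ} (h0 : 0 ≤ d0) (h1 : 0.055046 * d0 ≤ |x|) (h2 : |x| ≤ 0.055047 * d1)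
    (hσ : σ ∈ Set.Icc (0.9557 : ℝ) 1.0445) : ‖Gz x σ - Gz x 1‖ ≤ zet d0 d1 - 0.00001 := by
  have ha : 4 * π * x ≠ 0 := by positivity
  have hb : π * x ≠ 0 := by positivity
  have hx0 := abs_pos.2 hx
  have h0' : (0 : ℝ) ≤ d0 := by exact_mod_cast h0
  have h := Convex.norm_image_sub_le_of_norm_hasDerivWithin_le (f := Gz x) (s := Set.Icc (0.9557 : ℝ) 1.0445)
    (f' := fun τ => ex (2.8 * x * τ) * ((((cos (4 * π * x * τ) - scz (4 * π * x * τ)) / τ * scz (π * x * τ) +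
      scz (4 * π * x * τ) * ((cos (π * x * τ) - scz (π * x * τ)) / τ) : ℝ) : ℂ) +
      ((2 * π * (2.8 * x) * (scz (4 * π * x * τ) * scz (π * x * τ)) : ℝ) : ℂ) * Complex.I))
    (C := Real.sqrt ((0.9685 * (d1 : ℝ) * omg d0) ^ 2 +
      (1.0472 * (min ((0.7229 * (d1 : ℝ)) ^ 2 / 3) 1.14 + min ((0.1808 * (d1 : ℝ)) ^ 2 / 3) 1.14)) ^ 2))
    (fun τ hτ => ?_) (fun τ hτ => ?_) (convex_Icc _ _) (show (1 : ℝ) ∈ _ by norm_num) hσ
  · rw [zet, add_sub_cancel_right, mul_comm]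
    refine h.trans (mul_le_mul_of_nonneg_left ?_ (sqrt_nonneg _))
    rw [Real.norm_eq_abs, abs_le]
    constructor <;> linarith [hσ.1, hσ.2]
  · have hτ0 : τ ≠ 0 := by linarith [hτ.1]
    refine HasDerivAt.hasDerivWithinAt (((ex_deriv (2.8 * x) τ).mul
      ((scz_deriv ha hτ0).mul (scz_deriv hb hτ0)).ofReal_comp).congr_deriv ?_)
    simp only [Pi.mul_apply]
    push_cast
    ring
  · obtain ⟨h3, h4⟩ := hτ
    have hτ0 : 0 < τ := by linarith
    have e1 : |4 * π * x * τ| = 4 * (π * (|x| * τ)) := by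
      rw [abs_mul, abs_mul, abs_of_pos hτ0, abs_of_pos (show 0 < 4 * π by positivity)]; ring
    have e2 : |π * x * τ| = π * (|x| * τ) := by rw [abs_mul, abs_mul, abs_of_pos hτ0, abs_of_pos pi_pos]; ring
    have h5 : 0.055046 * d0 * 0.9557 ≤ |x| * τ := mul_le_mul h1 h3 (by norm_num) hx0.le
    have h6 : |x| * τ ≤ 0.055047 * d1 * 1.0445 := mul_le_mul h2 h4 hτ0.le (by linarith)
    have h7 := mul_le_mul pi_gt_d4.le h5 (by positivity) pi_pos.le
    have h8 := mul_le_mul pi_lt_d4.le h6 (by positivity) (by norm_num)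
    have s1 := abs_scz_le_one (mul_ne_zero ha hτ0.ne')
    have s2 := abs_scz_le_one (mul_ne_zero hb hτ0.ne')
    have s3 := abs_scz_le_omg (mul_ne_zero ha hτ0.ne') h0 (by rw [e1]; linarith)
    have c1 := cos_sub_scz (T := 0.7229 * d1) (mul_ne_zero ha hτ0.ne') (by rw [e1]; linarith)
    have c2 := cos_sub_scz (T := 0.1808 * d1) (mul_ne_zero hb hτ0.ne') (by rw [e2]; linarith)
    rw [norm_mul, norm_ex, one_mul, Complex.norm_add_mul_I, add_comm]
    refine sqrt_le_sqrt (add_le_add (sq_le_sq.2 (le_trans ?_ (le_abs_self _))) (sq_le_sq.2 (le_trans ?_ (le_abs_self _))))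
    · rw [abs_mul, abs_mul (scz _), abs_mul, abs_mul 2.8, abs_of_pos (show 0 < 2 * π by positivity),
        abs_of_pos (show (0 : ℝ) < 2.8 by norm_num)]
      refine mul_le_mul ?_ ((mul_le_of_le_one_right (abs_nonneg _) s2).trans s3) (by positivity) (by linarith)
      linarith [mul_le_mul pi_lt_d4.le h2 hx0.le (by norm_num)]
    · have h9 : 1 / τ ≤ 1.0472 := by rw [div_le_iff₀ hτ0]; linarith
      refine (abs_add_le _ _).trans ?_
      rw [abs_mul, abs_mul, abs_div, abs_div, abs_of_pos hτ0, mul_add]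
      refine add_le_add ((mul_le_of_le_one_right (by positivity) s2).trans ?_)
        ((mul_le_of_le_one_left (by positivity) s1).trans ?_) <;> rw [div_eq_inv_mul, ← one_div]
      · exact mul_le_mul h9 c1 (abs_nonneg _) (by norm_num)
      · exact mul_le_mul h9 c2 (abs_nonneg _) (by norm_num)

theorem tau_zero (s : ℕ) : tau s 0 = 1 := by
  have h0 := Complex.ofReal_ne_zero.2 (Tw_pos s).ne'
  rw [tau_eq, div_eq_one_iff_eq h0, Tw]
  simp [Dk, ex_zero]

/-- the discrete and the continuous model -/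
theorem tau_model (s : ℕ) {u x σ : ℝ} (h0 : u ≠ 0) (h1 : sin (π * u) ≠ 0) (h : x * σ = Yw s * u) :
    tau s u = ex (-u) * ((π * u / sin (π * u)) ^ 2 : ℝ) * Gz x σ := by
  have hY := (Yw_pos s).ne'
  have h1' := Complex.ofReal_ne_zero.2 h1
  have e : ∀ n : ℕ, Dk n u = ex (u * (n - 1) / 2) * (sin (π * (u * n)) / sin (π * u) : ℝ) := fun n => by
    rw [Complex.ofReal_div, ← mul_div_assoc, eq_div_iff h1', Dk_mul_sin]
  have e1 : ex (u * Iw s) * ex (u * ((4 * Yw s : ℕ) - 1) / 2) * ex (u * (Yw s - 1) / 2) = ex (-u) * ex (2.8 * x * σ) := by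
    rw [← ex_add, ← ex_add, ← ex_add, mul_assoc 2.8, h, Iw_eq]
    push_cast
    congr 1
    ring
  have e2 : sin (π * (u * (4 * Yw s : ℕ))) / sin (π * u) * (sin (π * (u * Yw s)) / sin (π * u)) / Tw s =
      (π * u / sin (π * u)) ^ 2 * (scz (4 * π * x * σ) * scz (π * x * σ)) := by
    rw [mul_assoc (4 * π), mul_assoc π x, h, scz, scz, Tw, show 4 * π * (Yw s * u) = π * (u * (4 * Yw s : ℕ)) by
      push_cast; ring, mul_comm (Yw s : ℝ) u]
    have := pi_pos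
    push_cast
    field_simp
  rw [tau_eq, e, e, Gz]
  have e3 := congrArg (fun t : ℝ => (t : ℂ)) e2
  simp only [Complex.ofReal_mul _ (_ * _), Complex.ofReal_div _ (Tw s), Complex.ofReal_mul (_ / _)] at e3
  linear_combination (ex (-u) * ex (2.8 * x * σ)) * e3 + (((sin (π * (u * (4 * Yw s : ℕ))) / sin (π * u) : ℝ) : ℂ) *
    ((sin (π * (u * Yw s)) / sin (π * u) : ℝ) : ℂ) / Tw s) * e1

theorem boxZet : BoxZet := by
  intro N c1 β d0 d1 hN hc h0 hd0 hd1 h8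
  have hB := BB_pos hN
  have hz : (0.00001 : ℝ) ≤ zet d0 d1 := le_add_of_nonneg_left (by positivity)
  rw [dl_eq] at hd0 hd1
  rcases eq_or_ne β 0 with rfl | hβ
  · have h1 : (d0 : ℝ) ≤ 0 := by simpa using hd0
    refine ⟨1, ?_, fun s j _ _ => ?_⟩
    · rw [le_antisymm (by exact_mod_cast h1) h0, norm_one]
      exact one_le_omg_zero
    · rw [zero_mul, zero_mul, ex_zero, tau_zero, one_mul, sub_self, norm_zero]
      linarith
  have h8' : (d1 : ℝ) ≤ 8 := by exact_mod_cast h8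
  have h0' : (0 : ℝ) ≤ d0 := by exact_mod_cast h0
  have hβ0 := abs_pos.2 hβ
  obtain ⟨x, hx⟩ : ∃ x, x = β * (5422080 * BB N) := ⟨_, rfl⟩
  have hx0 : x ≠ 0 := by rw [hx]; positivity
  have hx1 : |x| = 5422080 * (|β| * BB N) := by rw [hx, abs_mul, abs_of_pos (show 0 < 5422080 * BB N by positivity)]; ring
  have ha : 4 * π * x * 1 ≠ 0 := by positivity
  refine ⟨Gz x 1, ?_, fun s j hs hj => ?_⟩
  · rw [norm_Gz]
    refine (mul_le_of_le_one_right (abs_nonneg _) (abs_scz_le_one (by positivity))).trans (abs_scz_le_omg ha h0 ?_)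
    rw [mul_one, abs_mul, abs_of_pos (show 0 < 4 * π by positivity)]
    nlinarith [mul_le_mul_of_nonneg_right pi_gt_d4.le (abs_nonneg x)]
  obtain ⟨h1, h2⟩ := bY_bounds hN hs hj
  have hY := Yw_ge s
  obtain ⟨σ, hσ⟩ : ∃ σ, σ = (60 * j + 2) * (Yw s : ℝ) / (5422080 * BB N) := ⟨_, rfl⟩
  have h3 : σ ∈ Set.Icc (0.9557 : ℝ) 1.0445 := by
    rw [hσ]
    exact ⟨(le_div_iff₀ (by positivity)).2 h1, (div_le_iff₀ (by positivity)).2 h2⟩
  have h4 := Gz_sub hx0 h0 (d1 := d1) (by linarith) (by linarith [mul_pos hβ0 hB]) h3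
  have hσ0 : σ ≠ 0 := by linarith [h3.1]
  have h5 : ‖Gz x σ‖ ≤ 1 := by
    rw [norm_Gz]
    exact mul_le_one₀ (abs_scz_le_one (by positivity)) (abs_nonneg _) (abs_scz_le_one (by positivity))
  have hb : (0 : ℝ) < 60 * j + 2 := by positivity
  have h6 : |β * (c1 * j) + -(β * (60 * j + 2))| ≤ |β * (60 * j + 2)| := by
    have h7 : (c1 : ℝ) * j ≤ 60 * j := by gcongr; exact_mod_cast hc.le
    have h9 : (0 : ℝ) ≤ c1 * j := by positivity
    rw [← sub_eq_add_neg, ← mul_sub, abs_mul, abs_mul, abs_of_pos hb]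
    exact mul_le_mul_of_nonneg_left (abs_le.2 ⟨by linarith, by linarith⟩) hβ0.le
  have h7 : |β * (60 * j + 2)| ≤ 0.0000002 := by
    rw [abs_mul, abs_of_pos hb]
    have h9 := mul_le_mul_of_nonneg_left h2 hβ0.le
    nlinarith [mul_le_mul_of_nonneg_left hY (mul_pos hβ0 hb).le]
  have h9 : x * σ = Yw s * (β * (60 * j + 2)) := by rw [hx, hσ]; field_simp
  have h10 : β * (60 * j + 2) ≠ 0 := by positivity
  generalize β * (60 * j + 2) = u at *
  have h11 := abs_sin_ge (u := u) (by linarith)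
  have h12 : 0 < π * |u| := mul_pos pi_pos (abs_pos.2 h10)
  have h13 : 0 < |sin (π * u)| := by linarith
  have h14 : |sin (π * u)| ≤ π * |u| := abs_sin_le_abs.trans (by rw [abs_mul, abs_of_pos pi_pos])
  obtain ⟨ρ, hρ, r1, r2⟩ : ∃ ρ : ℝ, (π * u / sin (π * u)) ^ 2 = ρ ∧ 1 ≤ ρ ∧ ρ ≤ 1.000001 := by
    refine ⟨_, rfl, ?_, ?_⟩ <;> rw [← sq_abs, abs_div, abs_mul, abs_of_pos pi_pos]
    · exact one_le_pow₀ ((one_le_div h13).2 h14)
    · exact (pow_le_pow_left₀ (by positivity) ((div_le_iff₀' h13).2 h11) 2).trans (by norm_num)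
  rw [tau_model s h10 (abs_pos.1 h13) h9, hρ, ← mul_assoc, ← mul_assoc, ← ex_add]
  generalize β * (c1 * j) + -u = ε at *
  have h15 : ‖ex ε - 1‖ ≤ 0.000002 := by
    have h16 : |sin (π * ε)| ≤ π * |ε| := abs_sin_le_abs.trans (by rw [abs_mul, abs_of_pos pi_pos])
    rw [norm_ex_sub_one]
    nlinarith [mul_le_mul pi_lt_four.le (h6.trans h7) (abs_nonneg ε) (by norm_num)]
  have h16 : ‖ex ε * ρ - 1‖ ≤ 0.00001 := by
    rw [show ex ε * ρ - 1 = ex ε * ((ρ - 1 : ℝ) : ℂ) + (ex ε - 1) by push_cast; ring]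
    refine (norm_add_le _ _).trans ?_
    rw [norm_mul, norm_ex, one_mul, Complex.norm_real, Real.norm_of_nonneg (by linarith)]
    linarith
  rw [show ex ε * ρ * Gz x σ - Gz x 1 = (ex ε * ρ - 1) * Gz x σ + (Gz x σ - Gz x 1) by ring]
  refine (norm_add_le _ _).trans ?_
  rw [norm_mul]
  linarith [mul_le_of_le_one_right (norm_nonneg (ex ε * ρ - 1)) h5]

end Cfsg.Agent.Depth.D
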