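import Cfsg.Agent.Depth.D.M3
import Cfsg.Agent.Depth.D.M5
import Cfsg.Agent.Depth.D.Tau
import Cfsg.Agent.Depth.D.Zet
import Cfsg.Agent.Depth.D.Noi
import Cfsg.Agent.Depth.D.Nu
import Cfsg.Agent.Depth.D.For

/-!
# Depth (S5768): the boxes M1, M4, M5 with Tau and Zet plugged in (helper20)
-/

set_option autoImplicit false

namespace Cfsg.Agent.Depth.D

theorem boxM1' : BoxM1 := boxM1 boxTau

theorem boxM4' : BoxM4 := boxM4 boxZet

theorem boxM5' : BoxM5 := boxM5 boxTau boxZet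

end Cfsg.Agent.Depth.D
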