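import Cfsg.Agent.Depth.DDefs

/-!
# Depth (S5768): the windows for `p₂` (helper78)

`JA N` is the disjoint union of the windows `JW N s`, `s < 8`; intervals, sieve condition, weights, `boxTh`.
-/

set_option autoImplicit false

namespace Cfsg.Agent.Depth.D

open Finset
open scoped Classical

/-- the primes `60 j + 1` in `(B, 2 B]` -/
noncomputable def JA (N : ℕ) : Finset ℕ :=
  (range N).filter (fun j => (BB N < (60 * j + 1 : ℝ) ∧ (60 * j + 1 : ℝ) ≤ 2 * BB N) ∧ (60 * j + 1).Prime)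

theorem BB_nonneg (N : ℕ) : 0 ≤ BB N := by
  unfold BB
  positivity

theorem BB_ge {N : ℕ} (h : 10 ^ 23 ≤ N) : 16900000000000 ≤ BB N := by
  have h1 : (10 : ℝ) ^ 23 ≤ N := by exact_mod_cast h
  unfold BB
  rw [le_div_iff₀ (by norm_num)]
  linarith

theorem BB_pos {N : ℕ} (h : 10 ^ 23 ≤ N) : 0 < BB N := by linarith [BB_ge h]

theorem N_eq (N : ℕ) : (N : ℝ) = 5910000000 * BB N := by
  unfold BB
  ring

theorem mem_JW {N s j : ℕ} : j ∈ JW N s ↔ j < N ∧ InW N s j ∧ (60 * j + 1).Prime := by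
  rw [JW, mem_filter, mem_range]

theorem mem_JA {N j : ℕ} :
    j ∈ JA N ↔ (BB N < (60 * j + 1 : ℝ) ∧ (60 * j + 1 : ℝ) ≤ 2 * BB N) ∧ (60 * j + 1).Prime := by
  rw [JA, mem_filter, mem_range]
  refine ⟨fun h => h.2, fun h => ⟨?_, h⟩⟩
  have h1 := h.1.2
  have h2 := N_eq N
  have h3 := BB_nonneg N
  have h4 : (0 : ℝ) ≤ j := Nat.cast_nonneg j
  have h5 : (j : ℝ) < N := by linarith
  exact_mod_cast h5

theorem rw_le {s t : ℕ} (h : s ≤ t) : rw s ≤ rw t := by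
  refine monotone_nat_of_le_succ (f := rw) (fun n => ?_) h
  rcases Nat.lt_or_ge n 8 with h1 | h1
  · interval_cases n <;> decide
  · obtain ⟨k, rfl⟩ := Nat.exists_eq_add_of_le' h1
    cases k with
    | zero => decide
    | succ k => exact le_refl 2000

theorem rw_ge (s : ℕ) : (1000 : ℝ) ≤ rw s := by exact_mod_cast rw_le (Nat.zero_le s)

theorem rw_le_two (s : ℕ) : (rw s : ℝ) ≤ 2000 := by
  have h : rw s ≤ rw (s + 9) := rw_le (by omega)
  exact_mod_cast h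

/-- the windows lie in `(B, 2 B]` -/
theorem inW_bounds {N s j : ℕ} (h : InW N s j) : BB N < (60 * j + 1 : ℝ) ∧ (60 * j + 1 : ℝ) ≤ 2 * BB N := by
  obtain ⟨h1, h2⟩ := h
  have h3 := mul_le_mul_of_nonneg_right (rw_ge s) (BB_nonneg N)
  have h4 := mul_le_mul_of_nonneg_right (rw_le_two (s + 1)) (BB_nonneg N)
  constructor <;> linarith

theorem JW_subset (N s : ℕ) : JW N s ⊆ JA N := fun _ hj =>
  mem_JA.2 ⟨inW_bounds (mem_JW.1 hj).2.1, (mem_JW.1 hj).2.2⟩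

theorem inW_unique {N s t j : ℕ} (hs : InW N s j) (ht : InW N t j) : s = t := by
  have key : ∀ {s t : ℕ}, InW N s j → InW N t j → ¬ s < t := fun {s t} hs ht h => by
    have h1 : (rw (s + 1) : ℝ) ≤ rw t := by exact_mod_cast rw_le h
    have h2 := mul_le_mul_of_nonneg_right h1 (BB_nonneg N)
    linarith [hs.2, ht.1]
  have h1 := key hs ht
  have h2 := key ht hs
  omega

theorem exists_inW {N j : ℕ} (h1 : BB N < (60 * j + 1 : ℝ)) (h2 : (60 * j + 1 : ℝ) ≤ 2 * BB N) :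
    ∃ s, s < 8 ∧ InW N s j := by
  by_contra h
  push Not at h
  have key : ∀ s, s ≤ 8 → rw s * BB N < 1000 * (60 * j + 1 : ℝ) := by
    intro s
    induction s with
    | zero =>
      intro _
      have : (rw 0 : ℝ) = 1000 := by norm_num [rw]
      rw [this]
      linarith
    | succ n ih =>
      intro hn
      by_contra h3
      exact h n (by omega) ⟨ih (by omega), not_lt.1 h3⟩
  have h3 := key 8 le_rfl
  have : (rw 8 : ℝ) = 2000 := by norm_num [rw]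
  rw [this] at h3
  linarith

theorem biUnion_JW (N : ℕ) : (range 8).biUnion (JW N) = JA N := by
  ext j
  rw [mem_biUnion]
  constructor
  · rintro ⟨s, -, h⟩
    exact JW_subset N s h
  · intro h
    obtain ⟨s, hs, h1⟩ := exists_inW (mem_JA.1 h).1.1 (mem_JA.1 h).1.2
    exact ⟨s, mem_range.2 hs, mem_JW.2 ⟨mem_range.1 (mem_filter.1 h).1, h1, (mem_JA.1 h).2⟩⟩

/-- **sums over the windows** -/
theorem sum_win {M : Type*} [AddCommMonoid M] (N : ℕ) (f : ℕ → M) :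
    ∑ s ∈ range 8, ∑ j ∈ JW N s, f j = ∑ j ∈ JA N, f j := by
  rw [← biUnion_JW, sum_biUnion]
  intro s _ t _ hst
  exact disjoint_left.2 fun j h1 h2 => hst (inW_unique (mem_JW.1 h1).2.1 (mem_JW.1 h2).2.1)

/-- the same for a filtered sum -/
theorem sum_win_filter {M : Type*} [AddCommMonoid M] (N : ℕ) (P : ℕ → Prop) [DecidablePred P] (f : ℕ → M) :
    ∑ s ∈ range 8, ∑ j ∈ (JW N s).filter P, f j = ∑ j ∈ (JA N).filter P, f j := by
  simp only [sum_filter]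
  exact sum_win N _

theorem Th_eq (N : ℕ) : Th N = ∑ j ∈ JA N, lw j := sum_win N lw

theorem lw_nonneg (j : ℕ) : 0 ≤ lw j := by
  have h : (0 : ℝ) ≤ j := Nat.cast_nonneg j
  exact Real.log_nonneg (by linarith)

theorem Th_nonneg (N : ℕ) : 0 ≤ Th N := by
  rw [Th_eq]
  exact sum_nonneg fun j _ => lw_nonneg j

theorem lw_le {N j : ℕ} (h : j ∈ JA N) : lw j ≤ Real.log (2 * BB N) := by
  have h1 : (0 : ℝ) ≤ j := Nat.cast_nonneg j
  exact Real.log_le_log (by linarith) (mem_JA.1 h).1.2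

theorem lw_le' {N s j : ℕ} (h : j ∈ JW N s) : lw j ≤ Real.log (2 * BB N) := lw_le (JW_subset N s h)

theorem log_two_BB_pos {N : ℕ} (h : 10 ^ 23 ≤ N) : 0 < Real.log (2 * BB N) :=
  Real.log_pos (by linarith [BB_ge h])

theorem sifted {N j : ℕ} (h : j ∈ JA N) (k : ℕ) {R : ℝ} (hR : R ≤ BB N) : Sifted 60 1 k R j := by
  intro p hp hpR _ hd
  have h1 := (Nat.prime_dvd_prime_iff_eq hp (mem_JA.1 h).2).1 hd
  have h2 : (p : ℝ) = 60 * j + 1 := by exact_mod_cast h1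
  linarith [(mem_JA.1 h).1.1]

theorem sifted' {N s j : ℕ} (h : j ∈ JW N s) (k : ℕ) {R : ℝ} (hR : R ≤ BB N) : Sifted 60 1 k R j :=
  sifted (JW_subset N s h) k hR

/-- the integers of a real interval -/
theorem exists_Ico {a b : ℝ} (hab : a ≤ b) :
    ∃ j0 Y : ℕ, (Y : ℝ) ≤ b - a + 1 ∧ ∀ j : ℕ, a < j → (j : ℝ) ≤ b → j0 ≤ j ∧ j < j0 + Y := by
  rcases lt_or_ge b 0 with hb | hb
  · exact ⟨0, 0, by push_cast; linarith, fun j _ h => absurd (h.trans_lt hb) (not_lt.2 (Nat.cast_nonneg j))⟩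
  rcases lt_or_ge a 0 with ha | ha
  · refine ⟨0, ⌊b⌋₊ + 1, ?_, fun j _ h => ⟨Nat.zero_le j, ?_⟩⟩
    · push_cast
      linarith [Nat.floor_le hb]
    · have := Nat.le_floor h
      omega
  · have h1 : ⌊a⌋₊ ≤ ⌊b⌋₊ := Nat.floor_le_floor hab
    refine ⟨⌊a⌋₊ + 1, ⌊b⌋₊ - ⌊a⌋₊, ?_, fun j h2 h3 => ?_⟩
    · rw [Nat.cast_sub h1]
      linarith [Nat.floor_le hb, Nat.lt_floor_add_one a]
    · have h4 := Nat.le_floor h3
      have h5 := (Nat.floor_lt ha).2 h2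
      omega

/-- `JA N` lies in an interval of length at most `B / 60 + 1` -/
theorem JA_Ico (N : ℕ) : ∃ j0 Y : ℕ, (Y : ℝ) ≤ BB N / 60 + 1 ∧ ∀ j ∈ JA N, j0 ≤ j ∧ j < j0 + Y := by
  obtain ⟨j0, Y, h1, h2⟩ := exists_Ico (a := (BB N - 1) / 60) (b := (2 * BB N - 1) / 60) (by linarith [BB_nonneg N])
  refine ⟨j0, Y, by linarith, fun j hj => h2 j ?_ ?_⟩
  · linarith [(mem_JA.1 hj).1.1]
  · linarith [(mem_JA.1 hj).1.2]

/-- `JW N s` lies in an interval of length at most `(r_{s+1} - r_s) B / 60000 + 1` -/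
theorem JW_Ico (N s : ℕ) : ∃ j0 Y : ℕ, (Y : ℝ) ≤ ((rw (s + 1) : ℝ) - rw s) * BB N / 60000 + 1 ∧
    ∀ j ∈ JW N s, j0 ≤ j ∧ j < j0 + Y := by
  have h0 : (rw s : ℝ) ≤ rw (s + 1) := by exact_mod_cast rw_le (Nat.le_succ s)
  have h3 := mul_le_mul_of_nonneg_right h0 (BB_nonneg N)
  obtain ⟨j0, Y, h1, h2⟩ := exists_Ico (a := (rw s * BB N / 1000 - 1) / 60) (b := (rw (s + 1) * BB N / 1000 - 1) / 60)
    (by linarith)
  refine ⟨j0, Y, by linarith, fun j hj => h2 j ?_ ?_⟩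
  · linarith [(mem_JW.1 hj).2.1.1]
  · linarith [(mem_JW.1 hj).2.1.2]

/-- `θ` on an interval -/
theorem th_sub (W c : ℕ) {x y : ℝ} (hx : 0 ≤ x) (h : x ≤ y) : th W c y - th W c x =
    ∑ p ∈ (Icc 1 ⌊y⌋₊).filter (fun p : ℕ => x < p ∧ p.Prime ∧ p % W = c % W), Real.log p := by
  unfold th
  rw [sub_eq_iff_eq_add, ← sum_filter_add_sum_filter_not _ (fun p : ℕ => x < p), filter_filter, filter_filter]
  congr 1
  · exact sum_congr (filter_congr fun p _ => and_comm) fun _ _ => rfl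
  · refine sum_congr ?_ fun _ _ => rfl
    ext p
    simp only [mem_filter, mem_Icc, not_lt]
    constructor
    · rintro ⟨⟨h1, -⟩, h2, h3⟩
      exact ⟨⟨h1, Nat.le_floor h3⟩, h2⟩
    · rintro ⟨⟨h1, h2⟩, h3⟩
      exact ⟨⟨h1, h2.trans (Nat.floor_le_floor h)⟩, h3, (Nat.le_floor_iff hx).1 h2⟩

/-- the weight of the `j` with `60 j + 1 ≡ c` modulo a multiple `W` of `60` -/
theorem sum_class (N : ℕ) {W c : ℕ} (hW : 60 ∣ W) (hc : c % 60 = 1) :
    ∑ j ∈ (JA N).filter (fun j => (60 * j + 1) % W = c % W), lw j = th W c (2 * BB N) - th W c (BB N) := by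
  have hB := BB_nonneg N
  rw [th_sub W c hB (by linarith)]
  refine sum_bij (fun j _ => 60 * j + 1) (fun j hj => ?_) (fun a _ b _ h => by omega) (fun p hp => ?_) fun j _ => ?_
  · obtain ⟨h1, h2⟩ := mem_filter.1 hj
    obtain ⟨⟨h3, h4⟩, h5⟩ := mem_JA.1 h1
    refine mem_filter.2 ⟨mem_Icc.2 ⟨by omega, Nat.le_floor ?_⟩, ?_, h5, h2⟩
    · push_cast
      exact h4
    · push_cast
      exact h3
  · obtain ⟨h1, h2, h3, h4⟩ := mem_filter.1 hp
    have h5 : p % 60 = 1 := by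
      rw [← Nat.mod_mod_of_dvd p hW, h4, Nat.mod_mod_of_dvd c hW, hc]
    have h6 : 60 * (p / 60) + 1 = p := by omega
    have h7 : (60 * (p / 60 : ℕ) + 1 : ℝ) = p := by exact_mod_cast h6
    refine ⟨p / 60, mem_filter.2 ⟨mem_JA.2 ⟨⟨?_, ?_⟩, ?_⟩, ?_⟩, h6⟩
    · rwa [h7]
    · rw [h7]
      exact (Nat.le_floor_iff (by linarith)).1 (mem_Icc.1 h1).2
    · rwa [h6]
    · rwa [h6]
  · unfold lw
    push_cast
    rfl

theorem Th_eq_th (N : ℕ) : Th N = th 60 1 (2 * BB N) - th 60 1 (BB N) := by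
  rw [Th_eq, ← sum_class N (dvd_refl 60) (c := 1) rfl, filter_true_of_mem fun j _ => by omega]

theorem boxTh : BoxTh := by
  intro N x0 lo up _ h hx
  have h1 := (h 1 (BB N) (by norm_num) hx).1
  have h2 : ((Nat.totient 60 : ℕ) : ℝ) = 16 := by
    rw [show Nat.totient 60 = 16 by decide +kernel]
    norm_num
  rwa [h2, ← Th_eq_th] at h1

end Cfsg.Agent.Depth.D
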